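import Mathlib

/-!
Primes dividing class sizes: in a non-solvable finite group any two such primes are at distance
at most two in the "divides a common class size" graph (Itô's covering argument, transfer).
-/

set_option autoImplicit false
set_option maxHeartbeats 200000

namespace Cfsg.Agent.H56.ClassSizePrimes

open Subgroup

variable {G : Type*} [Group G]

/-- the size of the conjugacy class -/
noncomputable abbrev idx (x : G) : ℕ := (Subgroup.centralizer ({x} : Set G)).index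

/-- two numbers divide a common class size -/
def Adj (G : Type*) [Group G] (a b : ℕ) : Prop := ∃ x : G, a * b ∣ idx x

lemma Adj.symm {a b : ℕ} (h : Adj G a b) : Adj G b a := by
  obtain ⟨x, hx⟩ := h
  exact ⟨x, by rwa [mul_comm]⟩

lemma adj_of {a b : ℕ} (ha : a.Prime) (hb : b.Prime) (hab : a ≠ b) {x : G}
    (h1 : a ∣ idx x) (h2 : b ∣ idx x) : Adj G a b :=
  ⟨x, Nat.Coprime.mul_dvd_of_dvd_of_dvd ((Nat.coprime_primes ha hb).2 hab) h1 h2⟩

lemma commutator_le_ker {B : Type*} [Group B] (f : G →* B) (h : ∀ a b : B, a * b = b * a) :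
    _root_.commutator G ≤ f.ker := by
  rw [_root_.commutator_def, Subgroup.commutator_le]
  intro a _ b _
  rw [MonoidHom.mem_ker, map_commutatorElement]
  exact commutatorElement_eq_one_iff_commute.2 (h (f a) (f b))

variable [Finite G]

lemma exists_sylow_le {p : ℕ} [hp : Fact p.Prime] {H : Subgroup G} (h : ¬ p ∣ H.index) :
    ∃ P : Sylow p G, (P : Subgroup G) ≤ H := by
  obtain ⟨R⟩ : Nonempty (Sylow p H) := inferInstance
  have hc : Nat.card ((R : Subgroup H).map H.subtype) = p ^ (Nat.card G).factorization p := by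
    rw [Subgroup.card_map_of_injective H.subtype_injective, Sylow.card_eq_multiplicity,
      ← Subgroup.card_mul_index H,
      Nat.factorization_mul Nat.card_pos.ne' Subgroup.index_ne_zero_of_finite]
    simp [Nat.factorization_eq_zero_of_not_dvd h]
  exact ⟨Sylow.ofCard _ hc, by rw [Sylow.coe_ofCard]; exact Subgroup.map_subtype_le _⟩

lemma idx_conj (g x : G) : idx (g * x * g⁻¹) = idx x := by
  have h : Subgroup.centralizer ({g * x * g⁻¹} : Set G) =
      (Subgroup.centralizer ({x} : Set G)).map (MulAut.conj g).toMonoidHom := by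
    ext y
    simp only [Subgroup.mem_map, Subgroup.mem_centralizer_singleton_iff,
      MulEquiv.coe_toMonoidHom, MulAut.conj_apply]
    constructor
    · intro hy
      refine ⟨g⁻¹ * y * g, ?_, by group⟩
      calc g⁻¹ * y * g * x = g⁻¹ * (y * (g * x * g⁻¹)) * g := by group
        _ = g⁻¹ * (g * x * g⁻¹ * y) * g := by rw [hy]
        _ = x * (g⁻¹ * y * g) := by group
    · rintro ⟨z, hz, rfl⟩
      calc g * z * g⁻¹ * (g * x * g⁻¹) = g * (z * x) * g⁻¹ := by group
        _ = g * (x * z) * g⁻¹ := by rw [hz]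
        _ = g * x * g⁻¹ * (g * z * g⁻¹) := by group
  unfold idx
  rw [h]
  exact Subgroup.index_map_of_bijective (MulAut.conj g).bijective _

lemma not_dvd_idx_iff {p : ℕ} [hp : Fact p.Prime] (P : Sylow p G) (x : G) :
    ¬ p ∣ idx x ↔ ∃ g : G, g * x * g⁻¹ ∈ Subgroup.centralizer ((P : Subgroup G) : Set G) := by
  constructor
  · intro h
    obtain ⟨R, hR⟩ := exists_sylow_le h
    obtain ⟨g, hg⟩ := MulAction.exists_smul_eq G R P
    refine ⟨g, fun y hy => ?_⟩
    rw [← hg, Sylow.coe_subgroup_smul] at hy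
    obtain ⟨z, hz, rfl⟩ := hy
    have := Subgroup.mem_centralizer_singleton_iff.1 (hR hz)
    show g * z * g⁻¹ * (g * x * g⁻¹) = g * x * g⁻¹ * (g * z * g⁻¹)
    calc g * z * g⁻¹ * (g * x * g⁻¹) = g * (z * x) * g⁻¹ := by group
      _ = g * (x * z) * g⁻¹ := by rw [this]
      _ = g * x * g⁻¹ * (g * z * g⁻¹) := by group
  · rintro ⟨g, hg⟩
    rw [← idx_conj g x]
    intro h
    refine P.not_dvd_index (h.trans (Subgroup.index_dvd_of_le ?_))
    intro y hy
    exact Subgroup.mem_centralizer_singleton_iff.2 (hg y hy)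

/-- the normalizer of a Sylow subgroup is its centralizer -/
def NC (G : Type*) [Group G] (p : ℕ) : Prop :=
  ∀ P : Sylow p G, Subgroup.normalizer ((P : Subgroup G) : Set G) ≤
    Subgroup.centralizer ((P : Subgroup G) : Set G)

lemma conjSet_card_le (H N : Subgroup G) (hN : ∀ n ∈ N, ∀ c ∈ H, n⁻¹ * c * n ∈ H) :
    {x : G | ∃ g : G, g * x * g⁻¹ ∈ H}.ncard ≤ N.index * Nat.card H := by
  let f : (G ⧸ N) × H → G := fun t => t.1.out * (t.2 : G) * t.1.out⁻¹
  have hsub : {x : G | ∃ g : G, g * x * g⁻¹ ∈ H} ⊆ Set.range f := by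
    rintro x ⟨g, hg⟩
    obtain ⟨n, hn⟩ := QuotientGroup.mk_out_eq_mul N g⁻¹
    refine ⟨(((g⁻¹ : G) : G ⧸ N), ⟨(n : G)⁻¹ * (g * x * g⁻¹) * n, hN n n.2 _ hg⟩), ?_⟩
    simp only [f]
    rw [hn]
    group
  calc {x : G | ∃ g : G, g * x * g⁻¹ ∈ H}.ncard ≤ (Set.range f).ncard :=
        Set.ncard_le_ncard hsub (Set.toFinite _)
    _ = Nat.card (Set.range f) := (Nat.card_coe_set_eq _).symm
    _ ≤ Nat.card ((G ⧸ N) × H) := Finite.card_range_le f
    _ = N.index * Nat.card H := by rw [Nat.card_prod, Subgroup.index_eq_card]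

/-- Jordan: a proper subgroup does not meet every class -/
lemma eq_top_of_conj_cover (H : Subgroup G) (h : ∀ x : G, ∃ g : G, g * x * g⁻¹ ∈ H) :
    H = ⊤ := by
  let f : (G ⧸ H) × {c : H // c ≠ 1} → G := fun t => t.1.out * (t.2.1 : G) * t.1.out⁻¹
  have hsub : {x : G | x ≠ 1} ⊆ Set.range f := by
    intro x hx
    obtain ⟨g, hg⟩ := h x
    obtain ⟨n, hn⟩ := QuotientGroup.mk_out_eq_mul H g⁻¹
    refine ⟨(((g⁻¹ : G) : G ⧸ H),
      ⟨⟨(n : G)⁻¹ * (g * x * g⁻¹) * n, H.mul_mem (H.mul_mem (H.inv_mem n.2) hg) n.2⟩, ?_⟩), ?_⟩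
    · intro h1
      have h2 : (n : G)⁻¹ * (g * x * g⁻¹) * n = 1 := congrArg Subtype.val h1
      apply hx
      calc x = g⁻¹ * n * ((n : G)⁻¹ * (g * x * g⁻¹) * n) * (n : G)⁻¹ * g := by group
        _ = 1 := by rw [h2]; group
    · simp only [f]
      rw [hn]
      group
  have h1 : {x : G | x ≠ 1}.ncard ≤ H.index * (Nat.card H - 1) := by
    calc {x : G | x ≠ 1}.ncard ≤ (Set.range f).ncard := Set.ncard_le_ncard hsub (Set.toFinite _)
      _ = Nat.card (Set.range f) := (Nat.card_coe_set_eq _).symm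
      _ ≤ Nat.card ((G ⧸ H) × {c : H // c ≠ 1}) := Finite.card_range_le f
      _ = H.index * (Nat.card H - 1) := by
        rw [Nat.card_prod, ← Subgroup.index_eq_card]
        congr 1
        have : Nat.card {c : H // c ≠ 1} = ({(1 : H)}ᶜ : Set H).ncard := by
          rw [← Nat.card_coe_set_eq]; rfl
        rw [this, Set.ncard_compl, Set.ncard_singleton]
  have h2 : {x : G | x ≠ 1}.ncard = Nat.card G - 1 := by
    have : {x : G | x ≠ 1} = ({1} : Set G)ᶜ := rfl
    rw [this, Set.ncard_compl, Set.ncard_singleton]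
  rw [h2, ← Subgroup.card_mul_index H, Nat.mul_sub, mul_one, mul_comm] at h1
  have hi : 0 < H.index := Nat.pos_of_ne_zero Subgroup.index_ne_zero_of_finite
  have hH : 0 < Nat.card H := Nat.card_pos
  have h3 : H.index ≤ H.index * Nat.card H := Nat.le_mul_of_pos_right _ hH
  apply Subgroup.index_eq_one.1
  omega

/-- Jordan inside a subgroup -/
lemma le_of_conj_cover (K H : Subgroup G)
    (h : ∀ x ∈ K, ∃ k ∈ K, k * x * k⁻¹ ∈ H) : K ≤ H := by
  have := eq_top_of_conj_cover (H.subgroupOf K) fun x => by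
    obtain ⟨k, hk, hx⟩ := h x x.2
    exact ⟨⟨k, hk⟩, by rw [Subgroup.mem_subgroupOf]; simpa using hx⟩
  exact Subgroup.subgroupOf_eq_top.1 this

/-- Itô: two non-adjacent primes, then one has a self-centralizing normalizer. -/
theorem nc_or_nc {p r : ℕ} (hp : p.Prime) (hr : r.Prime) (hpr : p ≠ r) (h : ¬ Adj G p r) :
    NC G p ∨ NC G r := by
  by_contra hcon
  rw [not_or] at hcon
  obtain ⟨h1, h2⟩ := hcon
  simp only [NC, not_forall] at h1 h2
  obtain ⟨P, hP⟩ := h1
  obtain ⟨R, hR⟩ := h2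
  haveI := Fact.mk hp
  haveI := Fact.mk hr
  have bound : ∀ {l : ℕ} (S : Sylow l G), ¬ Subgroup.normalizer ((S : Subgroup G) : Set G) ≤
      Subgroup.centralizer ((S : Subgroup G) : Set G) →
      2 * {x : G | ∃ g : G, g * x * g⁻¹ ∈ Subgroup.centralizer ((S : Subgroup G) : Set G)}.ncard
        ≤ Nat.card G := by
    intro l S hS
    set N := Subgroup.normalizer ((S : Subgroup G) : Set G) with hN
    set C := Subgroup.centralizer ((S : Subgroup G) : Set G) with hC
    have hinv : ∀ n ∈ N, ∀ c ∈ C, n⁻¹ * c * n ∈ C := by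
      intro n hn c hc y hy
      have hy' : n * y * n⁻¹ ∈ (S : Subgroup G) := (Subgroup.mem_normalizer_iff.1 hn y).1 hy
      have := hc _ hy'
      calc y * (n⁻¹ * c * n) = n⁻¹ * (n * y * n⁻¹ * c) * n := by group
        _ = n⁻¹ * (c * (n * y * n⁻¹)) * n := by rw [this]
        _ = n⁻¹ * c * n * y := by group
    have hle := conjSet_card_le C N hinv
    have hCN : C < N := by
      refine lt_of_le_of_ne (Subgroup.centralizer_le_normalizer _) ?_
      rintro heq
      exact hS heq.ge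
    have hdvd := Subgroup.card_dvd_of_le hCN.le
    have hne : Nat.card C ≠ Nat.card N := fun heq => hCN.ne (Subgroup.eq_of_le_of_card_ge hCN.le heq.ge)
    obtain ⟨m, hm⟩ := hdvd
    have hm2 : 2 ≤ m := by
      rcases m with _ | _ | m
      · rw [mul_zero] at hm; exact absurd hm Nat.card_pos.ne'
      · exact absurd (by simpa using hm.symm) hne
      · omega
    calc 2 * _ ≤ 2 * (N.index * Nat.card C) := Nat.mul_le_mul_left 2 hle
      _ = N.index * (Nat.card C * 2) := by ring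
      _ ≤ N.index * (Nat.card C * m) := Nat.mul_le_mul_left _ (Nat.mul_le_mul_left _ hm2)
      _ = Nat.card G := by rw [← hm, Subgroup.index_mul_card]
  have b1 := bound P hP
  have b2 := bound R hR
  have hcov : {x : G | ∃ g : G, g * x * g⁻¹ ∈ Subgroup.centralizer ((P : Subgroup G) : Set G)} ∪
      {x : G | ∃ g : G, g * x * g⁻¹ ∈ Subgroup.centralizer ((R : Subgroup G) : Set G)} = Set.univ := by
    refine Set.eq_univ_of_forall fun x => ?_
    by_cases hx : p ∣ idx x
    · exact Or.inr ((not_dvd_idx_iff R x).1 fun hx' => h (adj_of hp hr hpr hx hx'))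
    · exact Or.inl ((not_dvd_idx_iff P x).1 hx)
  have h3 := Set.ncard_union_add_ncard_inter
    {x : G | ∃ g : G, g * x * g⁻¹ ∈ Subgroup.centralizer ((P : Subgroup G) : Set G)}
    {x : G | ∃ g : G, g * x * g⁻¹ ∈ Subgroup.centralizer ((R : Subgroup G) : Set G)}
  rw [hcov, Set.ncard_univ] at h3
  have h4 : 0 < ({x : G | ∃ g : G, g * x * g⁻¹ ∈ Subgroup.centralizer ((P : Subgroup G) : Set G)} ∩
      {x : G | ∃ g : G, g * x * g⁻¹ ∈ Subgroup.centralizer ((R : Subgroup G) : Set G)}).ncard := by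
    rw [Set.ncard_pos]
    exact ⟨1, ⟨1, by simp⟩, ⟨1, by simp⟩⟩
  omega

/-- Burnside transfer -/
theorem NC.normal_complement {p : ℕ} [hp : Fact p.Prime] (h : NC G p) :
    ∃ K : Subgroup G, K.Normal ∧ commutator G ≤ K ∧ ¬ p ∣ Nat.card K ∧
      ∃ P : Sylow p G, K.index = Nat.card (P : Subgroup G) := by
  obtain ⟨P⟩ : Nonempty (Sylow p G) := inferInstance
  have hcomp := MonoidHom.ker_transferSylow_isComplement' P (h P)
  haveI : IsMulCommutative (P : Subgroup G) :=
    ⟨⟨fun a b => Subtype.ext (h P (Subgroup.le_normalizer b.2) a a.2)⟩⟩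
  set f := MonoidHom.transferSylow P (h P) with hf
  refine ⟨f.ker, MonoidHom.normal_ker f,
    commutator_le_ker f fun a b => Subtype.ext (h P (Subgroup.le_normalizer b.2) a a.2), ?_, P, ?_⟩
  · rw [← hcomp.index_eq_card]
    exact P.not_dvd_index
  · exact hcomp.symm.index_eq_card

/-- the last term of the derived series -/
theorem exists_perfect_normal (hG : ¬ Group.IsSolvable G) :
    ∃ D : Subgroup G, D.Normal ∧ D ≠ ⊥ ∧ ⁅D, D⁆ = D := by
  classical
  have hex : ∃ c n, Nat.card (derivedSeries G n) = c := ⟨_, 0, rfl⟩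
  obtain ⟨n, hn⟩ := Nat.find_spec hex
  refine ⟨derivedSeries G n, derivedSeries_normal G n, fun h => hG ⟨⟨n, h⟩⟩, ?_⟩
  have h1 : ⁅derivedSeries G n, derivedSeries G n⁆ = derivedSeries G (n + 1) :=
    (derivedSeries_succ G n).symm
  haveI : (derivedSeries G n).Normal := derivedSeries_normal G n
  refine Subgroup.eq_of_le_of_card_ge (Subgroup.commutator_le_left _ _) ?_
  rw [hn, h1]
  exact Nat.find_min' hex ⟨n + 1, rfl⟩

/-- a prime with self-centralizing normalizer is adjacent to a prime of a perfect normal subgroup -/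
theorem exists_adj_of_nc {p : ℕ} [hp : Fact p.Prime] (hnc : NC G p) (D : Subgroup G) [D.Normal]
    (hD1 : D ≠ ⊥) (hDD : ⁅D, D⁆ = D) (hp' : ∃ x : G, p ∣ idx x) :
    ∃ r : ℕ, r.Prime ∧ r ∣ Nat.card D ∧ r ≠ p ∧ Adj G p r := by
  obtain ⟨Kp, hKn, hKc, hKp, -⟩ := hnc.normal_complement
  have hDK : D ≤ Kp := by
    rw [← hDD]
    refine le_trans ?_ hKc
    rw [_root_.commutator_def]
    exact Subgroup.commutator_mono le_top le_top
  have hpD : ¬ p ∣ Nat.card D := fun h => hKp (h.trans (Subgroup.card_dvd_of_le hDK))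
  by_contra hcon
  have hC : ∀ x : G, p ∣ idx x → x ∈ Subgroup.centralizer (D : Set G) := by
    intro x hx
    have hrel : (Subgroup.centralizer ({x} : Set G)).relIndex D = 1 := by
      by_contra hne
      obtain ⟨r, hr, hrd⟩ := Nat.exists_prime_and_dvd hne
      set C := Subgroup.centralizer ({x} : Set G) with hCdef
      have hrD : r ∣ Nat.card D :=
        hrd.trans (Subgroup.index_dvd_card (C.subgroupOf D))
      have hrp : r ≠ p := fun h => hpD (h ▸ hrD)
      have hrC : r ∣ C.index := by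
        have e1 : (C ⊓ D).index = C.relIndex D * D.index := by
          rw [← Subgroup.inf_relIndex_right C D, Subgroup.relIndex_mul_index inf_le_right]
        have e2 : (C ⊓ D).index = D.relIndex C * C.index := by
          rw [← Subgroup.inf_relIndex_left C D, Subgroup.relIndex_mul_index inf_le_left]
        obtain ⟨t, ht⟩ := Subgroup.relIndex_dvd_index_of_normal D C
        have hpos : 0 < D.relIndex C :=
          Nat.pos_of_ne_zero fun h0 => Subgroup.index_ne_zero_of_finite (H := D) (by rw [ht, h0, zero_mul])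
        rw [e1, ht] at e2
        have : C.index = C.relIndex D * t := by
          apply Nat.eq_of_mul_eq_mul_left hpos
          rw [← e2]; ring
        rw [this]
        exact dvd_mul_of_dvd_left hrd t
      exact hcon ⟨r, hr, hrD, hrp, adj_of hp.out hr (Ne.symm hrp) hx hrC⟩
    intro y hy
    exact Subgroup.mem_centralizer_singleton_iff.1 ((Subgroup.relIndex_eq_one.1 hrel) hy)
  obtain ⟨P⟩ : Nonempty (Sylow p G) := inferInstance
  set CP := Subgroup.centralizer ((P : Subgroup G) : Set G) with hCP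
  set CD := Subgroup.centralizer (D : Set G) with hCD
  haveI : CD.Normal := Subgroup.normal_centralizer
  have hcov : ∀ x : G, x ∉ CD → ∃ g : G, g * x * g⁻¹ ∈ CP := fun x hx =>
    (not_dvd_idx_iff P x).1 fun h => hx (hC x h)
  have htop : CP ⊔ CD = ⊤ := eq_top_of_conj_cover _ fun x => by
    by_cases hx : x ∈ CD
    · exact ⟨1, Subgroup.mem_sup_right (by simpa using hx)⟩
    · obtain ⟨g, hg⟩ := hcov x hx
      exact ⟨g, Subgroup.mem_sup_left hg⟩
  -- `P` centralizes `D`
  have hPD : ∀ x ∈ (P : Subgroup G), ∀ d ∈ D, x * d = d * x := by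
    intro x hx
    have hz : ∀ d ∈ D, x * d * x⁻¹ * d⁻¹ ∈ CD := by
      intro d _
      obtain ⟨c, hc, e, he, rfl⟩ := Subgroup.mem_sup_of_normal_right.1 (htop ▸ Subgroup.mem_top d)
      have hcx : x * c = c * x := hc x hx
      have : x * (c * e) * x⁻¹ * (c * e)⁻¹ = c * (x * e * x⁻¹ * e⁻¹) * c⁻¹ := by
        rw [← mul_assoc x c e, hcx]; group
      rw [this]
      exact ‹CD.Normal›.conj_mem _ (CD.mul_mem (‹CD.Normal›.conj_mem e he x) (CD.inv_mem he)) c
    have hzD : ∀ d ∈ D, x * d * x⁻¹ * d⁻¹ ∈ D := fun d hd =>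
      D.mul_mem (‹D.Normal›.conj_mem d hd x) (D.inv_mem hd)
    obtain ⟨f, hf⟩ : ∃ f : D →* Subgroup.center D,
        ∀ d, ((f d : D) : G) = x * d * x⁻¹ * (d : G)⁻¹ := ⟨
      { toFun := fun d => ⟨⟨x * d * x⁻¹ * (d : G)⁻¹, hzD d d.2⟩,
          Subgroup.mem_center_iff.2 fun y => Subtype.ext (hz d d.2 y y.2)⟩
        map_one' := by ext; simp
        map_mul' := fun a b => by
          ext
          show x * ((a : G) * b) * x⁻¹ * ((a : G) * b)⁻¹ =
            x * a * x⁻¹ * (a : G)⁻¹ * (x * b * x⁻¹ * (b : G)⁻¹)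
          have hb := hz b b.2 (a : G)⁻¹ (D.inv_mem a.2)
          rw [mul_assoc (x * a * x⁻¹), hb]
          group }, fun _ => rfl⟩
    have hker : f.ker = ⊤ := by
      refine top_le_iff.1 ?_
      calc (⊤ : Subgroup D) ≤ commutator D := by
            rw [← Subgroup.map_le_map_iff_of_injective D.subtype_injective,
              Subgroup.map_subtype_commutator, hDD, ← MonoidHom.range_eq_map,
              Subgroup.range_subtype]
        _ ≤ f.ker := commutator_le_ker f fun a b => Subgroup.mem_center_iff.1 b.2 a |> fun h => Subtype.ext h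
    intro d hd
    have : f ⟨d, hd⟩ = 1 := by
      rw [← MonoidHom.mem_ker, hker]; trivial
    have h1 : x * d * x⁻¹ * d⁻¹ = 1 := by rw [← hf ⟨d, hd⟩, this]; rfl
    calc x * d = x * d * x⁻¹ * d⁻¹ * (d * x) := by group
      _ = d * x := by rw [h1, one_mul]
  obtain ⟨k, hk⟩ := hp'
  have hkD := hC k hk
  obtain ⟨d, hd, hdC⟩ : ∃ d ∈ D, d ∉ CD := by
    by_contra hall
    simp only [not_exists, not_and, not_not] at hall
    apply hD1
    rw [← hDD, Subgroup.commutator_eq_bot_iff_le_centralizer]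
    exact hall
  have hkd : k * d ∉ CD := fun h => hdC ((CD.mul_mem_cancel_left hkD).1 h)
  obtain ⟨g, hg⟩ := hcov _ hkd
  refine ((not_dvd_idx_iff P k).2 ⟨g, ?_⟩) hk
  have hgd : g * d * g⁻¹ ∈ CP := fun y hy => hPD y hy _ (‹D.Normal›.conj_mem d hd g)
  have : g * k * g⁻¹ = g * (k * d) * g⁻¹ * (g * d * g⁻¹)⁻¹ := by group
  rw [this]
  exact CP.mul_mem hg (CP.inv_mem hgd)

lemma idx_dvd_idx_mul {a b : G} (hc : Commute a b) (h : Nat.Coprime (orderOf a) (orderOf b)) :
    idx a ∣ idx (a * b) := by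
  refine Subgroup.index_dvd_of_le fun y hy => ?_
  rw [Subgroup.mem_centralizer_singleton_iff] at hy ⊢
  have hy' : Commute y (a * b) := hy
  have h1 : Commute y ((a * b) ^ orderOf b) := hy'.pow_right _
  rw [hc.mul_pow, pow_orderOf_eq_one, mul_one] at h1
  obtain ⟨m, hm⟩ := exists_pow_eq_self_of_coprime h.symm
  have := h1.pow_right m
  rwa [hm] at this

/-- Both primes have self-centralizing normalizers. -/
theorem exists_adj_of_nc_nc {p q : ℕ} (hp : p.Prime) (hq : q.Prime) (hpq : p ≠ q)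
    (hna : ¬ Adj G p q) (hncp : NC G p) (hncq : NC G q)
    (hp' : ∃ x : G, p ∣ idx x) (hq' : ∃ x : G, q ∣ idx x) :
    ∃ r : ℕ, r.Prime ∧ r ≠ p ∧ r ≠ q ∧ Adj G p r ∧ Adj G r q := by
  haveI := Fact.mk hp
  haveI := Fact.mk hq
  obtain ⟨Kp, hKpn, hKpc, hKpp, P₀, hP₀⟩ := hncp.normal_complement
  obtain ⟨Kq, hKqn, hKqc, hKqq, Q₀, hQ₀⟩ := hncq.normal_complement
  set K := Kp ⊓ Kq with hK
  haveI : K.Normal := inferInstance
  have hKc : commutator G ≤ K := le_inf hKpc hKqc
  have hKnp : ¬ p ∣ Nat.card K := fun h => hKpp (h.trans (Subgroup.card_dvd_of_le inf_le_left))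
  have hKnq : ¬ q ∣ Nat.card K := fun h => hKqq (h.trans (Subgroup.card_dvd_of_le inf_le_right))
  have hidx : K.index ∣ Nat.card (P₀ : Subgroup G) * Nat.card (Q₀ : Subgroup G) := by
    rw [← hP₀, ← hQ₀, ← Subgroup.relIndex_mul_index (inf_le_right : K ≤ Kq)]
    refine mul_dvd_mul_right ?_ _
    rw [Subgroup.inf_relIndex_right]
    exact Subgroup.relIndex_dvd_index_of_normal Kp Kq
  have hcop : Nat.Coprime (Nat.card K) K.index := by
    refine Nat.Coprime.coprime_dvd_right hidx (Nat.Coprime.mul_right ?_ ?_)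
    · rw [Sylow.card_eq_multiplicity]
      exact Nat.Coprime.pow_right _ ((Nat.Prime.coprime_iff_not_dvd hp).2 hKnp).symm
    · rw [Sylow.card_eq_multiplicity]
      exact Nat.Coprime.pow_right _ ((Nat.Prime.coprime_iff_not_dvd hq).2 hKnq).symm
  obtain ⟨H, hH⟩ := Subgroup.exists_right_complement'_of_coprime hcop
  have hHab : ∀ a ∈ H, ∀ b ∈ H, a * b = b * a := by
    intro a ha b hb
    have h1 : a * b * a⁻¹ * b⁻¹ ∈ K := by
      refine hKc ?_
      rw [_root_.commutator_def]
      exact Subgroup.commutator_mem_commutator (Subgroup.mem_top a) (Subgroup.mem_top b)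
    have h2 : a * b * a⁻¹ * b⁻¹ ∈ H :=
      H.mul_mem (H.mul_mem (H.mul_mem ha hb) (H.inv_mem ha)) (H.inv_mem hb)
    have h3 : a * b * a⁻¹ * b⁻¹ ∈ (⊥ : Subgroup G) := hH.disjoint.le_bot ⟨h1, h2⟩
    rw [Subgroup.mem_bot] at h3
    calc a * b = a * b * a⁻¹ * b⁻¹ * (b * a) := by group
      _ = b * a := by rw [h3, one_mul]
  have hdec : ∀ g : G, ∃ h ∈ H, ∃ k ∈ K, g = h * k := by
    intro g
    obtain ⟨⟨k, h⟩, hkh⟩ := hH.2 g
    refine ⟨h, h.2, (h : G)⁻¹ * k * h, ?_, ?_⟩
    · simpa using ‹K.Normal›.conj_mem k k.2 (h : G)⁻¹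
    · have hkh' : (k : G) * h = g := hkh
      rw [← hkh']; group
  have hHi : H.index = Nat.card K := hH.index_eq_card
  obtain ⟨P, hPH⟩ := exists_sylow_le (p := p) (H := H) (by rw [hHi]; exact hKnp)
  obtain ⟨Q, hQH⟩ := exists_sylow_le (p := q) (H := H) (by rw [hHi]; exact hKnq)
  have hHidx : ∀ {l : ℕ}, l.Prime → ∀ (S : Sylow l G), (S : Subgroup G) ≤ H →
      ∀ h ∈ H, ¬ l ∣ idx h := by
    intro l hl S hS h hh
    haveI := Fact.mk hl
    exact (not_dvd_idx_iff S h).2 ⟨1, fun y hy => by simpa using hHab y (hS hy) h hh⟩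
  -- every element of `K` avoiding one prime is `K`-conjugate into the centralizer
  have hKconj : ∀ {l : ℕ}, l.Prime → ∀ (S : Sylow l G), (S : Subgroup G) ≤ H → ∀ x : G,
      ¬ l ∣ idx x → ∃ k ∈ K, k * x * k⁻¹ ∈ Subgroup.centralizer ((S : Subgroup G) : Set G) := by
    intro l hl S hS x hx
    haveI := Fact.mk hl
    obtain ⟨g, hg⟩ := (not_dvd_idx_iff S x).1 hx
    obtain ⟨h, hh, k, hk, rfl⟩ := hdec g
    refine ⟨k, hk, fun y hy => ?_⟩
    have h1 := hg y hy
    have h2 : y * h = h * y := hHab y (hS hy) h hh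
    calc y * (k * x * k⁻¹) = h⁻¹ * (h * y) * (k * x * k⁻¹) := by group
      _ = h⁻¹ * (y * h) * (k * x * k⁻¹) := by rw [h2]
      _ = h⁻¹ * (y * (h * k * x * (h * k)⁻¹)) * h := by group
      _ = h⁻¹ * ((h * k * x * (h * k)⁻¹) * y) * h := by rw [h1]
      _ = k * x * k⁻¹ * (h⁻¹ * (y * h)) := by group
      _ = k * x * k⁻¹ * (h⁻¹ * (h * y)) := by rw [h2]
      _ = k * x * k⁻¹ * y := by group
  -- the Sylow subgroups do not centralize `K`
  have hnon : ∀ {l : ℕ}, l.Prime → ∀ (S : Sylow l G), (S : Subgroup G) ≤ H →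
      (∃ x : G, l ∣ idx x) → ∃ a ∈ (S : Subgroup G), ∃ k ∈ K, a * k ≠ k * a := by
    intro l hl S hS hl'
    haveI := Fact.mk hl
    by_contra hall
    simp only [not_exists, not_and, not_not] at hall
    obtain ⟨x, hx⟩ := hl'
    refine (not_dvd_idx_iff S x).2 ⟨1, fun y hy => ?_⟩ hx
    obtain ⟨h, hh, k, hk, rfl⟩ := hdec x
    have h2 : y * h = h * y := hHab y (hS hy) h hh
    have h3 : y * k = k * y := hall y hy k hk
    simp only [one_mul, inv_one, mul_one]
    rw [← mul_assoc, h2, mul_assoc, h3, mul_assoc]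
  -- witnesses inside `K`
  have hwit : ∀ {l m : ℕ}, l.Prime → m.Prime → l ≠ m → ¬ Adj G l m →
      ∀ (S : Sylow l G) (T : Sylow m G), (S : Subgroup G) ≤ H → (T : Subgroup G) ≤ H →
      (∃ x : G, l ∣ idx x) → ¬ m ∣ Nat.card K →
      ∀ b ∈ (T : Subgroup G), ∀ r : ℕ, r.Prime → r ∣ idx b → r ≠ l ∧ r ≠ m ∧ Adj G l r := by
    intro l m hl hm hlm hnlm S T hS hT hl' hKm b hb r hr hrb
    haveI := Fact.mk hl
    haveI := Fact.mk hm
    have hrl : r ≠ l := fun h => hHidx hl S hS b (hT hb) (h ▸ hrb)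
    have hrm : r ≠ m := fun h => hHidx hm T hT b (hT hb) (h ▸ hrb)
    refine ⟨hrl, hrm, ?_⟩
    obtain ⟨a, ha, k, hk, hak⟩ := hnon hl S hS hl'
    obtain ⟨x, hxK, hx⟩ : ∃ x ∈ K, l ∣ idx x := by
      by_contra hall
      simp only [not_exists, not_and] at hall
      have := le_of_conj_cover K (Subgroup.centralizer ((S : Subgroup G) : Set G)) fun x hx =>
        hKconj hl S hS x (hall x hx)
      exact hak (this hk a ha)
    obtain ⟨j, hj, hjx⟩ := hKconj hm T hT x fun h => hnlm (adj_of hl hm hlm hx h)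
    set y := j * x * j⁻¹ with hy
    have hyK : y ∈ K := K.mul_mem (K.mul_mem hj hxK) (K.inv_mem hj)
    have hly : l ∣ idx y := by rw [hy, idx_conj]; exact hx
    have hcomm : Commute y b := (hjx b hb).symm
    have hco : Nat.Coprime (orderOf y) (orderOf b) := by
      obtain ⟨e, he⟩ := (IsPGroup.iff_orderOf.1 T.isPGroup') ⟨b, hb⟩
      rw [Subgroup.orderOf_mk] at he
      rw [he]
      exact Nat.Coprime.coprime_dvd_left (Subgroup.orderOf_dvd_natCard (s := K) hyK)
        (Nat.Coprime.pow_right _ ((Nat.Prime.coprime_iff_not_dvd hm).2 hKm).symm)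
    have h1 : idx b ∣ idx (y * b) := by
      rw [hcomm.eq]; exact idx_dvd_idx_mul hcomm.symm hco.symm
    exact adj_of hl hr (Ne.symm hrl) (hly.trans (idx_dvd_idx_mul hcomm hco)) (hrb.trans h1)
  by_contra hcon
  obtain ⟨a, haP, ka, hka, hane⟩ := hnon hp P hPH hp'
  obtain ⟨b, hbQ, kb, hkb, hbne⟩ := hnon hq Q hQH hq'
  set Ca := Subgroup.centralizer ({a} : Set G) with hCa
  set Cb := Subgroup.centralizer ({b} : Set G) with hCb
  have hcop' : Nat.Coprime Ca.index Cb.index := Nat.coprime_of_dvd fun r hr h1 h2 => by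
    obtain ⟨hrp, hrq, hadj⟩ := hwit hp hq hpq hna P Q hPH hQH hp' hKnq b hbQ r hr h2
    obtain ⟨-, -, hadj'⟩ := hwit hq hp hpq.symm (fun h => hna h.symm) Q P hQH hPH hq' hKnp
      a haP r hr h1
    exact hcon ⟨r, hr, hrp, hrq, hadj, hadj'.symm⟩
  -- all conjugates of `a` commute with `b`
  have hab : ∀ g : G, ∃ v ∈ Cb, g * a * g⁻¹ = v * a * v⁻¹ := by
    intro g
    have heq : Ca.relIndex Cb = Ca.index := by
      have e : (Ca ⊓ Cb).index = Ca.relIndex Cb * Cb.index := by
        rw [← Subgroup.inf_relIndex_right Ca Cb, Subgroup.relIndex_mul_index inf_le_right]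
      have d : Ca.index ∣ Ca.relIndex Cb * Cb.index := e ▸ Subgroup.index_dvd_of_le inf_le_left
      refine le_antisymm ?_ (Nat.le_of_dvd (Nat.pos_of_ne_zero ?_) (hcop'.dvd_of_dvd_mul_right d))
      · have := Subgroup.index_inf_le (H := Ca) (K := Cb)
        rw [e] at this
        exact Nat.le_of_mul_le_mul_right this (Nat.pos_of_ne_zero Subgroup.index_ne_zero_of_finite)
      · exact Subgroup.index_ne_zero_of_finite
    let F : Cb ⧸ Ca.subgroupOf Cb → G ⧸ Ca :=
      Quotient.map' (fun v => (v : G)) (fun v w h => by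
        rw [QuotientGroup.leftRel_apply] at h ⊢
        simpa [Subgroup.mem_subgroupOf] using h)
    have hinj : Function.Injective F := by
      rintro ⟨v⟩ ⟨w⟩ h
      refine Quotient.sound' ?_
      rw [QuotientGroup.leftRel_apply, Subgroup.mem_subgroupOf]
      have := Quotient.exact' h
      rw [QuotientGroup.leftRel_apply] at this
      simpa using this
    have hbij : Function.Bijective F :=
      hinj.bijective_of_nat_card_le (le_of_eq heq.symm)
    obtain ⟨t, ht⟩ := hbij.surjective (g : G ⧸ Ca)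
    obtain ⟨v, rfl⟩ := QuotientGroup.mk_surjective t
    refine ⟨v, v.2, ?_⟩
    have hu : (v : G)⁻¹ * g ∈ Ca := QuotientGroup.eq.1 ht
    have := Subgroup.mem_centralizer_singleton_iff.1 hu
    calc g * a * g⁻¹ = (v : G) * ((v : G)⁻¹ * g * a) * g⁻¹ := by group
      _ = (v : G) * (a * ((v : G)⁻¹ * g)) * g⁻¹ := by rw [this]
      _ = (v : G) * a * (v : G)⁻¹ := by group
  have habc : a * b = b * a := hHab a (hPH haP) b (hQH hbQ)
  set A := Subgroup.normalClosure ({a} : Set G) with hA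
  set B := Subgroup.normalClosure ({b} : Set G) with hB
  have hAB : A ≤ Subgroup.centralizer (B : Set G) := by
    haveI : (Subgroup.centralizer (B : Set G)).Normal := Subgroup.normal_centralizer
    refine Subgroup.normalClosure_le_normal (Set.singleton_subset_iff.2 ?_)
    have : B ≤ Subgroup.centralizer ({a} : Set G) := by
      refine (Subgroup.closure_le _).2 ?_
      intro z hz
      rw [Group.mem_conjugatesOfSet_iff] at hz
      obtain ⟨b', hb', hconj⟩ := hz
      rw [Set.mem_singleton_iff] at hb'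
      subst hb'
      obtain ⟨g, rfl⟩ := isConj_iff.1 hconj
      obtain ⟨v, hv, hvg⟩ := hab g⁻¹
      rw [hCb, Subgroup.mem_centralizer_singleton_iff] at hv
      rw [SetLike.mem_coe, Subgroup.mem_centralizer_singleton_iff]
      have h1 : v * a * v⁻¹ * b' = b' * (v * a * v⁻¹) := by
        calc v * a * v⁻¹ * b' = v * a * v⁻¹ * (b' * v) * v⁻¹ := by group
          _ = v * a * v⁻¹ * (v * b') * v⁻¹ := by rw [hv]
          _ = v * (a * b') * v⁻¹ := by group
          _ = v * (b' * a) * v⁻¹ := by rw [habc]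
          _ = v * b' * a * v⁻¹ := by group
          _ = b' * v * a * v⁻¹ := by rw [hv]
          _ = b' * (v * a * v⁻¹) := by group
      rw [← hvg] at h1
      calc g * b' * g⁻¹ * a = g * (b' * (g⁻¹ * a * g⁻¹⁻¹)) * g⁻¹ := by group
        _ = g * ((g⁻¹ * a * g⁻¹⁻¹) * b') * g⁻¹ := by rw [h1]
        _ = a * (g * b' * g⁻¹) := by group
    intro z hz
    exact Subgroup.mem_centralizer_singleton_iff.1 (this hz)
  -- an element of `A` centralizing no conjugate of `a`
  have hgen : ∀ {l : ℕ}, l.Prime → ¬ l ∣ Nat.card K → ∀ (S : Sylow l G), ∀ c ∈ (S : Subgroup G),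
      (∃ k ∈ K, c * k ≠ k * c) →
      ∃ m ∈ Subgroup.normalClosure ({c} : Set G), ∀ g : G,
        g * m * g⁻¹ * c ≠ c * (g * m * g⁻¹) := by
    intro l hl hKl S c hc ⟨k₀, hk₀, hne⟩
    haveI := Fact.mk hl
    by_contra hall
    simp only [not_exists, not_and, not_forall, not_not] at hall
    set A := Subgroup.normalClosure ({c} : Set G) with hA
    haveI : A.Normal := Subgroup.normalClosure_normal
    have hcA : c ∈ A := Subgroup.subset_normalClosure rfl
    have hzA : Subgroup.zpowers c ≤ A := Subgroup.zpowers_le.2 hcA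
    haveI : (K ⊔ Subgroup.zpowers c).Normal :=
      Subgroup.Normal.of_commutator_le (G := G) (hKc.trans le_sup_left)
    have hAK : A ≤ K ⊔ Subgroup.zpowers c :=
      Subgroup.normalClosure_le_normal (Set.singleton_subset_iff.2
        (Subgroup.mem_sup_right (Subgroup.mem_zpowers c)))
    have hcS : IsPGroup l (Subgroup.zpowers c) :=
      S.isPGroup'.to_le (Subgroup.zpowers_le.2 hc)
    obtain ⟨e, he⟩ := IsPGroup.iff_card.1 hcS
    have hdisj : Disjoint K (Subgroup.zpowers c) := by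
      rw [disjoint_iff, Subgroup.eq_bot_iff_card]
      have h1 := Subgroup.card_dvd_of_le (inf_le_left : K ⊓ Subgroup.zpowers c ≤ K)
      have h2 := Subgroup.card_dvd_of_le (inf_le_right : K ⊓ Subgroup.zpowers c ≤ Subgroup.zpowers c)
      rw [he] at h2
      exact Nat.eq_one_of_dvd_coprimes
        (Nat.Coprime.pow_right e ((Nat.Prime.coprime_iff_not_dvd hl).2 hKl).symm) h1 h2
    have hcardA : ¬ l ∣ ((Subgroup.zpowers c).subgroupOf A).index := by
      intro h
      apply hKl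
      have h1 : ((Subgroup.zpowers c).subgroupOf A).index ∣
          (Subgroup.zpowers c).relIndex (K ⊔ Subgroup.zpowers c) :=
        Dvd.intro _ (Subgroup.relIndex_mul_relIndex (Subgroup.zpowers c) A _ hzA hAK)
      have h2 : Nat.card (Subgroup.zpowers c) *
          (Subgroup.zpowers c).relIndex (K ⊔ Subgroup.zpowers c) =
          Nat.card ↥(K ⊔ Subgroup.zpowers c) := by
        rw [← Subgroup.relIndex_bot_left, Subgroup.relIndex_mul_relIndex _ _ _ bot_le le_sup_right,
          Subgroup.relIndex_bot_left]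
      have h3 : Nat.card ↥(K ⊔ Subgroup.zpowers c) =
          Nat.card K * Nat.card (Subgroup.zpowers c) := by
        have := Subgroup.relIndex_sup_right (Subgroup.zpowers c) K
        rw [sup_comm] at this
        rw [← Subgroup.relIndex_bot_left, ← Subgroup.relIndex_mul_relIndex ⊥ K _ bot_le le_sup_left,
          Subgroup.relIndex_bot_left, this, ← Subgroup.inf_relIndex_right, hdisj.eq_bot,
          Subgroup.relIndex_bot_left]
      rw [h3, mul_comm (Nat.card K)] at h2
      rw [Nat.eq_of_mul_eq_mul_left Nat.card_pos h2] at h1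
      exact h.trans h1
    have hP : IsPGroup l ((Subgroup.zpowers c).subgroupOf A) := hcS.of_equiv
      (Subgroup.subgroupOfEquivOfLe hzA).symm
    let R : Sylow l A := hP.toSylow hcardA
    have hfr : Subgroup.normalizer ((Subgroup.zpowers c : Subgroup G) : Set G) ⊔ A = ⊤ := by
      have := Sylow.normalizer_sup_eq_top (N := A) R
      rwa [show ((R : Subgroup A)).map A.subtype = Subgroup.zpowers c by
        simp [R, Subgroup.map_subgroupOf_eq_of_le hzA]] at this
    have hfr' : ∀ g : G, ∃ n ∈ Subgroup.normalizer ((Subgroup.zpowers c : Subgroup G) : Set G),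
        ∃ u ∈ A, g = n * u := by
      intro g
      obtain ⟨n, hn, u, hu, rfl⟩ := Subgroup.mem_sup_of_normal_right.1 (hfr ▸ Subgroup.mem_top g)
      exact ⟨n, hn, u, hu, rfl⟩
    have hAc : A ≤ Subgroup.centralizer ({c} : Set G) := by
      refine le_of_conj_cover A _ fun m hm => ?_
      obtain ⟨g, hg⟩ := hall m hm
      obtain ⟨n, hn, u, hu, rfl⟩ := hfr' g
      refine ⟨u, hu, ?_⟩
      have hn' : c ∈ Subgroup.zpowers (n⁻¹ * c * n) := by
        have h1 : n⁻¹ * c * n ∈ Subgroup.zpowers c := by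
          refine (Subgroup.mem_normalizer_iff.1 hn _).2 ?_
          have : n * (n⁻¹ * c * n) * n⁻¹ = c := by group
          rw [this]; exact Subgroup.mem_zpowers c
        have h2 : orderOf (n⁻¹ * c * n) = orderOf c := by
          have := orderOf_injective (MulAut.conj n⁻¹).toMonoidHom (MulEquiv.injective _) c
          simpa using this
        have : Subgroup.zpowers (n⁻¹ * c * n) = Subgroup.zpowers c :=
          Subgroup.eq_of_le_of_card_ge (Subgroup.zpowers_le.2 h1)
            (by rw [Nat.card_zpowers, Nat.card_zpowers, h2])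
        rw [this]; exact Subgroup.mem_zpowers c
      rw [Subgroup.mem_centralizer_singleton_iff]
      obtain ⟨i, hi⟩ := Subgroup.mem_zpowers_iff.1 hn'
      have hcm : Commute (u * m * u⁻¹) (n⁻¹ * c * n) := by
        show u * m * u⁻¹ * (n⁻¹ * c * n) = n⁻¹ * c * n * (u * m * u⁻¹)
        calc u * m * u⁻¹ * (n⁻¹ * c * n)
            = n⁻¹ * (n * u * m * (n * u)⁻¹ * c) * n := by group
          _ = n⁻¹ * (c * (n * u * m * (n * u)⁻¹)) * n := by rw [hg]
          _ = n⁻¹ * c * n * (u * m * u⁻¹) := by group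
      have := hcm.zpow_right i
      rw [hi] at this
      exact this
    -- `c` is central
    obtain ⟨n, hn, u, hu, hg⟩ := hfr' k₀
    have huc := Subgroup.mem_centralizer_singleton_iff.1 (hAc hu)
    have h1 : k₀ * c * k₀⁻¹ ∈ Subgroup.zpowers c := by
      have : k₀ * c * k₀⁻¹ = n * c * n⁻¹ := by
        calc k₀ * c * k₀⁻¹ = n * (u * c) * u⁻¹ * n⁻¹ := by rw [hg]; group
          _ = n * (c * u) * u⁻¹ * n⁻¹ := by rw [huc]
          _ = n * c * n⁻¹ := by group
      rw [this]
      exact (Subgroup.mem_normalizer_iff.1 hn c).1 (Subgroup.mem_zpowers c)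
    have h2 : k₀ * c * k₀⁻¹ * c⁻¹ ∈ K := by
      have h := K.mul_mem hk₀ (‹K.Normal›.conj_mem k₀⁻¹ (K.inv_mem hk₀) c)
      have e : k₀ * c * k₀⁻¹ * c⁻¹ = k₀ * (c * k₀⁻¹ * c⁻¹) := by group
      rw [e]; exact h
    have h3 : k₀ * c * k₀⁻¹ * c⁻¹ ∈ (⊥ : Subgroup G) := hdisj.le_bot
      ⟨h2, (Subgroup.zpowers c).mul_mem h1 ((Subgroup.zpowers c).inv_mem (Subgroup.mem_zpowers c))⟩
    rw [Subgroup.mem_bot] at h3
    refine hne ?_
    calc c * k₀ = k₀ * c * k₀⁻¹ * c⁻¹ * (c * k₀) := by rw [h3, one_mul]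
      _ = k₀ * c := by group
  obtain ⟨m, hm, hm'⟩ := hgen hp hKnp P a haP ⟨ka, hka, hane⟩
  obtain ⟨n, hn, hn'⟩ := hgen hq hKnq Q b hbQ ⟨kb, hkb, hbne⟩
  haveI : A.Normal := Subgroup.normalClosure_normal
  haveI : B.Normal := Subgroup.normalClosure_normal
  refine hna (adj_of hp hq hpq (x := m * n) ?_ ?_)
  · by_contra h
    obtain ⟨g, hg⟩ := (not_dvd_idx_iff P (m * n)).1 h
    refine hm' g ?_
    have h1 := hg a haP
    have h2 : g * n * g⁻¹ * a = a * (g * n * g⁻¹) :=
      hAB (Subgroup.subset_normalClosure rfl) _ (‹B.Normal›.conj_mem n hn g)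
    calc g * m * g⁻¹ * a = g * (m * n) * g⁻¹ * (g * n * g⁻¹)⁻¹ * a := by group
      _ = g * (m * n) * g⁻¹ * (a * (g * n * g⁻¹)⁻¹) := by
        rw [mul_assoc, (Commute.inv_left h2).eq]
      _ = g * (m * n) * g⁻¹ * a * (g * n * g⁻¹)⁻¹ := by group
      _ = a * (g * (m * n) * g⁻¹) * (g * n * g⁻¹)⁻¹ := by rw [← h1]
      _ = a * (g * m * g⁻¹) := by group
  · by_contra h
    obtain ⟨g, hg⟩ := (not_dvd_idx_iff Q (m * n)).1 h
    refine hn' g ?_
    have h1 := hg b hbQ
    have h2 : b * (g * m * g⁻¹) = g * m * g⁻¹ * b :=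
      hAB (‹A.Normal›.conj_mem m hm g) b (Subgroup.subset_normalClosure rfl)
    calc g * n * g⁻¹ * b = (g * m * g⁻¹)⁻¹ * (g * (m * n) * g⁻¹ * b) := by group
      _ = (g * m * g⁻¹)⁻¹ * (b * (g * (m * n) * g⁻¹)) := by rw [h1]
      _ = (g * m * g⁻¹)⁻¹ * (b * (g * m * g⁻¹)) * (g * n * g⁻¹) := by group
      _ = (g * m * g⁻¹)⁻¹ * (g * m * g⁻¹ * b) * (g * n * g⁻¹) := by rw [h2]
      _ = b * (g * n * g⁻¹) := by group

theorem main (hG : ¬ Group.IsSolvable G) {p q : ℕ} (hp : p.Prime) (hq : q.Prime) (hpq : p ≠ q)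
    (hp' : ∃ x : G, p ∣ idx x) (hq' : ∃ x : G, q ∣ idx x) :
    Adj G p q ∨ ∃ r : ℕ, r.Prime ∧ r ≠ p ∧ r ≠ q ∧ Adj G p r ∧ Adj G r q := by
  by_contra hcon
  rw [not_or] at hcon
  obtain ⟨hna, hno⟩ := hcon
  obtain ⟨D, hDn, hD1, hDD⟩ := exists_perfect_normal hG
  have one : ∀ {l m : ℕ}, l.Prime → m.Prime → l ≠ m → ¬ Adj G l m → NC G l → ¬ NC G m →
      (∃ x : G, l ∣ idx x) → ∃ r : ℕ, r.Prime ∧ r ≠ l ∧ r ≠ m ∧ Adj G l r ∧ Adj G r m := by
    intro l m hl hm hlm hn hncl hncm hl'
    haveI := Fact.mk hl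
    obtain ⟨r, hr, hrD, hrl, hadj⟩ := exists_adj_of_nc hncl D hD1 hDD hl'
    have hrm : r ≠ m := fun h => hn (h ▸ hadj)
    refine ⟨r, hr, hrl, hrm, hadj, ?_⟩
    by_contra hrn
    rcases nc_or_nc hr hm hrm hrn with h | h
    · haveI := Fact.mk hr
      obtain ⟨Kr, -, hKc, hKr, -⟩ := h.normal_complement
      refine hKr (hrD.trans (Subgroup.card_dvd_of_le (le_trans ?_ hKc)))
      rw [← hDD, _root_.commutator_def]
      exact Subgroup.commutator_mono le_top le_top
    · exact hncm h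
  apply hno
  by_cases h1 : NC G p
  · by_cases h2 : NC G q
    · exact exists_adj_of_nc_nc hp hq hpq hna h1 h2 hp' hq'
    · exact one hp hq hpq hna h1 h2 hp'
  · have h2 : NC G q := (nc_or_nc hp hq hpq hna).resolve_left h1
    obtain ⟨r, hr, hrq, hrp, ha1, ha2⟩ := one hq hp hpq.symm (fun h => hna h.symm) h2 h1 hq'
    exact ⟨r, hr, hrp, hrq, ha2.symm, ha1.symm⟩

end Cfsg.Agent.H56.ClassSizePrimes
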