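import Mathlib
import Cfsg.Agent.H45.Galois
import Cfsg.Agent.H26.CharLinear

/-!
# Generalized characters of abelian `p`-groups with values prime to `p`

Integrality of means, quotients of unit norm, and a coherent choice of signs on the subgroups.
-/

set_option autoImplicit false
set_option linter.unusedSectionVars false

open scoped ComplexConjugate

namespace Cfsg.Agent.H56.FD

variable (A : Type*) [CommGroup A] [Finite A]

/-- A linear character as a function. -/
def lin {A : Type*} [CommGroup A] (l : A →* ℂˣ) : A → ℂ := fun a => (l a : ℂ)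

/-- The generalized characters of an abelian group. -/
def gc : AddSubgroup (A → ℂ) := AddSubgroup.closure (Set.range (lin (A := A)))

variable {A}

theorem lin_mem (l : A →* ℂˣ) : lin l ∈ gc A := AddSubgroup.subset_closure ⟨l, rfl⟩

theorem gc_one : (1 : A → ℂ) ∈ gc A := by
  convert lin_mem (1 : A →* ℂˣ) using 1
  funext a
  simp [lin]

theorem gc_int (z : ℤ) : (fun _ : A => (z : ℂ)) ∈ gc A := by
  convert zsmul_mem (gc_one (A := A)) z using 1
  funext a
  simp

theorem gc_mul {f g : A → ℂ} (hf : f ∈ gc A) (hg : g ∈ gc A) : f * g ∈ gc A := by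
  induction hf using AddSubgroup.closure_induction with
  | mem x hx =>
    obtain ⟨l, rfl⟩ := hx
    induction hg using AddSubgroup.closure_induction with
    | mem y hy =>
      obtain ⟨l', rfl⟩ := hy
      convert lin_mem (l * l') using 1
      funext a
      simp [lin]
    | zero => simp
    | add x y _ _ hx hy => rw [mul_add]; exact add_mem hx hy
    | neg x _ hx => rw [mul_neg]; exact neg_mem hx
  | zero => simp
  | add x y _ _ hx hy => rw [add_mul]; exact add_mem hx hy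
  | neg x _ hx => rw [neg_mul]; exact neg_mem hx

theorem gc_pow {f : A → ℂ} (hf : f ∈ gc A) : ∀ n : ℕ, f ^ n ∈ gc A
  | 0 => by rw [pow_zero]; exact gc_one
  | n + 1 => by rw [pow_succ]; exact gc_mul (gc_pow hf n) hf

theorem gc_comp {B : Type*} [CommGroup B] [Finite B] {f : A → ℂ} (hf : f ∈ gc A) (φ : B →* A) :
    f ∘ φ ∈ gc B := by
  induction hf using AddSubgroup.closure_induction with
  | mem x hx =>
    obtain ⟨l, rfl⟩ := hx
    exact lin_mem (l.comp φ)
  | zero => exact zero_mem _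
  | add x y _ _ hx hy => exact add_mem hx hy
  | neg x _ hx => exact neg_mem hx

theorem lin_pow_card (l : A →* ℂˣ) (a : A) : ((l a : ℂ)) ^ Nat.card A = 1 := by
  rw [← Units.val_pow_eq_pow_val, ← map_pow, pow_card_eq_one', map_one, Units.val_one]

theorem conj_lin (l : A →* ℂˣ) (a : A) : conj (l a : ℂ) = (l⁻¹ a : ℂˣ) := by
  rw [MonoidHom.inv_apply, Units.val_inv_eq_inv_val,
    Complex.inv_eq_conj (Complex.norm_eq_one_of_pow_eq_one (lin_pow_card l a) Nat.card_pos.ne')]

theorem gc_conj {f : A → ℂ} (hf : f ∈ gc A) : (fun a => conj (f a)) ∈ gc A := by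
  induction hf using AddSubgroup.closure_induction with
  | mem x hx =>
    obtain ⟨l, rfl⟩ := hx
    convert lin_mem l⁻¹ using 1
    funext a
    exact conj_lin l a
  | zero =>
    convert zero_mem (gc A) using 1
    funext a
    simp
  | add x y _ _ hx hy =>
    convert add_mem hx hy using 1
    funext a
    simp
  | neg x _ hx =>
    convert neg_mem hx using 1
    funext a
    simp

theorem gc_isIntegral {f : A → ℂ} (hf : f ∈ gc A) (a : A) : IsIntegral ℤ (f a) := by
  induction hf using AddSubgroup.closure_induction with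
  | mem x hx =>
    obtain ⟨l, rfl⟩ := hx
    exact IsIntegral.of_pow Nat.card_pos (by
      show IsIntegral ℤ ((l a : ℂ) ^ Nat.card A)
      rw [lin_pow_card]
      exact isIntegral_one)
  | zero => exact isIntegral_zero
  | add x y _ _ hx hy => exact hx.add hy
  | neg x _ hx => exact hx.neg

theorem gc_galois {f : A → ℂ} (hf : f ∈ gc A) (σ : ℂ ≃+* ℂ) {i : ℕ}
    (hσ : ∀ z : ℂ, z ^ Nat.card A = 1 → σ z = z ^ i) (a : A) : σ (f a) = f (a ^ i) := by
  induction hf using AddSubgroup.closure_induction with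
  | mem x hx =>
    obtain ⟨l, rfl⟩ := hx
    show σ (l a : ℂ) = (l (a ^ i) : ℂ)
    rw [hσ _ (lin_pow_card l a), map_pow, Units.val_pow_eq_pow_val]
  | zero => simp
  | add x y _ _ hx hy => simp [hx, hy]
  | neg x _ hx => simp [hx]

instance : Finite (A →* ℂˣ) := Nat.finite_of_card_ne_zero (by
  rw [CommGroup.card_monoidHom_of_hasEnoughRootsOfUnity A ℂ]
  exact Nat.card_pos.ne')

open scoped Classical in
theorem sum_lin [Fintype A] (l : A →* ℂˣ) :
    ∑ a : A, (l a : ℂ) = if l = 1 then (Nat.card A : ℂ) else 0 := by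
  split_ifs with h
  · simp [h, Nat.card_eq_fintype_card]
  · obtain ⟨b, hb⟩ : ∃ b, l b ≠ 1 := by
      by_contra h'
      push Not at h'
      exact h (MonoidHom.ext h')
    have e : ∑ a : A, (l a : ℂ) = (l b : ℂ) * ∑ a : A, (l a : ℂ) := by
      rw [Finset.mul_sum]
      exact (Fintype.sum_equiv (Equiv.mulLeft b) _ _ fun a => by simp).symm
    by_contra h0
    exact hb (Units.val_eq_one.1 (mul_right_cancel₀ h0 (e.symm.trans (one_mul _).symm)))

open scoped Classical in
theorem sum_dual [Fintype (A →* ℂˣ)] (a : A) :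
    ∑ l : A →* ℂˣ, (l a : ℂ) = if a = 1 then (Nat.card A : ℂ) else 0 := by
  split_ifs with h
  · simp only [h, map_one, Units.val_one, Finset.sum_const, Finset.card_univ, nsmul_eq_mul, mul_one]
    rw [← Nat.card_eq_fintype_card, CommGroup.card_monoidHom_of_hasEnoughRootsOfUnity A ℂ]
  · obtain ⟨m, hm⟩ := CommGroup.exists_apply_ne_one_of_hasEnoughRootsOfUnity A ℂ h
    have e : ∑ l : A →* ℂˣ, (l a : ℂ) = (m a : ℂ) * ∑ l : A →* ℂˣ, (l a : ℂ) := by
      rw [Finset.mul_sum]
      exact (Fintype.sum_equiv (Equiv.mulLeft m) _ _ fun l => by simp).symm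
    by_contra h0
    exact hm (Units.val_eq_one.1 (mul_right_cancel₀ h0 (e.symm.trans (one_mul _).symm)))

theorem gc_sum [Fintype A] {f : A → ℂ} (hf : f ∈ gc A) :
    ∃ z : ℤ, ∑ a : A, f a = (z : ℂ) * Nat.card A := by
  classical
  induction hf using AddSubgroup.closure_induction with
  | mem x hx =>
    obtain ⟨l, rfl⟩ := hx
    refine ⟨if l = 1 then 1 else 0, ?_⟩
    show ∑ a : A, (l a : ℂ) = _
    rw [sum_lin]
    split_ifs <;> simp
  | zero => exact ⟨0, by simp⟩
  | add x y _ _ hx hy =>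
    obtain ⟨z, hz⟩ := hx
    obtain ⟨w, hw⟩ := hy
    exact ⟨z + w, by simp [Finset.sum_add_distrib, hz, hw, add_mul]⟩
  | neg x _ hx =>
    obtain ⟨z, hz⟩ := hx
    exact ⟨-z, by simp [hz]⟩

/-- Fourier inversion. -/
theorem inversion [Fintype A] [Fintype (A →* ℂˣ)] (f : A → ℂ) (b : A) :
    ∑ l : A →* ℂˣ, (∑ a : A, f a * conj (l a : ℂ)) * (l b : ℂ) = (Nat.card A : ℂ) * f b := by
  classical
  simp only [Finset.sum_mul]
  rw [Finset.sum_comm]
  have h : ∀ a, ∑ l : A →* ℂˣ, f a * conj (l a : ℂ) * (l b : ℂ) =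
      f a * if a⁻¹ * b = 1 then (Nat.card A : ℂ) else 0 := by
    intro a
    rw [← sum_dual, Finset.mul_sum]
    refine Finset.sum_congr rfl fun l _ => ?_
    rw [conj_lin, mul_assoc, map_mul, map_inv, Units.val_mul, MonoidHom.inv_apply]
  rw [Finset.sum_congr rfl fun a _ => h a, Finset.sum_eq_single b]
  · simp [mul_comm]
  · intro a _ ha
    rw [if_neg fun e => ha (inv_mul_eq_one.1 e), mul_zero]
  · simp

theorem gc_of_isCharacter {P : Type*} [CommGroup P] [Finite P] {f : P → ℂ}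
    (hf : Cfsg.IsCharacter P f) : f ∈ gc P := by
  obtain ⟨s, hs⟩ := H26.exists_multiset_of_isCharacter hf
  rw [hs]
  refine AddSubgroup.multiset_sum_mem _ _ fun g hg => ?_
  obtain ⟨χ, -, rfl⟩ := Multiset.mem_map.1 hg
  obtain ⟨l, hl⟩ := H26.exists_hom_of_isCharacter_one (H26.irr_isCharacter χ)
    (H26.irr_one_eq_one_of_comm (fun a b => mul_comm a b) χ)
  convert lin_mem l using 1
  funext a
  exact (hl a).symm

variable {p k : ℕ} [Fact p.Prime] (hA : Nat.card A = p ^ k)

include hA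

/-- Quotients of generalized characters by values prime to `p` still have integral means, when the
quotient is integral. -/
theorem exists_int_mean [Fintype A] {S : Finset A}
    (hS : ∀ i : ℕ, i.Coprime (Nat.card A) → ∀ a ∈ S, a ^ i ∈ S) {g N D f : A → ℂ}
    (hg : g ∈ gc A) (hgS : ∀ a, a ∉ S → g a = 0) (hN : N ∈ gc A) (hD : D ∈ gc A)
    (hf : ∀ a ∈ S, IsIntegral ℤ (f a)) (hfD : ∀ a ∈ S, f a * D a = N a)
    (hDi : ∀ a ∈ S, ∃ d : ℤ, D a = (d : ℂ) ∧ ¬ (p : ℤ) ∣ d) :
    ∃ n : ℤ, ∑ a ∈ S, g a * f a = (n : ℂ) * Nat.card A := by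
  classical
  choose! d hd hdp using hDi
  have hd0 : ∀ a ∈ S, (d a : ℂ) ≠ 0 := fun a ha h => hdp a ha (by
    rw [Int.cast_eq_zero.1 h]
    exact dvd_zero _)
  have hq0 : (Nat.card A : ℂ) ≠ 0 := Nat.cast_ne_zero.2 Nat.card_pos.ne'
  obtain ⟨r, hr⟩ : ∃ r, Nat.totient (Nat.card A) = r + 1 :=
    Nat.exists_eq_succ_of_ne_zero (Nat.totient_pos.2 Nat.card_pos).ne'
  -- the power is one modulo the order
  have hmod : ∀ a ∈ S, ∃ w : ℤ, (1 : ℤ) - d a ^ (r + 1) = (Nat.card A : ℤ) * w := by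
    intro a ha
    have hc : IsCoprime (d a) (Nat.card A : ℤ) := by
      rw [hA, Nat.cast_pow]
      exact ((Nat.prime_iff_prime_int.1 Fact.out).coprime_iff_not_dvd.2 (hdp a ha)).symm.pow_right
    have hu : IsUnit ((d a : ℤ) : ZMod (Nat.card A)) := by
      obtain ⟨x, y, hxy⟩ := hc
      refine isUnit_iff_exists_inv.2 ⟨(x : ZMod (Nat.card A)), ?_⟩
      have := congrArg (fun z : ℤ => (z : ZMod (Nat.card A))) hxy
      push_cast at this
      rw [ZMod.natCast_self, mul_zero, add_zero] at this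
      rw [mul_comm]
      exact this
    obtain ⟨u, hu⟩ := hu
    refine (ZMod.intCast_zmod_eq_zero_iff_dvd _ _).1 ?_
    push_cast
    rw [← hu, ← Units.val_pow_eq_pow_val, ← hr, ZMod.pow_totient, Units.val_one, sub_self]
  choose! w hw using hmod
  -- the sum is rational
  have hgal : ∀ σ : ℂ ≃+* ℂ, σ (∑ a ∈ S, g a * f a) = ∑ a ∈ S, g a * f a := by
    intro σ
    obtain ⟨i, hi, hσ⟩ := H45.exists_pow_of_ringAut σ (Nat.card_pos (α := A)).ne'
    rw [map_sum]
    refine Finset.sum_bij (fun a _ => a ^ i) (fun a ha => hS i hi a ha)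
      (fun a _ b _ h => (H45.powCoprime_bijective hi).1 h) (fun b hb => ?_) fun a ha => ?_
    · have hinj : Function.Injective fun a : S => (⟨(a : A) ^ i, hS i hi a a.2⟩ : S) :=
        fun a b h => Subtype.ext ((H45.powCoprime_bijective hi).1 (congrArg Subtype.val h))
      obtain ⟨a, ha⟩ := (Finite.injective_iff_surjective.1 hinj) ⟨b, hb⟩
      exact ⟨a, a.2, congrArg Subtype.val ha⟩
    · rw [map_mul, gc_galois hg σ hσ]
      congr 1
      have hD0 : D (a ^ i) ≠ 0 := by rw [hd _ (hS i hi a ha)]; exact hd0 _ (hS i hi a ha)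
      refine mul_right_cancel₀ hD0 ?_
      rw [hfD _ (hS i hi a ha), ← gc_galois hN σ hσ, ← gc_galois hD σ hσ, ← map_mul, hfD a ha]
  obtain ⟨z, hz⟩ := H45.exists_int_of_forall_ringAut
    (IsIntegral.sum _ fun a ha => (gc_isIntegral hg a).mul (hf a ha)) hgal
  obtain ⟨n₀, hn₀⟩ := gc_sum (gc_mul (gc_mul hg hN) (gc_pow hD r))
  set W := ∑ a ∈ S, g a * f a * (w a : ℂ) with hW
  have hsplit : (z : ℂ) = (n₀ : ℂ) * Nat.card A + (Nat.card A : ℂ) * W := by
    rw [← hn₀, ← hz, hW, Finset.mul_sum]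
    have hext : ∑ a : A, (g * N * D ^ r) a = ∑ a ∈ S, g a * N a * D a ^ r := by
      rw [← Finset.sum_subset (Finset.subset_univ S) fun a _ ha => by simp [hgS a ha]]
      simp
    rw [hext, ← Finset.sum_add_distrib]
    refine Finset.sum_congr rfl fun a ha => ?_
    have := congrArg (fun z : ℤ => (z : ℂ)) (hw a ha)
    push_cast at this
    rw [← hfD a ha, hd a ha]
    linear_combination (g a * f a) * this
  obtain ⟨m, hm⟩ := H45.exists_int_of_forall_ringAut (z := W)
    (IsIntegral.sum _ fun a ha => ((gc_isIntegral hg a).mul (hf a ha)).mul (isIntegral_algebraMap))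
    (fun σ => by
      have e : W = ((z : ℂ) - (n₀ : ℂ) * Nat.card A) / Nat.card A := by
        rw [hsplit]; field_simp; ring
      rw [e]
      simp)
  exact ⟨n₀ + m, by rw [hz, hsplit, hm]; push_cast; ring⟩

omit hA in
theorem pow_mem_iff_coprime {Q : Subgroup A} {i : ℕ} (hi : i.Coprime (Nat.card A)) {a : A} :
    a ^ i ∈ Q ↔ a ∈ Q := by
  refine ⟨fun h => ?_, fun h => pow_mem h i⟩
  obtain ⟨m, hm⟩ := exists_pow_eq_self_of_coprime
    (hi.coprime_dvd_right (orderOf_dvd_natCard a))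
  rw [← hm]
  exact pow_mem h m

open scoped Classical in
/-- A unit valued quotient of generalized characters which is one at the identity is linear. -/
theorem exists_lin_of_unit [Fintype A] {N D f : A → ℂ} (hN : N ∈ gc A) (hD : D ∈ gc A)
    (hf : ∀ a, IsIntegral ℤ (f a)) (hfD : ∀ a, f a * D a = N a)
    (hDi : ∀ a, ∃ d : ℤ, D a = (d : ℂ) ∧ ¬ (p : ℤ) ∣ d) (hu : ∀ a, f a * conj (f a) = 1)
    (h1 : f 1 = 1) : ∃ μ : A →* ℂˣ, ∀ a, f a = (μ a : ℂ) := by
  have := Fintype.ofFinite (A →* ℂˣ)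
  have hq : (Nat.card A : ℂ) ≠ 0 := Nat.cast_ne_zero.2 Nat.card_pos.ne'
  have hc : ∀ l : A →* ℂˣ, ∃ c : ℤ, ∑ a : A, f a * conj (l a : ℂ) = (c : ℂ) * Nat.card A := by
    intro l
    obtain ⟨c, hc⟩ := exists_int_mean hA (S := Finset.univ) (fun i _ a _ => Finset.mem_univ _)
      (gc_conj (lin_mem l)) (fun a h => absurd (Finset.mem_univ a) h) hN hD (fun a _ => hf a)
      (fun a _ => hfD a) (fun a _ => hDi a)
    exact ⟨c, by rw [← hc]; exact Finset.sum_congr rfl fun a _ => mul_comm _ _⟩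
  choose c hc using hc
  have hsum : ∀ b, ∑ l : A →* ℂˣ, (c l : ℂ) * (l b : ℂ) = f b := by
    intro b
    refine mul_left_cancel₀ hq ?_
    rw [← inversion f b, Finset.mul_sum]
    exact Finset.sum_congr rfl fun l _ => by rw [hc]; ring
  have hsq : ∑ l : A →* ℂˣ, c l ^ 2 = 1 := by
    have h : ((∑ l : A →* ℂˣ, c l ^ 2 : ℤ) : ℂ) * Nat.card A = (1 : ℂ) * Nat.card A := by
      push_cast
      rw [Finset.sum_mul, one_mul]
      have e : ∑ a : A, f a * conj (f a) = (Nat.card A : ℂ) := by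
        simp [hu, Nat.card_eq_fintype_card]
      refine Eq.trans ?_ e
      conv_rhs => arg 2; ext a; arg 2; rw [← hsum a, map_sum]
      simp only [map_mul, map_intCast, Finset.mul_sum]
      rw [Finset.sum_comm]
      refine Finset.sum_congr rfl fun l _ => ?_
      rw [sq, mul_assoc, ← hc l, Finset.mul_sum]
      exact Finset.sum_congr rfl fun a _ => by ring
    exact_mod_cast mul_right_cancel₀ hq h
  obtain ⟨μ, hμ⟩ : ∃ μ, c μ ≠ 0 := by
    by_contra! h
    simp [h] at hsq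
  have hrest : ∀ l, l ≠ μ → c l = 0 := by
    intro l hl
    have h1 : c l ^ 2 + c μ ^ 2 ≤ ∑ x : A →* ℂˣ, c x ^ 2 := by
      rw [← Finset.sum_pair hl (f := fun x => c x ^ 2)]
      exact Finset.sum_le_sum_of_subset_of_nonneg (Finset.subset_univ _) fun x _ _ => sq_nonneg _
    have h2 : 0 < c μ ^ 2 := by positivity
    have h3 : c l ^ 2 = 0 := le_antisymm (by omega) (sq_nonneg _)
    exact (pow_eq_zero_iff two_ne_zero).1 h3
  have hval : ∀ b, f b = (c μ : ℂ) * (μ b : ℂ) := fun b => by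
    rw [← hsum b, Finset.sum_eq_single μ (fun l _ hl => by rw [hrest l hl]; simp) (by simp)]
  have hc1 : (c μ : ℂ) = 1 := by
    have := hval 1
    rw [h1, map_one, Units.val_one, mul_one] at this
    exact this.symm
  exact ⟨μ, fun b => by rw [hval b, hc1, one_mul]⟩

/-- A character with values of absolute value prime to `p` becomes real after a linear twist. -/
theorem exists_twist [Fintype A] {V : A → ℂ} (hV : V ∈ gc A) (d : A → ℕ)
    (hdp : ∀ a, ¬ p ∣ d a) (hVd : ∀ a, V a * conj (V a) = (d a : ℂ) ^ 2)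
    (hint : ∀ a, IsIntegral ℤ (V a / (d a : ℂ))) (h1 : V 1 = (d 1 : ℂ)) (Q : Subgroup A)
    (lam : Q →* ℂˣ) (hQ : ∀ (a : A) (q : Q), V ((q : A) * a) = (lam q : ℂ) * V a) :
    ∃ ω : A → ℂ, ω ∈ gc A ∧ (∀ (a : A) (q : Q), ω ((q : A) * a) = ω a) ∧
      ∀ a, ∃ ε : ℤ, (ε = 1 ∨ ε = -1) ∧ ω a = ((ε * d a : ℤ) : ℂ) := by
  classical
  have := Fintype.ofFinite (A →* ℂˣ)
  have hd0 : ∀ a, (d a : ℂ) ≠ 0 := fun a h => hdp a (by rw [Nat.cast_eq_zero.1 h]; exact dvd_zero _)
  have hq : (Nat.card A : ℂ) ≠ 0 := Nat.cast_ne_zero.2 Nat.card_pos.ne'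
  -- the square of the unit part
  obtain ⟨μ, hμ⟩ := exists_lin_of_unit hA (gc_mul hV hV) (gc_mul hV (gc_conj hV))
    (f := fun a => (V a / (d a : ℂ)) ^ 2) (fun a => (hint a).pow 2) (fun a => by
      show (V a / (d a : ℂ)) ^ 2 * (V a * conj (V a)) = V a * V a
      rw [hVd]; field_simp [hd0 a])
    (fun a => ⟨(d a : ℤ) ^ 2, by
      show V a * conj (V a) = _
      rw [hVd]; push_cast; rfl, fun h => hdp a (Int.natCast_dvd_natCast.1
        ((Nat.prime_iff_prime_int.1 Fact.out).dvd_of_dvd_pow h))⟩)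
    (fun a => by
      rw [map_pow, ← mul_pow, map_div₀, Complex.conj_natCast, div_mul_div_comm, hVd,
        ← sq, div_self (pow_ne_zero 2 (hd0 a)), one_pow])
    (by rw [h1, div_self (hd0 1), one_pow])
  -- on squares in `Q`
  have hsq : ∀ v : A, ∀ hv : v ^ 2 ∈ Q, (μ v : ℂ) = (lam ⟨v ^ 2, hv⟩ : ℂ) := by
    intro v hv
    have hc : ∀ l : A →* ℂˣ, ∃ c : ℤ, ∑ a : A, V a * conj (l a : ℂ) = (c : ℂ) * Nat.card A :=
      fun l => gc_sum (gc_mul hV (gc_conj (lin_mem l)))
    choose c hc using hc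
    have hres : ∀ l : A →* ℂˣ, c l ≠ 0 → (l v : ℂ) ^ 2 = (lam ⟨v ^ 2, hv⟩ : ℂ) := by
      intro l hl
      by_contra hne
      refine hl ?_
      have e : ∑ a : A, V a * conj (l a : ℂ) =
          ((lam ⟨v ^ 2, hv⟩ : ℂ) * conj ((l v : ℂ) ^ 2)) * ∑ a : A, V a * conj (l a : ℂ) := by
        rw [Finset.mul_sum]
        refine (Fintype.sum_equiv (Equiv.mulLeft (v ^ 2)) _ _ fun a => ?_).symm
        show _ = V (v ^ 2 * a) * conj (l (v ^ 2 * a) : ℂ)
        rw [hQ a ⟨v ^ 2, hv⟩, map_mul, map_pow, map_pow, Units.val_mul, Units.val_pow_eq_pow_val,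
          map_mul, map_pow]
        ring
      rw [hc l] at e
      by_contra h0
      have h2 : (1 : ℂ) = (lam ⟨v ^ 2, hv⟩ : ℂ) * conj ((l v : ℂ) ^ 2) :=
        mul_right_cancel₀ (mul_ne_zero (Int.cast_ne_zero.2 h0) hq) ((one_mul _).trans e)
      refine hne ?_
      have hn : (l v : ℂ) ^ 2 * conj ((l v : ℂ) ^ 2) = 1 := by
        rw [Complex.mul_conj, Complex.normSq_eq_norm_sq, norm_pow,
          Complex.norm_eq_one_of_pow_eq_one (lin_pow_card l v) Nat.card_pos.ne']
        simp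
      calc (l v : ℂ) ^ 2 = (l v : ℂ) ^ 2 * ((lam ⟨v ^ 2, hv⟩ : ℂ) * conj ((l v : ℂ) ^ 2)) := by
            rw [← h2, mul_one]
        _ = (lam ⟨v ^ 2, hv⟩ : ℂ) := by linear_combination (lam ⟨v ^ 2, hv⟩ : ℂ) * hn
    obtain ⟨r, hr⟩ := IsAlgClosed.exists_pow_nat_eq (lam ⟨v ^ 2, hv⟩ : ℂ) (n := 2) two_pos
    have hn : ∀ l : A →* ℂˣ, ∃ e : ℤ, (c l : ℂ) * (l v : ℂ) = (e : ℂ) * r := by
      intro l
      by_cases h : c l = 0
      · exact ⟨0, by simp [h]⟩
      rcases sq_eq_sq_iff_eq_or_eq_neg.1 ((hres l h).trans hr.symm) with e | e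
      · exact ⟨c l, by rw [e]⟩
      · exact ⟨-c l, by rw [e]; push_cast; ring⟩
    choose e he using hn
    have hVv : V v = (((∑ l, e l : ℤ)) : ℂ) * r := by
      refine mul_left_cancel₀ hq ?_
      rw [← inversion V v, Int.cast_sum, Finset.sum_mul, Finset.mul_sum]
      refine Finset.sum_congr rfl fun l _ => ?_
      rw [hc, ← he l]
      ring
    have hnorm := hVd v
    rw [hVv, map_mul, map_intCast] at hnorm
    have hr1 : r * conj r = 1 := by
      rw [Complex.mul_conj, Complex.normSq_eq_norm_sq, ← norm_pow, hr,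
        Complex.norm_eq_one_of_pow_eq_one (n := Nat.card A) (by
          rw [← Units.val_pow_eq_pow_val, ← map_pow, show (⟨v ^ 2, hv⟩ : Q) ^ Nat.card A = 1 from
            Subtype.ext (pow_card_eq_one' ..), map_one, Units.val_one]) Nat.card_pos.ne']
      simp
    rw [← hμ v, hVv, div_pow, mul_pow, hr]
    have : (((∑ l, e l : ℤ)) : ℂ) ^ 2 = (d v : ℂ) ^ 2 := by
      rw [← hnorm]; linear_combination -((((∑ l, e l : ℤ)) : ℂ) ^ 2) * hr1
    rw [this]
    field_simp [hd0 v]
  -- the twisting character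
  let φ : Q × A →* A := MonoidHom.coprod Q.subtype (powMonoidHom 2)
  let ψ : Q × A →* ℂˣ := MonoidHom.coprod lam μ
  have hker : φ.rangeRestrict.ker ≤ ψ.ker := by
    rintro ⟨q, v⟩ h
    rw [MonoidHom.ker_rangeRestrict, MonoidHom.mem_ker] at h
    change (q : A) * v ^ 2 = 1 at h
    have hv : v ^ 2 ∈ Q := by rw [← inv_eq_of_mul_eq_one_right h]; exact inv_mem q.2
    rw [MonoidHom.mem_ker]
    show lam q * μ v = 1
    rw [show μ v = lam ⟨v ^ 2, hv⟩ from Units.ext (hsq v hv), ← map_mul,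
      show q * ⟨v ^ 2, hv⟩ = 1 from Subtype.ext h, map_one]
  obtain ⟨μ', hμ'⟩ := MonoidHom.domRestrict_surjective ℂ φ.range
    (φ.rangeRestrict.liftOfSurjective φ.rangeRestrict_surjective ⟨ψ, hker⟩)
  have hext : ∀ q v, μ' (φ (q, v)) = ψ (q, v) := fun q v => by
    have := DFunLike.congr_fun hμ' (φ.rangeRestrict (q, v))
    rw [MonoidHom.domRestrictHom_apply, MonoidHom.domRestrict_apply,
      MonoidHom.liftOfRightInverse_comp_apply] at this
    simpa using this
  have hμQ : ∀ q : Q, μ' (q : A) = lam q := fun q => by simpa [φ, ψ] using hext q 1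
  have hμ2 : ∀ v : A, μ' v ^ 2 = μ v := fun v => by
    rw [← map_pow]; simpa [φ, ψ] using hext 1 v
  refine ⟨V * fun a => conj (μ' a : ℂ), gc_mul hV (gc_conj (lin_mem μ')), fun a q => ?_, fun a => ?_⟩
  · show V ((q : A) * a) * conj (μ' ((q : A) * a) : ℂ) = V a * conj (μ' a : ℂ)
    rw [hQ, map_mul, Units.val_mul, map_mul, hμQ]
    have hn : (lam q : ℂ) * conj (lam q : ℂ) = 1 := by
      rw [Complex.mul_conj, Complex.normSq_eq_norm_sq, ← hμQ q,
        Complex.norm_eq_one_of_pow_eq_one (lin_pow_card μ' _) Nat.card_pos.ne']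
      simp
    linear_combination (V a * conj (μ' a : ℂ)) * hn
  · have h2 : (V a * conj (μ' a : ℂ)) ^ 2 = (d a : ℂ) ^ 2 := by
      have h := hμ a
      rw [div_pow, div_eq_iff (pow_ne_zero 2 (hd0 a))] at h
      have hn : (μ' a : ℂ) * conj (μ' a : ℂ) = 1 := by
        rw [Complex.mul_conj, Complex.normSq_eq_norm_sq,
          Complex.norm_eq_one_of_pow_eq_one (lin_pow_card μ' _) Nat.card_pos.ne']
        simp
      rw [mul_pow, h, ← hμ2 a, Units.val_pow_eq_pow_val]
      linear_combination (d a : ℂ) ^ 2 * ((μ' a : ℂ) * conj (μ' a : ℂ) + 1) * hn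
    rcases sq_eq_sq_iff_eq_or_eq_neg.1 h2 with e | e
    · exact ⟨1, Or.inl rfl, e.trans (by simp)⟩
    · exact ⟨-1, Or.inr rfl, e.trans (by simp)⟩

end Cfsg.Agent.H56.FD
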