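import Cfsg.Agent.H56.FreeDefectLocal
import Cfsg.Agent.H40.KleinFour
import Cfsg.Agent.H57.Cyclic.Gram
import Mathlib.GroupTheory.FiniteAbelian.Duality

/-!
# Integral vectors and counts for abelian defect groups with free inertial action

With `E` the inertial index and `q` the order of the defect group, the block has integral vectors
indexed by the `m = (q - 1) / E` orbits of nontrivial characters of the defect group, with Gram matrix
`E J + I`, orthogonal to the regular values; the counts follow.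
-/

set_option autoImplicit false
set_option linter.unusedSectionVars false

open scoped ComplexConjugate

namespace Cfsg.Agent.H56.FD

open Cfsg MonoidAlgebra
open scoped IsMulCommutative
open Cfsg.Agent.H41 (ResField localRing res groupAlgCenter)
open Cfsg.Agent.H22 (Supp Inv cut cj red trc elTop el IsPairEl IsMaxEl IsBlockEl Below PLe NSub cS
  pairStab)

/-! ### Integral vectors with Gram matrix `E J + I` -/

section Gram

variable {ι κ : Type*} [Fintype ι] [DecidableEq ι] [DecidableEq κ]
variable {E : ℕ} (S : Finset κ) (x : ι → κ → ℤ)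
  (hgram : ∀ i j, ∑ c ∈ S, x i c * x j c = (E : ℤ) + if i = j then 1 else 0)
  (hnz : ∀ c ∈ S, ∃ i, x i c ≠ 0)

include hgram hnz

/-- At most `E + m` coordinates are used. -/
theorem card_le_of_gram [Nonempty ι] : S.card ≤ E + Fintype.card ι := by
  set m := Fintype.card ι with hm
  have hm1 : 0 < m := Fintype.card_pos
  have h1 : ∀ i j, ∑ c ∈ S, (x i c - x j c) * (x i c - x j c) =
      2 - 2 * (if i = j then 1 else 0 : ℤ) := fun i j => by
    rw [Finset.sum_congr rfl fun c _ =>
      show (x i c - x j c) * (x i c - x j c) = x i c * x i c + x j c * x j c - 2 * (x i c * x j c)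
        by ring, Finset.sum_sub_distrib, Finset.sum_add_distrib, ← Finset.mul_sum, hgram, hgram,
      hgram, if_pos rfl, if_pos rfl]
    ring
  have h2 : ∑ c ∈ S, ∑ i, x i c * x i c = (m : ℤ) * ((E : ℤ) + 1) := by
    rw [Finset.sum_comm, Finset.sum_congr rfl fun i _ => hgram i i]
    simp [hm, mul_add]
  have h3 : ∑ c ∈ S, ∑ i, ∑ j, (x i c - x j c) * (x i c - x j c) =
      2 * (m : ℤ) * m - 2 * m := by
    rw [Finset.sum_comm, Finset.sum_congr rfl fun i _ => Finset.sum_comm,
      Finset.sum_congr rfl fun i _ => Finset.sum_congr rfl fun j _ => h1 i j]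
    simp [hm, Finset.sum_sub_distrib]
    ring
  have htot : ∑ c ∈ S, (2 * ∑ i, x i c * x i c + ∑ i, ∑ j, (x i c - x j c) * (x i c - x j c)) =
      2 * (m : ℤ) * ((E : ℤ) + m) := by
    rw [Finset.sum_add_distrib, ← Finset.mul_sum, h2, h3]
    ring
  have hlow : (S.card : ℤ) * (2 * m) ≤ ((E : ℤ) + m) * (2 * m) := by
    rw [show ((E : ℤ) + m) * (2 * m) = 2 * (m : ℤ) * ((E : ℤ) + m) by ring, ← htot, ← nsmul_eq_mul,
      ← Finset.sum_const]
    exact Finset.sum_le_sum fun c hc => (H57.Cyclic.row_form _ (hnz c hc)).1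
  have := le_of_mul_le_mul_right hlow (by omega)
  omega

/-- Small index: the bound is attained, apart from three configurations. -/
theorem card_eq_of_gram_small [Nonempty ι] {l : ℕ} (hl : 1 ≤ l)
    (hk : S.card = l + Fintype.card ι) (hE1 : 1 ≤ E) (hE : E ≤ 3) :
    S.card = E + Fintype.card ι ∨ (E = 2 ∧ Fintype.card ι = 3) ∨
      (E = 3 ∧ (Fintype.card ι = 3 ∨ Fintype.card ι = 4)) := by
  set m := Fintype.card ι with hm
  have hm1 : 0 < m := Fintype.card_pos
  have hle := card_le_of_gram S x hgram hnz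
  -- all entries are signs or zero
  have hunit : ∀ i, ∀ c ∈ S, x i c * x i c ≤ 1 := by
    intro i c hc
    by_contra! hbig
    have h4 : 4 ≤ x i c * x i c := by
      rcases le_or_gt (x i c) (-2) with h | h
      · nlinarith
      rcases le_or_gt 2 (x i c) with h' | h'
      · nlinarith
      interval_cases (x i c) <;> simp_all
    have hsq := hgram i i
    rw [if_pos rfl, ← Finset.add_sum_erase _ _ hc] at hsq
    have hrest : 0 ≤ ∑ d ∈ S.erase c, x i d * x i d :=
      Finset.sum_nonneg fun d _ => mul_self_nonneg _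
    have hz : ∀ d ∈ S.erase c, x i d = 0 := fun d hd => mul_self_eq_zero.1
      ((Finset.sum_eq_zero_iff_of_nonneg fun d _ => mul_self_nonneg (x i d)).1 (by omega) d hd)
    by_cases hj : ∃ j, j ≠ i
    · obtain ⟨j, hj⟩ := hj
      have hij := hgram i j
      rw [if_neg (Ne.symm hj), add_zero, ← Finset.add_sum_erase _ _ hc,
        Finset.sum_eq_zero fun d hd => by rw [hz d hd, zero_mul], add_zero] at hij
      have hE3 : x i c * x i c = 4 := by omega
      have hE3' : (E : ℤ) = 3 := by omega
      rw [hE3'] at hij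
      have : x i c = 2 ∨ x i c = -2 := by
        have : (x i c - 2) * (x i c + 2) = 0 := by linarith
        rcases mul_eq_zero.1 this with h | h <;> [left; right] <;> omega
      rcases this with h | h <;> rw [h] at hij <;> omega
    · push Not at hj
      have hS1 : S ⊆ {c} := fun d hd => by
        by_contra hne
        obtain ⟨j, hj'⟩ := hnz d hd
        rw [hj j] at hj'
        exact hj' (hz d (Finset.mem_erase.2 ⟨fun e => hne (Finset.mem_singleton.2 e), hd⟩))
      have := Finset.card_le_card hS1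
      rw [Finset.card_singleton] at this
      omega
  set supp : ι → Finset κ := fun i => S.filter fun c => x i c ≠ 0 with hsupp
  have hcardsupp : ∀ i, (supp i).card = E + 1 := fun i => by
    have h := hgram i i
    rw [if_pos rfl, ← Finset.sum_filter_of_ne (p := fun c => x i c ≠ 0) (fun c _ h => by
      intro e; rw [e, mul_zero] at h; exact h rfl)] at h
    rw [Finset.sum_congr rfl (g := fun _ => (1 : ℤ)) fun c hc => by
      obtain ⟨hc, hne⟩ := Finset.mem_filter.1 hc
      have := hunit i c hc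
      have := mul_self_pos.2 hne
      omega] at h
    simp only [Finset.sum_const, nsmul_eq_mul, mul_one] at h
    show (S.filter _).card = E + 1
    omega
  have hdiff : ∀ i j, i ≠ j → supp i ≠ supp j ∧ (supp i \ supp j).card ≤ 1 := by
    intro i j hij
    have h2 : ∑ c ∈ S, (x i c - x j c) * (x i c - x j c) = 2 := by
      rw [Finset.sum_congr rfl fun c _ =>
        show (x i c - x j c) * (x i c - x j c) = x i c * x i c + x j c * x j c - 2 * (x i c * x j c)
          by ring, Finset.sum_sub_distrib, Finset.sum_add_distrib, ← Finset.mul_sum, hgram, hgram,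
        hgram, if_pos rfl, if_pos rfl, if_neg hij]
      ring
    have hA : ∀ A ⊆ S, ∑ c ∈ A, (x i c - x j c) * (x i c - x j c) ≤ 2 := fun A hA => h2 ▸
      Finset.sum_le_sum_of_subset_of_nonneg hA fun c _ _ => mul_self_nonneg _
    refine ⟨fun he => ?_, ?_⟩
    · obtain ⟨c, hc, hne⟩ : ∃ c ∈ S, x i c ≠ x j c := by
        by_contra! hall
        rw [Finset.sum_eq_zero fun c hc => by rw [hall c hc, sub_self, mul_zero]] at h2
        omega
      have h1 := hA {c} (Finset.singleton_subset_iff.2 hc)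
      rw [Finset.sum_singleton] at h1
      have hi1 := hunit i c hc
      have hj1 := hunit j c hc
      have hiff : x i c ≠ 0 ↔ x j c ≠ 0 := by
        have := Finset.ext_iff.1 he c
        simpa [supp, hc] using this
      have hb : ∀ z : ℤ, z * z ≤ 1 → z = 0 ∨ z = 1 ∨ z = -1 := fun z hz => by
        rcases le_or_gt z (-2) with h | h
        · nlinarith
        rcases le_or_gt 2 z with h' | h'
        · nlinarith
        omega
      rcases hb _ hi1 with a | a | a <;> rcases hb _ hj1 with b | b | b <;>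
        simp_all
    · have hsub : supp i \ supp j ∪ supp j \ supp i ⊆ S := fun c hc => by
        rcases Finset.mem_union.1 hc with h | h <;>
          exact (Finset.mem_filter.1 (Finset.mem_sdiff.1 h).1).1
      have hdis : Disjoint (supp i \ supp j) (supp j \ supp i) := disjoint_sdiff_sdiff
      have h1 := hA _ hsub
      have hge : ((supp i \ supp j ∪ supp j \ supp i).card : ℤ) ≤
          ∑ c ∈ supp i \ supp j ∪ supp j \ supp i, (x i c - x j c) * (x i c - x j c) := by
        rw [Finset.card_eq_sum_ones, Nat.cast_sum]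
        refine Finset.sum_le_sum fun c hc => ?_
        have hne : x i c - x j c ≠ 0 := by
          rcases Finset.mem_union.1 hc with h | h <;> obtain ⟨h', h''⟩ := Finset.mem_sdiff.1 h <;>
            obtain ⟨hcS, hne⟩ := Finset.mem_filter.1 h'
          · have : x j c = 0 := by simpa [supp, hcS] using h''
            rw [this, sub_zero]; exact hne
          · have : x i c = 0 := by simpa [supp, hcS] using h''
            rw [this, zero_sub, neg_ne_zero]; exact hne
        have := mul_self_pos.2 hne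
        push_cast
        omega
      rw [Finset.card_union_of_disjoint hdis,
        Finset.card_sdiff_comm ((hcardsupp j).trans (hcardsupp i).symm)] at hge
      push_cast at hge
      omega
  have hinter : ∀ i j, i ≠ j → (supp i ∩ supp j).card = E := fun i j hij => by
    obtain ⟨hne, hle'⟩ := hdiff i j hij
    have h1 := Finset.card_sdiff_add_card_inter (supp i) (supp j)
    rw [hcardsupp] at h1
    rcases Nat.eq_zero_or_pos (supp i \ supp j).card with h0 | h0
    · exact absurd (Finset.eq_of_subset_of_card_le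
        (Finset.sdiff_eq_empty_iff_subset.1 (Finset.card_eq_zero.1 h0))
        ((hcardsupp j).trans (hcardsupp i).symm).le) hne
    · omega
  have hinj : Function.Injective supp := fun i j e => by
    by_contra hij
    exact (hdiff i j hij).1 e
  have hS : S = Finset.univ.biUnion supp := by
    ext c
    refine ⟨fun hc => ?_, fun hc => ?_⟩
    · obtain ⟨i, hi⟩ := hnz c hc
      exact Finset.mem_biUnion.2 ⟨i, Finset.mem_univ _, Finset.mem_filter.2 ⟨hc, hi⟩⟩
    · obtain ⟨i, -, hi⟩ := Finset.mem_biUnion.1 hc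
      exact (Finset.mem_filter.1 hi).1
  obtain ⟨i₁⟩ := ‹Nonempty ι›
  by_cases hone : ∀ i, i = i₁
  · left
    have hm' : m = 1 := Fintype.card_eq_one_iff.2 ⟨i₁, hone⟩
    have : S = supp i₁ := by
      refine le_antisymm (fun c hc => ?_) (Finset.filter_subset _ _)
      obtain ⟨i, hi⟩ := hnz c hc
      rw [hone i] at hi
      exact Finset.mem_filter.2 ⟨hc, hi⟩
    rw [this, hcardsupp, hm']
  push Not at hone
  obtain ⟨i₂, h21⟩ := hone
  set K := supp i₁ ∩ supp i₂ with hK
  have hKE : K.card = E := hinter i₁ i₂ h21.symm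
  by_cases hall : ∀ i, K ⊆ supp i
  · left
    have hsub : ∀ i, ∃ e, supp i \ K = {e} := fun i => Finset.card_eq_one.1 (by
      rw [Finset.card_sdiff_of_subset (hall i), hcardsupp, hKE]; omega)
    choose e he using hsub
    have heK : ∀ i, e i ∉ K := fun i hi =>
      (Finset.mem_sdiff.1 ((he i).symm ▸ Finset.mem_singleton_self (e i))).2 hi
    have heq : ∀ i, supp i = K ∪ {e i} := fun i => by
      rw [← he i, Finset.union_sdiff_of_subset (hall i)]
    have he_inj : Function.Injective e := fun i j hij => hinj (by rw [heq, heq, hij])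
    have hS' : S = K ∪ Finset.univ.image e := by
      rw [hS]
      ext c
      simp only [Finset.mem_biUnion, Finset.mem_univ, true_and, heq, Finset.mem_union,
        Finset.mem_singleton, Finset.mem_image]
      exact ⟨fun ⟨i, hi⟩ => hi.imp_right fun h => ⟨i, h.symm⟩,
        fun h => h.elim (fun h => ⟨i₁, Or.inl h⟩) fun ⟨i, hi⟩ => ⟨i, Or.inr hi.symm⟩⟩
    rw [hS', Finset.card_union_of_disjoint (Finset.disjoint_left.2 fun c hc hc' => by
      obtain ⟨i, -, rfl⟩ := Finset.mem_image.1 hc'
      exact heK i hc), hKE, Finset.card_image_of_injective _ he_inj, Finset.card_univ]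
  · right
    push Not at hall
    obtain ⟨i₃, hi₃⟩ := hall
    obtain ⟨a, haK, ha3⟩ := Finset.not_subset.1 hi₃
    have h31 : i₃ ≠ i₁ := fun e => hi₃ (e ▸ Finset.inter_subset_left)
    have h32 : i₃ ≠ i₂ := fun e => hi₃ (e ▸ Finset.inter_subset_right)
    set U := supp i₁ ∪ supp i₂ with hU
    have hUc : U.card = E + 2 := by
      have := Finset.card_union_add_card_inter (supp i₁) (supp i₂)
      rw [← hU, hinter _ _ h21.symm, hcardsupp, hcardsupp] at this
      omega
    have hcore : ∀ i, i ≠ i₃ → a ∈ supp i → supp i \ {a} ⊆ supp i₃ := by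
      intro i hi hai
      have h1 := hinter i i₃ hi
      have hsub : supp i ∩ supp i₃ ⊆ supp i \ {a} := fun c hc => by
        obtain ⟨hc1, hc2⟩ := Finset.mem_inter.1 hc
        exact Finset.mem_sdiff.2 ⟨hc1, fun e => ha3 (Finset.mem_singleton.1 e ▸ hc2)⟩
      have := Finset.eq_of_subset_of_card_le hsub (by
        rw [Finset.card_sdiff_of_subset (Finset.singleton_subset_iff.2 hai), hcardsupp, h1]; simp)
      rw [← this]
      exact Finset.inter_subset_right
    obtain ⟨ha1, ha2⟩ := Finset.mem_inter.1 haK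
    have h3eq : supp i₃ = U.erase a := by
      refine (Finset.eq_of_subset_of_card_le (fun c hc => ?_) ?_).symm
      · obtain ⟨hca, hcU⟩ := Finset.mem_erase.1 hc
        rcases Finset.mem_union.1 hcU with h | h
        · exact hcore i₁ (Ne.symm h31) ha1
            (Finset.mem_sdiff.2 ⟨h, fun e => hca (Finset.mem_singleton.1 e)⟩)
        · exact hcore i₂ (Ne.symm h32) ha2
            (Finset.mem_sdiff.2 ⟨h, fun e => hca (Finset.mem_singleton.1 e)⟩)
      · rw [Finset.card_erase_of_mem (Finset.mem_union_left _ ha1), hUc, hcardsupp]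
        omega
    have hsubU : ∀ i, supp i ⊆ U := by
      intro i c hc
      by_contra hcU
      have hi1 : i ≠ i₁ := fun e => hcU (Finset.mem_union_left _ (e ▸ hc))
      have hi2 : i ≠ i₂ := fun e => hcU (Finset.mem_union_right _ (e ▸ hc))
      have hi3 : i ≠ i₃ := fun e => hcU (Finset.mem_of_mem_erase (h3eq ▸ (e ▸ hc)))
      have hsubi : ∀ j, c ∉ supp j → i ≠ j → supp i \ {c} ⊆ supp j := fun j hcj hij => by
        have h1 := hinter i j hij
        have := Finset.eq_of_subset_of_card_le (s := supp i ∩ supp j) (t := supp i \ {c})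
          (fun d hd => by
            obtain ⟨hd1, hd2⟩ := Finset.mem_inter.1 hd
            exact Finset.mem_sdiff.2 ⟨hd1, fun e => hcj (Finset.mem_singleton.1 e ▸ hd2)⟩)
          (by rw [Finset.card_sdiff_of_subset (Finset.singleton_subset_iff.2 hc), hcardsupp, h1]; simp)
        rw [← this]
        exact Finset.inter_subset_right
      have h' : supp i \ {c} ⊆ K.erase a := fun d hd => by
        refine Finset.mem_erase.2 ⟨fun e => ?_, Finset.mem_inter.2
          ⟨hsubi i₁ (fun h => hcU (Finset.mem_union_left _ h)) hi1 hd,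
            hsubi i₂ (fun h => hcU (Finset.mem_union_right _ h)) hi2 hd⟩⟩
        have := hsubi i₃ (fun h => hcU (Finset.mem_of_mem_erase (h3eq ▸ h))) hi3 hd
        exact ha3 (e ▸ this)
      have := Finset.card_le_card h'
      rw [Finset.card_erase_of_mem haK, hKE,
        Finset.card_sdiff_of_subset (Finset.singleton_subset_iff.2 hc), hcardsupp,
        Finset.card_singleton] at this
      omega
    have hSU : S = U := by
      rw [hS]
      refine le_antisymm (Finset.biUnion_subset.2 fun i _ => hsubU i) fun c hc => ?_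
      rcases Finset.mem_union.1 hc with h | h
      · exact Finset.mem_biUnion.2 ⟨i₁, Finset.mem_univ _, h⟩
      · exact Finset.mem_biUnion.2 ⟨i₂, Finset.mem_univ _, h⟩
    rw [hSU, hUc] at hk
    have hm3 : 3 ≤ m := by
      have := Finset.card_le_univ ({i₁, i₂, i₃} : Finset ι)
      rw [Finset.card_insert_of_notMem (by simp [h21.symm, Ne.symm h31]),
        Finset.card_pair (Ne.symm h32)] at this
      exact this
    omega

end Gram

variable {M : Ideal AlgInt} [M.IsMaximal] {p : ℕ} [Fact p.Prime]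
variable {G : Type*} [Group G] [Finite G]

/-- The inertial group acting on the defect group. -/
noncomputable def actHom (P : Subgroup G) (ε : MonoidAlgebra (ResField M) G) :
    pairStab P ε →* MulAut P where
  toFun t := Ctx.act t.2
  map_one' := MulEquiv.ext fun u => Subtype.ext (by
    show (1 : G) * (u : G) * (1 : G)⁻¹ = (u : G)
    simp)
  map_mul' t t' := MulEquiv.ext fun u => Subtype.ext (by
    show (t : G) * (t' : G) * (u : G) * ((t : G) * (t' : G))⁻¹ =
      (t : G) * ((t' : G) * (u : G) * (t' : G)⁻¹) * (t : G)⁻¹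
    group)

/-- A block with a positive defect group has positive regular rank. -/
theorem one_le_blockRank {H : Type*} [Group H] [Finite H] {b : Set (IrrCharacter H)}
    (hb : IsPBlock M b) : 1 ≤ blockRank p b := by
  haveI := Fintype.ofFinite H
  obtain ⟨χ, hχ⟩ := H41.IsPBlock.nonempty hb
  have hp : p.Prime := Fact.out
  rw [blockRank, Nat.one_le_iff_ne_zero]
  intro h0
  haveI : Module.Finite ℂ (Submodule.span ℂ ((fun χ : IrrCharacter H =>
      pRegularPart p (χ : H → ℂ)) '' b)) :=
    FiniteDimensional.span_of_finite ℂ ((Set.toFinite b).image _)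
  have hbot := Submodule.finrank_eq_zero.1 h0
  have h1 : pRegularPart p (χ : H → ℂ) = 0 :=
    (Submodule.mem_bot ℂ).1 (hbot ▸ Submodule.subset_span ⟨χ, hχ, rfl⟩)
  have h2 := congrFun h1 1
  simp only [pRegularPart, IsPRegular, orderOf_one, Pi.zero_apply] at h2
  rw [if_pos fun h => hp.ne_one (Nat.dvd_one.1 h)] at h2
  exact H26.irr_one_ne_zero χ h2

/-- The regular rank of a block of rank one. -/
theorem RankOne.blockRank_eq {K : Type*} [Group K] [Finite K] {b : Set (IrrCharacter K)}
    {θ : IrrCharacter K} (hb : RankOne p M b θ) : blockRank p b = 1 := by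
  refine le_antisymm ?_ (one_le_blockRank hb.block)
  have himg : (fun χ : IrrCharacter K => pRegularPart p (χ : K → ℂ)) '' b =
      {pRegularPart p (θ : K → ℂ)} := by
    refine Set.eq_singleton_iff_unique_mem.2 ⟨⟨θ, hb.mem, rfl⟩, ?_⟩
    rintro _ ⟨ψ, hψ, rfl⟩
    funext g
    show pRegularPart p (ψ : K → ℂ) g = pRegularPart p (θ : K → ℂ) g
    rw [H42.pRegularPart_eq_regRes, H42.pRegularPart_eq_regRes]
    by_cases hg : p ∣ orderOf g
    · rw [H42.regRes_of_singular hg, H42.regRes_of_singular hg]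
    · rw [H42.regRes_of_regular hg, H42.regRes_of_regular hg]
      exact hb.regular ψ hψ g hg
  rw [blockRank, himg]
  exact (finrank_span_le_card _).trans (by simp)

namespace Ctx

variable {B : Set (IrrCharacter G)} {P : Subgroup G} {ε j : MonoidAlgebra (ResField M) G}
  (h : Ctx p M B P ε j)

include h

/-- The inertial index. -/
theorem card_range_actHom :
    Nat.card (actHom P ε).range =
      (Subgroup.centralizer (P : Set G)).relIndex (pairStab P ε) := by
  rw [← Subgroup.index_ker, Subgroup.relIndex]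
  congr 1
  ext t
  rw [MonoidHom.mem_ker, Subgroup.mem_subgroupOf, Subgroup.mem_centralizer_iff]
  refine ⟨fun ht u hu => ?_, fun ht => MulEquiv.ext fun u => Subtype.ext ?_⟩
  · have e := congrArg Subtype.val (DFunLike.congr_fun ht ⟨u, hu⟩)
    have e' : (t : G) * u * (t : G)⁻¹ = u := e
    calc u * (t : G) = (t : G) * u * (t : G)⁻¹ * (t : G) := by rw [e']
      _ = (t : G) * u := inv_mul_cancel_right _ _
  · show (t : G) * (u : G) * (t : G)⁻¹ = (u : G)
    rw [← ht _ u.2, mul_inv_cancel_right]

theorem eq_one_of_fixed {τ : MulAut P} (hτ : τ ∈ (actHom P ε).range) {u : P}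
    (hu : u ≠ 1) (hf : τ u = u) : τ = 1 := by
  obtain ⟨⟨t, ht⟩, rfl⟩ := hτ
  have hfix : t * (u : G) * t⁻¹ = u := congrArg Subtype.val hf
  have htC := h.free t ht u u.2 (fun e => hu (Subtype.ext e)) hfix
  refine MulEquiv.ext fun v => Subtype.ext ?_
  show t * (v : G) * t⁻¹ = (v : G)
  rw [← Subgroup.mem_centralizer_iff.1 htC _ v.2, mul_inv_cancel_right]

theorem dual_eq_one_of_fixed {τ : MulAut P} (hτ : τ ∈ (actHom P ε).range) (hτ1 : τ ≠ 1)
    {l : P →* ℂˣ} (hl : l.comp (τ : P →* P) = l) : l = 1 := by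
  classical
  have hinj : Function.Injective fun u : P => τ u * u⁻¹ := by
    intro u v e
    have e' : τ u * u⁻¹ = τ v * v⁻¹ := e
    by_contra hne
    refine hτ1 (h.eq_one_of_fixed hτ (u := v⁻¹ * u) (fun e1 => hne (inv_mul_eq_one.1 e1).symm) ?_)
    have h1 : τ u = τ v * v⁻¹ * u := by rw [← e', inv_mul_cancel_right]
    rw [map_mul, map_inv, h1]
    group
  ext w
  obtain ⟨u, rfl⟩ := (Finite.injective_iff_surjective.1 hinj) w
  rw [map_mul, show l (τ u) = l u from DFunLike.congr_fun hl u, map_inv, mul_inv_cancel]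
  rfl

/-- The properties of the signs. -/
structure IsSigns (s : G → ℤ) [Fintype P] : Prop where
  sign : ∀ u, s u = 1 ∨ s u = -1
  inv : ∀ t ∈ pairStab P ε, ∀ u ∈ P, u ≠ 1 → s (t * u * t⁻¹) = s u
  int : ∀ (χ : IrrCharacter G) (l : P →* ℂˣ), ∃ n : ℤ,
    ∑ u : P, ((l u : ℂ) - 1) * ((s (u : G) : ℂ) * conj (h.W χ (u : G))) = (n : ℂ) * Nat.card P

theorem exists_isSigns [Fintype P] : ∃ s, h.IsSigns s := by
  obtain ⟨s, h1, h2, h3⟩ := h.exists_signs
  exact ⟨s, h1, h2, h3⟩

variable [Fintype P] {s : G → ℤ} (hs : h.IsSigns s)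

include hs

/-- The integral vector of a linear character of the defect group. -/
noncomputable def vec (χ : IrrCharacter G) (l : P →* ℂˣ) : ℤ := (hs.int χ l).choose

theorem vec_spec (χ : IrrCharacter G) (l : P →* ℂˣ) :
    ∑ u : P, ((l u : ℂ) - 1) * ((s (u : G) : ℂ) * conj (h.W χ (u : G))) =
      (h.vec hs χ l : ℂ) * Nat.card P :=
  (hs.int χ l).choose_spec

/-- The signed decomposition numbers are the Fourier transform of the vectors. -/
theorem sum_vec [Fintype (P →* ℂˣ)] (χ : IrrCharacter G) {v : P} (hv : v ≠ 1) :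
    ∑ l : P →* ℂˣ, (h.vec hs χ l : ℂ) * conj (l v : ℂ) = (s (v : G) : ℂ) * conj (h.W χ (v : G)) := by
  classical
  haveI : IsMulCommutative P :=
    IsMulCommutative.of_comm fun a b => Subtype.ext (h.comm _ a.2 _ b.2)
  set f : P → ℂ := fun u => (s (u : G) : ℂ) * conj (h.W χ (u : G)) with hf
  set f' : P → ℂ := fun u => f u - (if u = 1 then ∑ w, f w else 0) with hf'
  have hq : (Nat.card P : ℂ) ≠ 0 := Nat.cast_ne_zero.2 Nat.card_pos.ne'
  have key : ∀ l : P →* ℂˣ, (h.vec hs χ l : ℂ) * Nat.card P = ∑ a, f' a * (l a : ℂ) := by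
    intro l
    rw [← h.vec_spec hs χ l]
    simp only [hf', sub_mul, ite_mul, zero_mul, Finset.sum_sub_distrib, Finset.sum_ite_eq',
      Finset.mem_univ, if_true, map_one, Units.val_one, mul_one]
    simp only [one_mul, Finset.sum_sub_distrib, hf]
    congr 1
    exact Finset.sum_congr rfl fun u _ => by ring
  have hinv := inversion (fun a => conj (f' a)) v
  have := congrArg conj hinv
  rw [map_sum, map_mul, map_natCast, Complex.conj_conj] at this
  have e : f' v = f v := by simp [hf', hv]
  rw [e] at this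
  refine mul_left_cancel₀ hq ?_
  rw [← this, Finset.mul_sum]
  refine Finset.sum_congr rfl fun l _ => ?_
  rw [map_mul, map_sum, Finset.sum_congr rfl fun a _ => by
    rw [map_mul, Complex.conj_conj, Complex.conj_conj], ← key]
  ring

/-- No row of vectors vanishes. -/
theorem exists_vec_ne_zero (hP1 : P ≠ ⊥) {χ : IrrCharacter G} (hχ : χ ∈ B) :
    ∃ l : P →* ℂˣ, l ≠ 1 ∧ h.vec hs χ l ≠ 0 := by
  classical
  haveI : IsMulCommutative P :=
    IsMulCommutative.of_comm fun a b => Subtype.ext (h.comm _ a.2 _ b.2)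
  have := Fintype.ofFinite (P →* ℂˣ)
  by_contra! hall
  obtain ⟨⟨v, hv⟩, hv1⟩ := P.ne_bot_iff_exists_ne_one.1 hP1
  have h0 : ∀ l : P →* ℂˣ, h.vec hs χ l = 0 := fun l => by
    rcases eq_or_ne l 1 with rfl | hl
    · have := h.vec_spec hs χ 1
      simp only [MonoidHom.one_apply, Units.val_one, sub_self, zero_mul, Finset.sum_const_zero,
        zero_eq_mul, Int.cast_eq_zero] at this
      exact this.resolve_right (Nat.cast_ne_zero.2 Nat.card_pos.ne')
    · exact hall l hl
  have := h.sum_vec hs χ hv1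
  simp only [h0, Int.cast_zero, zero_mul, Finset.sum_const_zero, zero_eq_mul, Int.cast_eq_zero,
    map_eq_zero] at this
  refine h.W_ne_zero hχ hv (fun e => hv1 (Subtype.ext e)) (this.resolve_left fun e => ?_)
  rcases hs.sign v with h' | h' <;> simp [h'] at e

open scoped Classical in
/-- The Gram matrix. -/
theorem gram [Fintype G] {S : Finset (IrrCharacter G)} (hS : ∀ χ, χ ∈ S ↔ χ ∈ B)
    [Fintype (actHom P ε).range] {l l' : P →* ℂˣ} (hl : l ≠ 1) (hl' : l' ≠ 1) :
    ∑ χ ∈ S, h.vec hs χ l * h.vec hs χ l' =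
      ∑ τ : (actHom P ε).range,
        ((if l = l'.comp ((τ : MulAut P) : P →* P) then 1 else 0) + 1 : ℤ) := by
  haveI : IsMulCommutative P :=
    IsMulCommutative.of_comm fun a b => Subtype.ext (h.comm _ a.2 _ b.2)
  set q : ℂ := (Nat.card P : ℂ) with hq
  have hq0 : q ≠ 0 := Nat.cast_ne_zero.2 Nat.card_pos.ne'
  have hpair : ∀ u v : P, u ≠ 1 → ∑ χ ∈ S, conj (h.W χ (u : G)) * h.W χ (v : G) =
      q * ∑ τ : (actHom P ε).range, if (τ : MulAut P) u = v then (1 : ℂ) else 0 := by
    intro u v hu
    obtain ⟨h0, h1⟩ := h.sum_W_mul_conj u.2 v.2 (fun e => hu (Subtype.ext e)) S hS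
    by_cases hex : ∃ t ∈ pairStab P ε, t * (u : G) * t⁻¹ = v
    · have hsum : ∑ χ ∈ S, conj (h.W χ (u : G)) * h.W χ (v : G) = q := by
        have := congrArg conj (h1 hex)
        rw [map_sum, map_natCast] at this
        simpa only [map_mul, Complex.conj_conj] using this
      rw [hsum]
      obtain ⟨t, ht, htv⟩ := hex
      let τ₀ : (actHom P ε).range := ⟨actHom P ε ⟨t, ht⟩, ⟨_, rfl⟩⟩
      have h00 : (τ₀ : MulAut P) u = v := Subtype.ext htv
      rw [Finset.sum_eq_single τ₀, if_pos h00, mul_one]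
      · intro τ _ hne
        refine if_neg fun hτ => hne (Subtype.ext ?_)
        have hm : (τ₀ : MulAut P)⁻¹ * (τ : MulAut P) ∈ (actHom P ε).range :=
          mul_mem (inv_mem τ₀.2) τ.2
        have := h.eq_one_of_fixed hm hu (by
          rw [MulAut.mul_apply, hτ, ← h00, MulAut.inv_apply_self])
        exact (inv_mul_eq_one.1 this).symm
      · exact fun h' => absurd (Finset.mem_univ _) h'
    · push Not at hex
      have hsum : ∑ χ ∈ S, conj (h.W χ (u : G)) * h.W χ (v : G) = 0 := by
        have := congrArg conj (h0 hex)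
        rw [map_sum, map_zero] at this
        simpa using this
      rw [hsum, Finset.sum_eq_zero fun τ _ => ?_, mul_zero]
      refine if_neg fun hτ => ?_
      obtain ⟨⟨t, ht⟩, hteq⟩ := τ.2
      exact hex t ht (by rw [← hτ, ← hteq]; rfl)
  have hsum2 : ∀ τ : (actHom P ε).range, ∑ u : P, ((l u : ℂ) - 1) *
      conj ((l' ((τ : MulAut P) u) : ℂ) - 1) =
      q * ((if l = l'.comp ((τ : MulAut P) : P →* P) then 1 else 0) + 1) := by
    intro τ
    set l'' := l'.comp ((τ : MulAut P) : P →* P) with hl''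
    have hne : l'' ≠ 1 := fun e => hl' (MonoidHom.ext fun w => by
      have := DFunLike.congr_fun e ((τ : MulAut P).symm w)
      simpa [hl''] using this)
    have e : ∀ u : P, ((l u : ℂ) - 1) * conj ((l' ((τ : MulAut P) u) : ℂ) - 1) =
        ((l * l''⁻¹) u : ℂˣ) - (l u : ℂ) - ((l''⁻¹) u : ℂˣ) + 1 := fun u => by
      rw [map_sub, map_one, show l' ((τ : MulAut P) u) = l'' u from rfl, conj_lin,
        MonoidHom.mul_apply, Units.val_mul]
      ring
    rw [Finset.sum_congr rfl fun u _ => e u, Finset.sum_add_distrib, Finset.sum_sub_distrib,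
      Finset.sum_sub_distrib, sum_lin, sum_lin, sum_lin, if_neg hl,
      if_neg (show ¬ l''⁻¹ = 1 from fun e => hne (MonoidHom.ext fun w => inv_eq_one.1 (DFunLike.congr_fun e w))), Finset.sum_const, Finset.card_univ, nsmul_eq_mul, mul_one,
      ← Nat.card_eq_fintype_card]
    by_cases hcase : l = l''
    · rw [if_pos hcase, if_pos (MonoidHom.ext fun w => by
        rw [hcase, MonoidHom.mul_apply, MonoidHom.inv_apply, mul_inv_cancel, MonoidHom.one_apply])]
      rw [← hq]
      ring
    · rw [if_neg hcase, if_neg fun e => hcase (MonoidHom.ext fun w => by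
        have := DFunLike.congr_fun e w
        rwa [MonoidHom.mul_apply, MonoidHom.inv_apply, MonoidHom.one_apply, mul_inv_eq_one] at this)]
      rw [← hq]
      ring
  have hmul : (q * q) * ((∑ χ ∈ S, h.vec hs χ l * h.vec hs χ l' : ℤ) : ℂ) =
      (q * q) * ((∑ τ : (actHom P ε).range,
        ((if l = l'.comp ((τ : MulAut P) : P →* P) then 1 else 0) + 1 : ℤ) : ℤ) : ℂ) := by
    push_cast
    have hreal : ∀ χ, (h.vec hs χ l' : ℂ) * q =
        conj (∑ u : P, ((l' u : ℂ) - 1) * ((s (u : G) : ℂ) * conj (h.W χ (u : G)))) := fun χ => by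
      rw [h.vec_spec hs, map_mul, map_intCast, map_natCast, hq]
    rw [Finset.mul_sum, Finset.sum_congr rfl fun χ _ =>
      show q * q * ((h.vec hs χ l : ℂ) * (h.vec hs χ l' : ℂ)) =
        ((h.vec hs χ l : ℂ) * q) * ((h.vec hs χ l' : ℂ) * q) by ring,
      Finset.sum_congr rfl fun χ _ => by rw [hreal, hq, ← h.vec_spec hs, map_sum,
        Finset.sum_mul_sum], Finset.sum_comm]
    have hinner : ∀ u : P, ∑ χ ∈ S, ∑ v : P,
        ((l u : ℂ) - 1) * ((s (u : G) : ℂ) * conj (h.W χ (u : G))) *
          conj (((l' v : ℂ) - 1) * ((s (v : G) : ℂ) * conj (h.W χ (v : G)))) =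
        q * ∑ τ : (actHom P ε).range,
          ((l u : ℂ) - 1) * conj ((l' ((τ : MulAut P) u) : ℂ) - 1) := by
      intro u
      rcases eq_or_ne u 1 with rfl | hu
      · simp
      rw [Finset.sum_comm, Finset.sum_congr rfl fun v _ => by
        rw [Finset.sum_congr rfl fun χ _ =>
          show ((l u : ℂ) - 1) * ((s (u : G) : ℂ) * conj (h.W χ (u : G))) *
              conj (((l' v : ℂ) - 1) * ((s (v : G) : ℂ) * conj (h.W χ (v : G)))) =
            (((l u : ℂ) - 1) * conj ((l' v : ℂ) - 1) * ((s (u : G) : ℂ) * (s (v : G) : ℂ))) *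
              (conj (h.W χ (u : G)) * h.W χ (v : G)) by
            rw [map_mul, map_mul, Complex.conj_conj, map_intCast]; ring,
          ← Finset.mul_sum, hpair u v hu, mul_left_comm, Finset.mul_sum],
        ← Finset.mul_sum, Finset.sum_comm]
      refine congrArg _ (Finset.sum_congr rfl fun τ _ => ?_)
      rw [Finset.sum_eq_single ((τ : MulAut P) u)]
      · rw [if_pos rfl]
        obtain ⟨⟨t, ht⟩, hteq⟩ := τ.2
        have hsv : s (((τ : MulAut P) u : P) : G) = s (u : G) := by
          rw [← hteq]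
          exact hs.inv t ht u u.2 fun e => hu (Subtype.ext e)
        rw [hsv]
        rcases hs.sign u with e | e <;> rw [e] <;> simp
      · exact fun v _ hv => by rw [if_neg (Ne.symm hv), mul_zero]
      · exact fun h' => absurd (Finset.mem_univ _) h'
    rw [Finset.sum_congr rfl fun u _ => hinner u, ← Finset.mul_sum, Finset.sum_comm,
      Finset.sum_congr rfl fun τ _ => hsum2 τ, ← Finset.mul_sum]
    ring
  exact Int.cast_injective (α := ℂ) (mul_left_cancel₀ (mul_ne_zero hq0 hq0) hmul)

/-- The vectors are orthogonal to the regular values. -/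
theorem sum_vec_mul_regular [Fintype G] {S : Finset (IrrCharacter G)} (hS : ∀ χ, χ ∈ S ↔ χ ∈ B)
    (l : P →* ℂˣ) {r : G} (hr : ¬ p ∣ orderOf r) :
    ∑ χ ∈ S, (h.vec hs χ l : ℂ) * (χ : G → ℂ) r = 0 := by
  have hq : (Nat.card P : ℂ) ≠ 0 := Nat.cast_ne_zero.2 Nat.card_pos.ne'
  refine mul_left_cancel₀ hq ?_
  rw [mul_zero, Finset.mul_sum, Finset.sum_congr rfl fun χ _ => by
    rw [← mul_assoc, mul_comm (Nat.card P : ℂ), ← h.vec_spec hs, Finset.sum_mul], Finset.sum_comm]
  refine Finset.sum_eq_zero fun u _ => ?_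
  rcases eq_or_ne u 1 with rfl | hu
  · simp
  have := congrArg conj (h.sum_W_mul_regular u.2 (fun e => hu (Subtype.ext e)) hr hS)
  rw [map_sum, map_zero] at this
  simp only [map_mul, Complex.conj_conj] at this
  simp only [mul_assoc, ← Finset.mul_sum, this, mul_zero]

omit [Fintype P] hs in
theorem exists_orbit_reps :
    ∃ (m : ℕ) (L : Fin m → (P →* ℂˣ)),
      m * (Subgroup.centralizer (P : Set G)).relIndex (pairStab P ε) = Nat.card P - 1 ∧
      (∀ i, L i ≠ 1) ∧
      (∀ l : P →* ℂˣ, l ≠ 1 → ∃ i, ∃ τ ∈ (actHom P ε).range, l = (L i).comp (τ : P →* P)) ∧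
      ∀ i i' (τ : MulAut P), τ ∈ (actHom P ε).range → L i = (L i').comp (τ : P →* P) → i = i' := by
  classical
  haveI : IsMulCommutative P :=
    IsMulCommutative.of_comm fun a b => Subtype.ext (h.comm _ a.2 _ b.2)
  have hcomp : ∀ (σ τ : MulAut P) (l : P →* ℂˣ),
      (l.comp (σ : P →* P)).comp (τ : P →* P) = l.comp ((σ * τ : MulAut P) : P →* P) :=
    fun σ τ l => MonoidHom.ext fun w => rfl
  have hone : ∀ l : P →* ℂˣ, l.comp ((1 : MulAut P) : P →* P) = l :=
    fun l => MonoidHom.ext fun w => rfl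
  let st : Setoid {l : P →* ℂˣ // l ≠ 1} :=
    { r := fun l l' => ∃ τ ∈ (actHom P ε).range, l'.1 = l.1.comp (τ : P →* P)
      iseqv := ⟨fun l => ⟨1, one_mem _, (hone l.1).symm⟩,
        fun {l l'} ⟨τ, hτ, e⟩ => ⟨τ⁻¹, inv_mem hτ, by rw [e, hcomp, mul_inv_cancel, hone]⟩,
        fun {a b c} ⟨σ, hσ, e⟩ ⟨τ, hτ, e'⟩ => ⟨σ * τ, mul_mem hσ hτ, by rw [e', e, hcomp]⟩⟩ }
  have : Finite (P →* ℂˣ) := by
    refine Nat.finite_of_card_ne_zero ?_
    rw [CommGroup.card_monoidHom_of_hasEnoughRootsOfUnity P ℂ]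
    exact Nat.card_pos.ne'
  have := Fintype.ofFinite (Quotient st)
  set m := Fintype.card (Quotient st)
  let cls : Fin m ≃ Quotient st := (Fintype.equivFin _).symm
  let L : Fin m → (P →* ℂˣ) := fun i => (cls i).out.1
  have hL1 : ∀ i, L i ≠ 1 := fun i => (cls i).out.2
  have hcover : ∀ l : P →* ℂˣ, l ≠ 1 → ∃ i, ∃ τ ∈ (actHom P ε).range,
      l = (L i).comp (τ : P →* P) := fun l hl => by
    refine ⟨cls.symm (Quotient.mk st ⟨l, hl⟩), ?_⟩
    have := Quotient.exact (s := st) (show Quotient.mk st (cls (cls.symm (Quotient.mk st ⟨l, hl⟩))).out =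
      Quotient.mk st ⟨l, hl⟩ by rw [Quotient.out_eq, Equiv.apply_symm_apply])
    exact this
  have huniq : ∀ i i' (τ : MulAut P), τ ∈ (actHom P ε).range →
      L i = (L i').comp (τ : P →* P) → i = i' := fun i i' τ hτ e => cls.injective (by
    rw [← Quotient.out_eq (cls i), ← Quotient.out_eq (cls i')]
    exact (Quotient.sound (s := st) ⟨τ, hτ, e⟩).symm)
  refine ⟨m, L, ?_, hL1, hcover, huniq⟩
  let F : Fin m × (actHom P ε).range → {l : P →* ℂˣ // l ≠ 1} := fun x =>
    ⟨(L x.1).comp ((x.2 : MulAut P) : P →* P), fun e => hL1 x.1 (MonoidHom.ext fun w => by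
      have := DFunLike.congr_fun e ((x.2 : MulAut P).symm w)
      simpa using this)⟩
  have hF : Function.Bijective F := by
    refine ⟨?_, fun ⟨l, hl⟩ => ?_⟩
    · rintro ⟨i, σ⟩ ⟨i', τ⟩ e
      have e' : (L i).comp ((σ : MulAut P) : P →* P) = (L i').comp ((τ : MulAut P) : P →* P) :=
        congrArg Subtype.val e
      have e'' : L i = (L i').comp (((τ : MulAut P) * (σ : MulAut P)⁻¹ : MulAut P) : P →* P) := by
        rw [← hcomp, ← e', hcomp, mul_inv_cancel, hone]
      obtain rfl := huniq i i' _ (mul_mem τ.2 (inv_mem σ.2)) e''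
      refine Prod.ext rfl (Subtype.ext ?_)
      by_contra hne
      exact hL1 i (h.dual_eq_one_of_fixed (mul_mem τ.2 (inv_mem σ.2))
        (fun e1 => hne (mul_inv_eq_one.1 e1).symm) e''.symm)
    · obtain ⟨i, τ, hτ, e⟩ := hcover l hl
      exact ⟨(i, ⟨τ, hτ⟩), Subtype.ext e.symm⟩
  have hcard := Nat.card_eq_of_bijective F hF
  have : Fintype (P →* ℂˣ) := Fintype.ofFinite _
  have hne : Nat.card {l : P →* ℂˣ // l ≠ 1} = Nat.card P - 1 := by
    rw [Nat.card_eq_fintype_card, Fintype.card_subtype_compl, Fintype.card_subtype_eq,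
      ← Nat.card_eq_fintype_card, CommGroup.card_monoidHom_of_hasEnoughRootsOfUnity P ℂ]
  rw [← hne, ← hcard, Nat.card_prod, Nat.card_fin, h.card_range_actHom]

/-- The vectors of the orbit representatives. -/
theorem exists_vectors [Fintype G] (hP1 : P ≠ ⊥) {S : Finset (IrrCharacter G)}
    (hS : ∀ χ, χ ∈ S ↔ χ ∈ B) :
    ∃ (m : ℕ) (L : Fin m → (P →* ℂˣ)), 0 < m ∧
      m * (Subgroup.centralizer (P : Set G)).relIndex (pairStab P ε) = Nat.card P - 1 ∧
      (∀ i, L i ≠ 1) ∧
      (∀ l : P →* ℂˣ, l ≠ 1 → ∃ i, (∃ τ ∈ (actHom P ε).range, l = (L i).comp (τ : P →* P)) ∧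
        ∀ χ ∈ S, h.vec hs χ l = h.vec hs χ (L i)) ∧
      (∀ i i', ∑ χ ∈ S, h.vec hs χ (L i) * h.vec hs χ (L i') =
        ((Subgroup.centralizer (P : Set G)).relIndex (pairStab P ε) : ℤ) + if i = i' then 1 else 0) ∧
      (∀ χ ∈ S, ∃ i, h.vec hs χ (L i) ≠ 0) ∧
      ∀ i (r : G), ¬ p ∣ orderOf r → ∑ χ ∈ S, (h.vec hs χ (L i) : ℂ) * (χ : G → ℂ) r = 0 := by
  classical
  obtain ⟨m, L, hm, hL1, hcover, huniq⟩ := h.exists_orbit_reps
  have : Fintype (actHom P ε).range := Fintype.ofFinite _
  set E := (Subgroup.centralizer (P : Set G)).relIndex (pairStab P ε) with hE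
  have hEc : Fintype.card (actHom P ε).range = E := by
    rw [← Nat.card_eq_fintype_card]; exact h.card_range_actHom
  have hGram : ∀ l l' : P →* ℂˣ, l ≠ 1 → l' ≠ 1 → ∑ χ ∈ S, h.vec hs χ l * h.vec hs χ l' =
      (E : ℤ) + if ∃ τ ∈ (actHom P ε).range, l = l'.comp (τ : P →* P) then 1 else 0 := by
    intro l l' hl hl'
    rw [h.gram hs hS hl hl', Finset.sum_add_distrib, Finset.sum_const, Finset.card_univ, hEc,
      nsmul_eq_mul, mul_one, add_comm]
    congr 1
    split_ifs with hex
    · obtain ⟨τ₀, hτ₀, e⟩ := hex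
      rw [Finset.sum_eq_single ⟨τ₀, hτ₀⟩, if_pos e]
      · intro τ _ hne
        refine if_neg fun e' => hl' ?_
        have hcmp : l'.comp ((((τ : MulAut P) * τ₀⁻¹ : MulAut P)) : P →* P) = l' := by
          ext w
          have h2 := DFunLike.congr_fun (e'.symm.trans e) (τ₀⁻¹ w)
          simp only [MonoidHom.comp_apply] at h2
          show ((l' ((τ : MulAut P) (τ₀⁻¹ w)) : ℂˣ) : ℂ) = _
          exact congrArg Units.val (h2.trans (congrArg l' (MulAut.apply_inv_self _ τ₀ w)))
        exact h.dual_eq_one_of_fixed (mul_mem τ.2 (inv_mem hτ₀))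
          (fun e1 => hne (Subtype.ext (mul_inv_eq_one.1 e1))) hcmp
      · exact fun h' => absurd (Finset.mem_univ _) h'
    · exact Finset.sum_eq_zero fun τ _ => if_neg fun e => hex ⟨τ, τ.2, e⟩
  have hself : ∀ l : P →* ℂˣ, ∃ τ ∈ (actHom P ε).range, l = l.comp (τ : P →* P) :=
    fun l => ⟨1, one_mem _, MonoidHom.ext fun w => rfl⟩
  have hconst : ∀ l : P →* ℂˣ, l ≠ 1 → ∀ i, (∃ τ ∈ (actHom P ε).range, l = (L i).comp (τ : P →* P)) →
      ∀ χ ∈ S, h.vec hs χ l = h.vec hs χ (L i) := by
    intro l hl i hi χ hχ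
    have h0 : ∑ χ ∈ S, (h.vec hs χ l - h.vec hs χ (L i)) * (h.vec hs χ l - h.vec hs χ (L i)) = 0 := by
      rw [Finset.sum_congr rfl fun c _ =>
        show (h.vec hs c l - h.vec hs c (L i)) * (h.vec hs c l - h.vec hs c (L i)) =
          h.vec hs c l * h.vec hs c l + h.vec hs c (L i) * h.vec hs c (L i) -
            2 * (h.vec hs c l * h.vec hs c (L i)) by ring,
        Finset.sum_sub_distrib, Finset.sum_add_distrib, ← Finset.mul_sum, hGram l l hl hl,
        hGram _ _ (hL1 i) (hL1 i), hGram _ _ hl (hL1 i), if_pos (hself l), if_pos (hself (L i)),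
        if_pos hi]
      ring
    exact sub_eq_zero.1 (mul_self_eq_zero.1
      ((Finset.sum_eq_zero_iff_of_nonneg fun c _ => mul_self_nonneg _).1 h0 χ hχ))
  have hP2 : 2 ≤ Nat.card P := by
    by_contra hlt
    exact hP1 (Subgroup.card_eq_one.1 (le_antisymm (by omega) Nat.card_pos))
  refine ⟨m, L, Nat.pos_of_ne_zero fun e => by rw [e, zero_mul] at hm; omega, hm, hL1,
    fun l hl => ?_, fun i i' => ?_, fun χ hχ => ?_, fun i r hr => h.sum_vec_mul_regular hs hS _ hr⟩
  · obtain ⟨i, hi⟩ := hcover l hl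
    exact ⟨i, hi, hconst l hl i hi⟩
  · rw [hGram _ _ (hL1 i) (hL1 i')]
    congr 1
    refine if_congr ⟨fun ⟨τ, hτ, e⟩ => huniq i i' τ hτ e, fun e => e ▸ hself (L i)⟩ rfl rfl
  · obtain ⟨l, hl, hne⟩ := h.exists_vec_ne_zero hs hP1 ((hS χ).1 hχ)
    obtain ⟨i, hi⟩ := hcover l hl
    exact ⟨i, fun e => hne (by rw [hconst l hl i hi χ hχ, e])⟩

omit [Fintype P] hs in
/-- The members counted through the sections. -/
theorem card_eq_rank_add :
    (Subgroup.centralizer (P : Set G)).relIndex (pairStab P ε) * Nat.card B =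
      (Subgroup.centralizer (P : Set G)).relIndex (pairStab P ε) * blockRank p B +
        (Nat.card P - 1) := by
  classical
  have := Fintype.ofFinite P
  have hM := h.modular
  have := H41.IsPModular.charP hM
  choose! b hb using fun u (hu : u ∈ P) => H40.exists_subAt hM h.block h.max h.comm hu
  rw [H40.card_mul_eq_sum_subAt hM h.block h.max h.comm b hb,
    ← Finset.add_sum_erase _ _ (Finset.mem_univ (1 : P))]
  congr 1
  · have htop : Subgroup.centralizer ({((1 : P) : G)} : Set G) = ⊤ := by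
      ext; simp [Subgroup.mem_centralizer_singleton_iff]
    obtain ⟨hind, -, -⟩ := H40.isInducedBlock_of_subAt hM h.block h.max h.comm (hb _ (1 : P).2)
    rw [H40.blockRank_eq_of_top p _ htop hind, htop, inf_top_eq]
  · rw [Finset.sum_congr rfl (g := fun _ => 1) fun v hv => ?_, Finset.sum_const, smul_eq_mul,
      mul_one, Finset.card_erase_of_mem (Finset.mem_univ _), Finset.card_univ,
      ← Nat.card_eq_fintype_card]
    have hv1 : (v : G) ≠ 1 := fun e => Finset.ne_of_mem_erase hv (Subtype.ext e)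
    have hidx : (Subgroup.centralizer (P : Set G)).relIndex
        (pairStab P ε ⊓ Subgroup.centralizer ({(v : G)} : Set G)) = 1 := by
      refine Subgroup.relIndex_eq_one.2 fun t ht => h.free t ht.1 v v.2 hv1 ?_
      rw [Subgroup.mem_centralizer_singleton_iff.1 ht.2, mul_inv_cancel_right]
    have hrank : ∀ K : Subgroup G, K = Subgroup.centralizer (Subgroup.zpowers (v : G) : Set G) →
        ∀ b' : Set (IrrCharacter K), IsPBlock M b' →
          PLe p ⊤ (Subgroup.zpowers (v : G), el M K b') (P, ε) → blockRank p b' = 1 := by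
      rintro K rfl b' hb' hle'
      obtain ⟨hb0, hle, -⟩ := h.isLocal_blk (Subgroup.zpowers_le.2 v.2) (h.zpowers_ne_bot hv1)
      rw [H22.el_inj hb' hb0.block (H22.ple_unique (H22.split M G) h.max.pair hle' hle)]
      exact hb0.blockRank_eq
    rw [hidx, hrank _ (H40.centralizer_zpowers_eq _).symm _ (hb v v.2).1 (hb v v.2).2, mul_one]

omit [Fintype P] hs in
/-- The inertial index is prime to `p` and divides `|P| - 1`. -/
theorem relIndex_pos : 0 < (Subgroup.centralizer (P : Set G)).relIndex (pairStab P ε) :=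
  Nat.pos_of_ne_zero Subgroup.index_ne_zero_of_finite

omit [Fintype P] hs in
/-- The bounds, and equality for small inertial index apart from three configurations. -/
theorem counts (hP1 : P ≠ ⊥) :
    ∃ m : ℕ, 0 < m ∧
      m * (Subgroup.centralizer (P : Set G)).relIndex (pairStab P ε) = Nat.card P - 1 ∧
      Nat.card B = blockRank p B + m ∧
      blockRank p B ≤ (Subgroup.centralizer (P : Set G)).relIndex (pairStab P ε) ∧
      ((Subgroup.centralizer (P : Set G)).relIndex (pairStab P ε) ≤ 3 →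
        blockRank p B = (Subgroup.centralizer (P : Set G)).relIndex (pairStab P ε) ∨
        ((Subgroup.centralizer (P : Set G)).relIndex (pairStab P ε) = 2 ∧ m = 3) ∨
        ((Subgroup.centralizer (P : Set G)).relIndex (pairStab P ε) = 3 ∧ (m = 3 ∨ m = 4))) := by
  classical
  have := Fintype.ofFinite G
  have := Fintype.ofFinite P
  obtain ⟨s, hs⟩ := h.exists_isSigns
  set S := Finset.univ.filter fun χ : IrrCharacter G => χ ∈ B with hSdef
  have hS : ∀ χ, χ ∈ S ↔ χ ∈ B := fun χ => by simp [hSdef]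
  obtain ⟨m, L, hm0, hm, -, -, hgram, hnz, -⟩ := h.exists_vectors hs hP1 hS
  have hSc : S.card = Nat.card B := by
    rw [hSdef, ← Fintype.card_subtype, ← Nat.card_eq_fintype_card]
  have hk := h.card_eq_rank_add
  set E := (Subgroup.centralizer (P : Set G)).relIndex (pairStab P ε)
  have hE0 : 0 < E := h.relIndex_pos
  have hk' : Nat.card B = blockRank p B + m :=
    Nat.eq_of_mul_eq_mul_left hE0 (by rw [hk, ← hm]; ring)
  have : Nonempty (Fin m) := ⟨⟨0, hm0⟩⟩
  have hle := card_le_of_gram (E := E) S (fun i χ => h.vec hs χ (L i)) hgram hnz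
  rw [Fintype.card_fin, hSc, hk'] at hle
  refine ⟨m, hm0, hm, hk', by omega, fun hE3 => ?_⟩
  have h1 := card_eq_of_gram_small (E := E) S (fun i χ => h.vec hs χ (L i)) hgram hnz
    (l := blockRank p B) (one_le_blockRank h.block) (by rw [Fintype.card_fin, hSc, hk']) hE0 hE3
  rw [Fintype.card_fin, hSc, hk'] at h1
  rcases h1 with h1 | h1 | h1
  · exact Or.inl (by omega)
  · exact Or.inr (Or.inl h1)
  · exact Or.inr (Or.inr h1)

end Ctx

end Cfsg.Agent.H56.FD
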