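import Cfsg.Agent.H56.FreeDefectCount
import Mathlib.Data.ZMod.Basic
import Mathlib.GroupTheory.SpecificGroups.Cyclic

/-!
# Inertial groups of 2-blocks with homocyclic defect group of rank two
-/

set_option autoImplicit false
set_option linter.unusedSectionVars false

namespace Cfsg.Agent.H56.FD

open Cfsg.Agent.H22 (pairStab)

variable {D : Type*} [CommGroup D] [Finite D]

/-- An automorphism of odd order of a 2-group fixing a nontrivial element is trivial when there are at
most four square roots of one. -/
theorem eq_one_of_fixed_of_card_sqrt_le [Fintype D] [DecidableEq D] (hD : IsPGroup 2 D)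
    (h4 : (Finset.univ.filter fun u : D => u * u = 1).card ≤ 4)
    {τ : MulAut D} (hτ : Odd (orderOf τ)) {x : D} (hx : x ≠ 1) (hfix : τ x = x) : τ = 1 := by
  obtain ⟨k, hk⟩ := IsPGroup.iff_orderOf.1 hD x
  have hk0 : k ≠ 0 := fun e => hx (orderOf_eq_one_iff.1 (by rw [hk, e, pow_zero]))
  obtain ⟨k, rfl⟩ := Nat.exists_eq_succ_of_ne_zero hk0
  set z := x ^ 2 ^ k with hz
  have hz1 : z ≠ 1 := fun e => by
    have := orderOf_dvd_of_pow_eq_one e
    rw [hk] at this
    have := (Nat.pow_dvd_pow_iff_le_right (by norm_num : 1 < 2)).1 this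
    omega
  have hzz : z * z = 1 := by
    rw [hz, ← pow_add, ← two_mul, ← pow_succ', ← hk, pow_orderOf_eq_one]
  have hzf : τ z = z := by rw [hz, map_pow, hfix]
  have happ : ∀ (n : ℕ) (u a : D), τ u = a * u → τ a = a → (τ ^ n) u = a ^ n * u := by
    intro n u a hu ha
    induction n with
    | zero => simp
    | succ n ih => rw [pow_succ', MulAut.mul_apply, ih, map_mul, map_pow, ha, hu, pow_succ, mul_assoc]
  have hkill : ∀ u a : D, τ u = a * u → τ a = a → a * a = 1 → τ u = u := by
    intro u a hu ha haa
    have h1 := happ (orderOf τ) u a hu ha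
    rw [pow_orderOf_eq_one, MulAut.one_apply] at h1
    have h2 : a ^ orderOf τ = 1 := mul_right_cancel (b := u) (by rw [one_mul]; exact h1.symm)
    obtain ⟨i, hi⟩ := hτ
    rw [hi, pow_add, pow_mul, sq, haa, one_pow, one_mul, pow_one] at h2
    rw [hu, h2, one_mul]
  -- trivial on the square roots of one
  have hroots : ∀ w : D, w * w = 1 → τ w = w := by
    intro w hw
    rcases eq_or_ne w 1 with rfl | hw1
    · exact map_one τ
    rcases eq_or_ne w z with rfl | hwz
    · exact hzf
    have hwz1 : w * z ≠ 1 := fun e => hwz (mul_right_cancel (e.trans hzz.symm))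
    have hsub : ({1, z, w, w * z} : Finset D) ⊆ Finset.univ.filter fun u : D => u * u = 1 := by
      intro u hu
      simp only [Finset.mem_insert, Finset.mem_singleton] at hu
      rw [Finset.mem_filter]
      refine ⟨Finset.mem_univ _, ?_⟩
      rcases hu with rfl | rfl | rfl | rfl
      · exact one_mul 1
      · exact hzz
      · exact hw
      · rw [mul_mul_mul_comm, hw, hzz, one_mul]
    have hc : ({1, z, w, w * z} : Finset D).card = 4 := by
      rw [Finset.card_insert_of_notMem (by simp [hz1.symm, hw1.symm, hwz1.symm]),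
        Finset.card_insert_of_notMem (by
          simp only [Finset.mem_insert, Finset.mem_singleton, not_or]
          exact ⟨hwz.symm, fun e => hw1 (right_eq_mul.1 e)⟩),
        Finset.card_pair (fun e => hz1 (left_eq_mul.1 e))]
    have heq := Finset.eq_of_subset_of_card_le hsub (by rw [hc]; exact h4)
    have hmem : τ w ∈ ({1, z, w, w * z} : Finset D) :=
      heq.symm ▸ Finset.mem_filter.2 ⟨Finset.mem_univ _, by rw [← map_mul, hw, map_one]⟩
    simp only [Finset.mem_insert, Finset.mem_singleton] at hmem
    rcases hmem with e | e | e | e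
    · exact absurd (τ.injective (e.trans (map_one τ).symm)) hw1
    · exact absurd (τ.injective (e.trans hzf.symm)) hwz
    · exact e
    · exact hkill w z (by rw [e, mul_comm]) hzf hzz
  refine MulEquiv.ext fun u => ?_
  obtain ⟨i, hi⟩ := IsPGroup.iff_orderOf.1 hD u
  induction i generalizing u with
  | zero =>
    rw [pow_zero, orderOf_eq_one_iff] at hi
    rw [hi, map_one, map_one]
  | succ i ih =>
    have h2 : τ (u ^ 2) = u ^ 2 :=
      ih (u ^ 2) (by
        rw [orderOf_pow' u (by norm_num : (2 : ℕ) ≠ 0), hi,
          Nat.gcd_eq_right (dvd_pow_self 2 i.succ_ne_zero), pow_succ,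
          Nat.mul_div_cancel _ (by norm_num : 0 < 2)])
    have haa : τ u * u⁻¹ * (τ u * u⁻¹) = 1 := by
      rw [mul_mul_mul_comm, ← map_mul, ← sq, h2, sq, ← mul_inv, mul_inv_cancel]
    exact hkill u (τ u * u⁻¹) (by rw [inv_mul_cancel_right]) (hroots _ haa) haa

/-- A group of automorphisms of odd order of a noncyclic 2-group with at most four square roots of
one has order one or three. -/
theorem card_eq_one_or_three [Fintype D] [DecidableEq D] (hD : IsPGroup 2 D)
    (h4 : (Finset.univ.filter fun u : D => u * u = 1).card ≤ 4) {z : D} (hz : z ≠ 1) (hzz : z * z = 1)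
    (A : Subgroup (MulAut D)) (hA : Odd (Nat.card A)) : Nat.card A = 1 ∨ Nat.card A = 3 := by
  classical
  have : Finite A := Nat.finite_of_card_ne_zero (Nat.ne_of_odd_add (n := 0) (by simpa using hA))
  have := Fintype.ofFinite A
  have hodd : ∀ τ : MulAut D, τ ∈ A → Odd (orderOf τ) := fun τ hτ =>
    hA.of_dvd_nat (Subgroup.orderOf_dvd_natCard A hτ)
  have hle : Nat.card A ≤ 3 := by
    let f : A → D := fun τ => (τ : MulAut D) z
    have hinj : Function.Injective f := fun σ τ e => by
      have hm : (σ : MulAut D)⁻¹ * (τ : MulAut D) ∈ A := mul_mem (inv_mem σ.2) τ.2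
      have := eq_one_of_fixed_of_card_sqrt_le hD h4 (hodd _ hm) hz (by
        rw [MulAut.mul_apply, ← show (σ : MulAut D) z = (τ : MulAut D) z from e,
          MulAut.inv_apply_self])
      exact Subtype.ext (inv_mul_eq_one.1 this)
    have hsub : Finset.univ.image f ⊆ (Finset.univ.filter fun u : D => u * u = 1).erase 1 := by
      intro u hu
      obtain ⟨τ, -, rfl⟩ := Finset.mem_image.1 hu
      refine Finset.mem_erase.2 ⟨fun e => hz ((τ : MulAut D).injective (e.trans (map_one _).symm)),
        Finset.mem_filter.2 ⟨Finset.mem_univ _, ?_⟩⟩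
      show (τ : MulAut D) z * (τ : MulAut D) z = 1
      rw [← map_mul, hzz, map_one]
    have := Finset.card_le_card hsub
    rw [Finset.card_image_of_injective _ hinj, Finset.card_univ,
      Finset.card_erase_of_mem (by simp)] at this
    rw [Nat.card_eq_fintype_card]
    omega
  rcases hA with ⟨i, hi⟩
  omega

/-- The kernel of the action of the inertial group is the centraliser. -/
theorem card_range_actHom' {G : Type*} [Group G] [Finite G] {M : Ideal AlgInt} [M.IsMaximal]
    (P : Subgroup G) (ε : MonoidAlgebra (H41.ResField M) G) :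
    Nat.card (actHom P ε).range = (Subgroup.centralizer (P : Set G)).relIndex (pairStab P ε) := by
  rw [← Subgroup.index_ker, Subgroup.relIndex]
  congr 1
  ext t
  rw [MonoidHom.mem_ker, Subgroup.mem_subgroupOf, Subgroup.mem_centralizer_iff]
  refine ⟨fun ht u hu => ?_, fun ht => MulEquiv.ext fun u => Subtype.ext ?_⟩
  · have e := congrArg Subtype.val (DFunLike.congr_fun ht ⟨u, hu⟩)
    have e' : (t : G) * u * (t : G)⁻¹ = u := e
    calc u * (t : G) = (t : G) * u * (t : G)⁻¹ * (t : G) := by rw [e']
      _ = (t : G) * u := inv_mul_cancel_right _ _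
  · show (t : G) * (u : G) * (t : G)⁻¹ = (u : G)
    rw [← ht _ u.2, mul_inv_cancel_right]

/-- Homocyclic groups of rank two have at most four square roots of one. -/
theorem card_sqrt_le (n : ℕ) [NeZero n] :
    (Finset.univ.filter fun u : Multiplicative (ZMod n × ZMod n) => u * u = 1).card ≤ 4 := by
  classical
  let S := Finset.univ.filter fun a : ZMod n => 2 • a = 0
  have hS : S.card ≤ 2 := IsAddCyclic.card_nsmul_eq_zero_le (α := ZMod n) (n := 2) (by norm_num)
  refine (Finset.card_le_card_of_injOn (t := S ×ˢ S) Multiplicative.toAdd (fun u hu => ?_)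
    (fun a _ b _ e => Multiplicative.toAdd.injective e)).trans ?_
  · simp only [Finset.coe_filter, Finset.mem_univ, true_and, Set.mem_setOf_eq] at hu
    have := congrArg Multiplicative.toAdd hu
    simp only [toAdd_mul, toAdd_one, Prod.ext_iff, Prod.fst_add, Prod.snd_add, Prod.fst_zero,
      Prod.snd_zero] at this
    simp [S, two_mul, this.1, this.2]
  · rw [Finset.card_product]
    exact Nat.mul_le_mul hS hS

end Cfsg.Agent.H56.FD
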