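import Cfsg.Agent.H56.FreeDefectComm

/-!
# A coherent choice of signs on the subgroups of an abelian `p`-group
-/

set_option autoImplicit false
set_option linter.unusedSectionVars false

open scoped ComplexConjugate

namespace Cfsg.Agent.H56.FD

variable {A : Type*} [CommGroup A] [Finite A]

theorem sup_zpowers_mul {Q : Subgroup A} (a : A) {q : A} (hq : q ∈ Q) :
    Q ⊔ Subgroup.zpowers (q * a) = Q ⊔ Subgroup.zpowers a := by
  refine le_antisymm (sup_le le_sup_left (Subgroup.zpowers_le.2 (mul_mem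
    (Subgroup.mem_sup_left hq) (Subgroup.mem_sup_right (Subgroup.mem_zpowers a)))))
    (sup_le le_sup_left (Subgroup.zpowers_le.2 ?_))
  have := mul_mem (inv_mem (Subgroup.mem_sup_left (T := Subgroup.zpowers (q * a)) hq))
    (Subgroup.mem_sup_right (S := Q) (Subgroup.mem_zpowers (q * a)))
  simpa using this

theorem lt_sup_zpowers {Q : Subgroup A} {a : A} (ha : a ∉ Q) : Q < Q ⊔ Subgroup.zpowers a :=
  left_lt_sup.2 fun h => ha (h (Subgroup.mem_zpowers a))

theorem sup_zpowers_of_mem {Q : Subgroup A} {a : A} (ha : a ∈ Q) : Q ⊔ Subgroup.zpowers a = Q :=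
  sup_eq_left.2 (Subgroup.zpowers_le.2 ha)

/-- Inclusion and exclusion over the subgroups above `Q`. -/
theorem exists_extend (Q : Subgroup A) (G : Subgroup A → ℤ)
    (h : ∀ R : Subgroup A, Q < R → (fun v => (G (R ⊔ Subgroup.zpowers v) : ℂ)) ∈ gc A) :
    ∃ F : A → ℂ, F ∈ gc A ∧ (∀ v, ∀ q ∈ Q, F (q * v) = F v) ∧
      ∀ v, v ∉ Q → F v = (G (Q ⊔ Subgroup.zpowers v) : ℂ) := by
  classical
  have : Fintype (Subgroup A) := Fintype.ofFinite _
  let 𝓡 : Finset (Subgroup A) := Finset.univ.filter fun R => Q < R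
  let 𝓢 : Finset (Finset (Subgroup A)) := 𝓡.powerset.filter fun S => S.Nonempty
  have hlt : ∀ S ∈ 𝓢, Q < S.sup id := by
    intro S hS
    obtain ⟨hS, R, hR⟩ := Finset.mem_filter.1 hS
    exact (Finset.mem_filter.1 (Finset.mem_powerset.1 hS hR)).2.trans_le (Finset.le_sup (f := id) hR)
  refine ⟨∑ S ∈ 𝓢, (-1 : ℤ) ^ (S.card + 1) • fun v => (G (S.sup id ⊔ Subgroup.zpowers v) : ℂ),
    sum_mem fun S hS => zsmul_mem (h _ (hlt S hS)) _, fun v q hq => ?_, fun v hv => ?_⟩
  · simp only [Finset.sum_apply, Pi.smul_apply]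
    refine Finset.sum_congr rfl fun S hS => ?_
    rw [sup_zpowers_mul v ((hlt S hS).le hq)]
  · set V := Q ⊔ Subgroup.zpowers v
    have hV : V ∈ 𝓡 := Finset.mem_filter.2 ⟨Finset.mem_univ _, lt_sup_zpowers hv⟩
    have hS₀ : ({V} : Finset (Subgroup A)) ∈ 𝓢 :=
      Finset.mem_filter.2 ⟨Finset.mem_powerset.2 (Finset.singleton_subset_iff.2 hV),
        Finset.singleton_nonempty _⟩
    simp only [Finset.sum_apply, Pi.smul_apply]
    rw [← Finset.add_sum_erase _ _ hS₀]
    have hzero : ∑ S ∈ 𝓢.erase {V},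
        (-1 : ℤ) ^ (S.card + 1) • (G (S.sup id ⊔ Subgroup.zpowers v) : ℂ) = 0 := by
      refine Finset.sum_involution (fun S _ => if V ∈ S then S.erase V else insert V S)
        (fun S hS => ?_) (fun S hS _ => ?_) (fun S hS => ?_) (fun S hS => ?_)
      · obtain ⟨hne, hS⟩ := Finset.mem_erase.1 hS
        by_cases hVS : V ∈ S
        · rw [if_pos hVS]
          obtain ⟨R, hR⟩ : (S.erase V).Nonempty := by
            by_contra hemp
            rw [Finset.not_nonempty_iff_eq_empty, Finset.erase_eq_empty_iff] at hemp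
            rcases hemp with rfl | rfl
            · exact absurd hVS (Finset.notMem_empty _)
            · exact hne rfl
          have hle : V ≤ (S.erase V).sup id ⊔ Subgroup.zpowers v :=
            sup_le_sup_right ((Finset.mem_filter.1 (Finset.mem_powerset.1 (Finset.mem_filter.1 hS).1
              (Finset.mem_erase.1 hR).2)).2.le.trans (Finset.le_sup (f := id) hR)) _
          have hsup : S.sup id ⊔ Subgroup.zpowers v = (S.erase V).sup id ⊔ Subgroup.zpowers v := by
            conv_lhs => rw [← Finset.insert_erase hVS]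
            rw [Finset.sup_insert, id, sup_assoc, sup_eq_right.2 hle]
          rw [hsup, ← Finset.card_erase_add_one hVS, pow_succ (-1 : ℤ) ((S.erase V).card + 1),
            mul_neg_one, neg_smul, neg_add_cancel]
        · rw [if_neg hVS]
          have hle : V ≤ S.sup id ⊔ Subgroup.zpowers v := sup_le_sup_right (hlt S hS).le _
          have hsup : (insert V S).sup id ⊔ Subgroup.zpowers v = S.sup id ⊔ Subgroup.zpowers v := by
            rw [Finset.sup_insert, id, sup_assoc, sup_eq_right.2 hle]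
          rw [hsup, Finset.card_insert_of_notMem hVS, pow_succ (-1 : ℤ) (S.card + 1),
            mul_neg_one, neg_smul, add_neg_cancel]
      · by_cases hVS : V ∈ S
        · rw [if_pos hVS]; exact fun e => (Finset.erase_ne_self.2 hVS) e
        · rw [if_neg hVS]; exact fun e => hVS (e ▸ Finset.mem_insert_self V S)
      · obtain ⟨hne, hS⟩ := Finset.mem_erase.1 hS
        obtain ⟨hsub, hSn⟩ := Finset.mem_filter.1 hS
        by_cases hVS : V ∈ S
        · rw [if_pos hVS]
          refine Finset.mem_erase.2 ⟨fun e => Finset.notMem_erase V S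
            (e.symm ▸ Finset.mem_singleton_self V), Finset.mem_filter.2 ⟨Finset.mem_powerset.2
              ((Finset.erase_subset _ _).trans (Finset.mem_powerset.1 hsub)), ?_⟩⟩
          by_contra hemp
          rw [Finset.not_nonempty_iff_eq_empty, Finset.erase_eq_empty_iff] at hemp
          rcases hemp with rfl | rfl
          · exact absurd hVS (Finset.notMem_empty _)
          · exact hne rfl
        · rw [if_neg hVS]
          refine Finset.mem_erase.2 ⟨fun e => ?_, Finset.mem_filter.2 ⟨Finset.mem_powerset.2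
            (Finset.insert_subset hV (Finset.mem_powerset.1 hsub)), Finset.insert_nonempty _ _⟩⟩
          obtain ⟨R, hR⟩ := hSn
          have := Finset.mem_singleton.1 (e ▸ Finset.mem_insert_of_mem hR)
          exact hVS (this ▸ hR)
      · by_cases hVS : V ∈ S
        · simp only [if_pos hVS, Finset.notMem_erase, if_false, Finset.insert_erase hVS]
        · simp only [if_neg hVS, Finset.mem_insert_self, if_true, Finset.erase_insert hVS]
    rw [hzero, add_zero, Finset.card_singleton, Finset.sup_singleton, id]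
    simp [V]

variable {p k : ℕ} [Fact p.Prime]

/-- A function of signs with integral Fourier coefficients is linear up to sign. -/
theorem exists_lin_of_sign [Fintype A] [DecidableEq A] (h3 : 3 ≤ Nat.card A) {c : A → ℂ}
    (hc : ∀ a, a ≠ 1 → c a = 1 ∨ c a = -1)
    (hint : ∀ l μ : A →* ℂˣ, ∃ n : ℤ, ∑ a ∈ Finset.univ.erase 1,
      ((l a : ℂ) - 1) * conj (μ a : ℂ) * c a = (n : ℂ) * Nat.card A) :
    ∃ (μ : A →* ℂˣ) (ε : ℤ), (ε = 1 ∨ ε = -1) ∧ ∀ a, a ≠ 1 → c a = (ε : ℂ) * (μ a : ℂ) := by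
  classical
  have := Fintype.ofFinite (A →* ℂˣ)
  set S := Finset.univ.erase (1 : A) with hS
  have hq : (Nat.card A : ℂ) ≠ 0 := Nat.cast_ne_zero.2 Nat.card_pos.ne'
  have hcardD : Fintype.card (A →* ℂˣ) = Nat.card A := by
    rw [← Nat.card_eq_fintype_card, CommGroup.card_monoidHom_of_hasEnoughRootsOfUnity A ℂ]
  choose x hx using hint
  let g : (A →* ℂˣ) → A → ℂ := fun l a => if a = 1 then 0 else ((l a : ℂ) - 1) * c a
  have hxg : ∀ l μ, (x l μ : ℂ) * Nat.card A = ∑ a : A, g l a * conj (μ a : ℂ) := by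
    intro l μ
    rw [← hx, ← Finset.add_sum_erase _ _ (Finset.mem_univ (1 : A))]
    simp only [g, if_true, zero_mul, zero_add]
    refine Finset.sum_congr rfl fun a ha => ?_
    rw [if_neg (Finset.ne_of_mem_erase ha)]
    ring
  have hval : ∀ l b, ∑ μ : A →* ℂˣ, (x l μ : ℂ) * (μ b : ℂ) = g l b := by
    intro l b
    refine mul_left_cancel₀ hq ?_
    rw [← inversion (g l) b, Finset.mul_sum]
    exact Finset.sum_congr rfl fun μ _ => by rw [← hxg]; ring
  have hsum0 : ∀ l, ∑ μ : A →* ℂˣ, x l μ = 0 := by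
    intro l
    have := hval l 1
    simp [g] at this
    exact_mod_cast this
  have hgram : ∀ l l' : A →* ℂˣ, l ≠ 1 → l' ≠ 1 →
      ∑ μ, x l μ * x l' μ = 1 + if l = l' then 1 else 0 := by
    intro l l' hl hl'
    have h : ((∑ μ, x l μ * x l' μ : ℤ) : ℂ) * Nat.card A = ∑ a : A, g l a * conj (g l' a) := by
      conv_rhs => arg 2; ext a; arg 2; rw [← hval l' a, map_sum]
      simp only [map_mul, map_intCast, Finset.mul_sum]
      rw [Finset.sum_comm, Int.cast_sum, Finset.sum_mul]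
      refine Finset.sum_congr rfl fun μ _ => ?_
      rw [Int.cast_mul, mul_right_comm, hxg, Finset.sum_mul]
      exact Finset.sum_congr rfl fun a _ => by ring
    have h' : ∀ a, g l a * conj (g l' a) = ((l a : ℂ) - 1) * (conj (l' a : ℂ) - 1) := by
      intro a
      simp only [g]
      by_cases ha : a = 1
      · simp [ha]
      · rw [if_neg ha, if_neg ha, map_mul, map_sub, map_one]
        rcases hc a ha with e | e <;> rw [e] <;> simp <;> ring
    have hexp : ∀ a, ((l a : ℂ) - 1) * (conj (l' a : ℂ) - 1) =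
        (((l * l'⁻¹) a : ℂˣ) : ℂ) - (l a : ℂ) - ((l'⁻¹ a : ℂˣ) : ℂ) + 1 := by
      intro a
      rw [conj_lin, MonoidHom.mul_apply, Units.val_mul]
      ring
    rw [Finset.sum_congr rfl fun a _ => (h' a).trans (hexp a), Finset.sum_add_distrib,
      Finset.sum_sub_distrib, Finset.sum_sub_distrib, sum_lin, sum_lin, sum_lin, if_neg hl,
      if_neg (show l'⁻¹ ≠ 1 from fun e => hl' (MonoidHom.ext fun a => by simpa using DFunLike.congr_fun e a))] at h
    have hiff : l * l'⁻¹ = 1 ↔ l = l' :=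
      ⟨fun e => MonoidHom.ext fun a => by
        simpa [mul_inv_eq_one] using DFunLike.congr_fun e a, fun e => MonoidHom.ext fun a => by simp [e]⟩
    simp only [hiff, Finset.sum_const, Finset.card_univ, nsmul_eq_mul, mul_one,
      sub_zero, ← Nat.card_eq_fintype_card] at h
    have h2 : ((∑ μ, x l μ * x l' μ : ℤ) : ℂ) = ((1 + if l = l' then 1 else 0 : ℤ) : ℂ) := by
      refine mul_right_cancel₀ hq (h.trans ?_)
      split_ifs <;> simp <;> ring
    exact_mod_cast h2
  -- each is a difference of two characters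
  have hshape : ∀ l : A →* ℂˣ, l ≠ 1 → ∃ a b, a ≠ b ∧
      ∀ μ, x l μ = (if μ = a then 1 else 0) - (if μ = b then 1 else 0) := by
    intro l hl
    have hsq : ∑ μ, x l μ * x l μ = 2 := by rw [hgram l l hl hl, if_pos rfl]; rfl
    obtain ⟨a, ha⟩ : ∃ a, 0 < x l a := by
      by_contra! hno
      have : ∀ μ, x l μ = 0 := fun μ =>
        (Finset.sum_eq_zero_iff_of_nonpos (fun i _ => hno i)).1 (hsum0 l) μ (Finset.mem_univ μ)
      simp [this] at hsq
    obtain ⟨b, hb⟩ : ∃ b, x l b < 0 := by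
      by_contra! hno
      have := (Finset.sum_eq_zero_iff_of_nonneg (fun i _ => hno i)).1 (hsum0 l) a (Finset.mem_univ a)
      omega
    have hab : a ≠ b := fun e => by rw [e] at ha; omega
    refine ⟨a, b, hab, fun μ => ?_⟩
    have h1 := Finset.sum_le_sum_of_subset_of_nonneg (f := fun μ => x l μ * x l μ)
      (Finset.subset_univ ({a, b} : Finset _)) fun i _ _ => mul_self_nonneg _
    rw [Finset.sum_pair hab, hsq] at h1
    have ha1 : x l a = 1 := by nlinarith
    have hb1 : x l b = -1 := by nlinarith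
    by_cases h1' : μ = a
    · subst h1'; simp [ha1, hab]
    by_cases h2' : μ = b
    · subst h2'; simp [hb1, h1']
    have h2 := Finset.sum_le_sum_of_subset_of_nonneg (f := fun μ => x l μ * x l μ)
      (Finset.subset_univ ({μ, a, b} : Finset _)) fun i _ _ => mul_self_nonneg _
    rw [Finset.sum_insert (by simp [h1', h2']), Finset.sum_pair hab, hsq, ha1, hb1] at h2
    rw [if_neg h1', if_neg h2']
    nlinarith
  choose! hd tl hne hx' using hshape
  have hinner : ∀ l l', l ≠ 1 → l' ≠ 1 → l ≠ l' →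
      (hd l = hd l' ∧ tl l ≠ tl l') ∨ (hd l ≠ hd l' ∧ tl l = tl l') := by
    intro l l' hl hl' hll
    have h := hgram l l' hl hl'
    simp only [hx' l hl, hx' l' hl', if_neg hll, sub_mul, mul_sub, Finset.sum_sub_distrib,
      ite_mul, one_mul, zero_mul, Finset.sum_ite_eq', Finset.mem_univ, if_true] at h
    by_cases e1 : hd l = hd l' <;> by_cases e2 : tl l = tl l'
    · simp [e1, e2, hne l' hl', (hne l' hl').symm] at h
    · exact Or.inl ⟨e1, e2⟩
    · exact Or.inr ⟨e1, e2⟩
    · exfalso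
      simp only [e1, e2, if_false] at h
      revert h
      split_ifs <;> omega
  set D := Finset.univ.erase (1 : A →* ℂˣ) with hD
  have hDcard : D.card + 1 = Nat.card A := by
    rw [hD, Finset.card_erase_add_one (Finset.mem_univ _), Finset.card_univ, hcardD]
  obtain ⟨l₁, hl₁, l₂, hl₂, h12⟩ := Finset.one_lt_card.1 (show 1 < D.card by omega)
  have hl₁' := Finset.ne_of_mem_erase hl₁
  have hl₂' := Finset.ne_of_mem_erase hl₂
  -- all share one end
  have key : ∀ hd' tl' : (A →* ℂˣ) → (A →* ℂˣ), ∀ δ : ℤ, (δ = 1 ∨ δ = -1) →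
      (∀ l, l ≠ 1 → ∀ μ, x l μ = δ * ((if μ = hd' l then 1 else 0) - (if μ = tl' l then 1 else 0))) →
      (∀ l l', l ≠ 1 → l' ≠ 1 → l ≠ l' →
        (hd' l = hd' l' ∧ tl' l ≠ tl' l') ∨ (hd' l ≠ hd' l' ∧ tl' l = tl' l')) →
      (∀ l, l ≠ 1 → hd' l ≠ tl' l) → hd' l₁ = hd' l₂ →
      ∃ (μ : A →* ℂˣ) (ε : ℤ), (ε = 1 ∨ ε = -1) ∧ ∀ a, a ≠ 1 → c a = (ε : ℂ) * (μ a : ℂ) := by
    intro hd' tl' δ hδ hxx hin hne' h0
    set α := hd' l₁ with hα
    have hall : ∀ l ∈ D, hd' l = α := by
      intro l hl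
      have hl' := Finset.ne_of_mem_erase hl
      by_contra hla
      have e1 : l ≠ l₁ := fun e => hla (e ▸ rfl)
      have e2 : l ≠ l₂ := fun e => hla (e ▸ h0.symm)
      rcases hin l l₁ hl' hl₁' e1 with ⟨e, -⟩ | ⟨-, e3⟩
      · exact hla e
      rcases hin l l₂ hl' hl₂' e2 with ⟨e, -⟩ | ⟨-, e4⟩
      · exact hla (e.trans h0.symm)
      rcases hin l₁ l₂ hl₁' hl₂' h12 with ⟨-, e⟩ | ⟨e, -⟩
      · exact e (e3.symm.trans e4)
      · exact e h0
    have himg : D.image tl' = Finset.univ.erase α := by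
      refine Finset.eq_of_subset_of_card_le (fun μ hμ => ?_) ?_
      · obtain ⟨l, hl, rfl⟩ := Finset.mem_image.1 hμ
        exact Finset.mem_erase.2 ⟨fun e => hne' l (Finset.ne_of_mem_erase hl)
          ((hall l hl).trans e.symm), Finset.mem_univ _⟩
      · rw [Finset.card_image_of_injOn, Finset.card_erase_of_mem (Finset.mem_univ _),
          hD, Finset.card_erase_of_mem (Finset.mem_univ _)]
        intro l hl l' hl' e
        by_contra hll
        rcases hin l l' (Finset.ne_of_mem_erase hl) (Finset.ne_of_mem_erase hl') hll with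
          ⟨-, e'⟩ | ⟨e', -⟩
        · exact e' e
        · exact e' ((hall l hl).trans (hall l' hl').symm)
    have hinj : Set.InjOn tl' D := by
      refine Finset.injOn_of_card_image_eq ?_
      rw [himg, Finset.card_erase_of_mem (Finset.mem_univ _), hD,
        Finset.card_erase_of_mem (Finset.mem_univ _)]
    refine ⟨α, -δ, by omega, fun b hb => ?_⟩
    have hb0 : ∑ l ∈ D, ((l b : ℂ) - 1) = -(Nat.card A : ℂ) := by
      rw [Finset.sum_sub_distrib, Finset.sum_const, nsmul_eq_mul, mul_one, hD,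
        Finset.sum_erase_eq_sub (Finset.mem_univ _), sum_dual, if_neg hb, MonoidHom.one_apply,
        Units.val_one, ← hDcard]
      push_cast
      ring
    have hb1 : ∑ l ∈ D, g l b = -(Nat.card A : ℂ) * c b := by
      rw [← hb0, Finset.sum_mul]
      exact Finset.sum_congr rfl fun l _ => if_neg hb
    have hb2 : ∑ l ∈ D, g l b = (δ : ℂ) * ((Nat.card A : ℂ) * (α b : ℂ)) := by
      have e : ∀ l ∈ D, g l b = (δ : ℂ) * ((α b : ℂ) - (tl' l b : ℂ)) := by
        intro l hl
        rw [← hval l b]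
        simp only [hxx l (Finset.ne_of_mem_erase hl), hall l hl, Int.cast_mul, Int.cast_sub,
          Int.cast_ite, Int.cast_one, Int.cast_zero, mul_assoc, ← Finset.mul_sum, sub_mul, ite_mul,
          one_mul, zero_mul, Finset.sum_sub_distrib, Finset.sum_ite_eq', Finset.mem_univ, if_true]
      rw [Finset.sum_congr rfl e, ← Finset.mul_sum, Finset.sum_sub_distrib, Finset.sum_const,
        ← Finset.sum_image (f := fun μ : A →* ℂˣ => (μ b : ℂ)) hinj, himg,
        Finset.sum_erase_eq_sub (Finset.mem_univ _), sum_dual, if_neg hb, nsmul_eq_mul, ← hDcard]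
      push_cast
      ring
    refine mul_left_cancel₀ hq ?_
    push_cast
    linear_combination hb1 - hb2
  rcases hinner l₁ l₂ hl₁' hl₂' h12 with ⟨e, -⟩ | ⟨-, e⟩
  · exact key hd tl 1 (Or.inl rfl) (fun l hl μ => by rw [hx' l hl, one_mul]) hinner hne e
  · exact key tl hd (-1) (Or.inr rfl) (fun l hl μ => by rw [hx' l hl]; ring)
      (fun l l' a b c => (hinner l l' a b c).symm.imp (fun h => ⟨h.2, h.1⟩) fun h => ⟨h.2, h.1⟩)
      (fun l hl => (hne l hl).symm) e

/-- The sum over the complement of a subgroup of a function on the cosets. -/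
theorem sum_compl_quotient [Fintype A] (Q : Subgroup A) [Fintype (A ⧸ Q)] [DecidableEq (A ⧸ Q)]
    [DecidablePred (· ∈ Q)] (h : A ⧸ Q → ℂ) :
    ∑ a ∈ Finset.univ.filter (fun a => a ∉ Q), h (a : A ⧸ Q) =
      (Nat.card Q : ℂ) * ∑ x ∈ Finset.univ.erase 1, h x := by
  classical
  have e : ∀ a, a ∉ Q ↔ (a : A ⧸ Q) ≠ 1 := fun a => not_congr (QuotientGroup.eq_one_iff a).symm
  simp only [e]
  rw [Finset.sum_filter]
  have hsum : ∀ F : A ⧸ Q → ℂ, ∑ a : A, F (a : A ⧸ Q) = (Nat.card Q : ℂ) * ∑ x, F x := by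
    intro F
    rw [← Finset.sum_fiberwise_of_maps_to' (fun (a : A) _ => Finset.mem_univ (a : A ⧸ Q)) F,
      Finset.mul_sum]
    refine Finset.sum_congr rfl fun x _ => ?_
    rw [Finset.sum_const, nsmul_eq_mul, ← Fintype.card_subtype, ← Nat.card_eq_fintype_card]
    congr 2
    have := QuotientGroup.card_preimage_mk Q {x}
    rw [Nat.card_eq_of_equiv_fin (Equiv.ofUnique ({x} : Set (A ⧸ Q)) (Fin 1)), mul_one] at this
    exact this
  rw [hsum fun x => if x ≠ 1 then h x else 0, ← Finset.sum_filter]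
  congr 2
  ext x
  simp

variable (m : Subgroup A → ℕ)

/-- The normalisation and the integrality at the subgroup `Q`. -/
def Good (s : Subgroup A → ℤ) (Q : Subgroup A) : Prop :=
  (Q = ⊤ → s Q = 1) ∧ (Q.index = 2 → s Q * m Q ≡ s ⊤ * m ⊤ [ZMOD 4]) ∧
    (fun v => ((s (Q ⊔ Subgroup.zpowers v) * m (Q ⊔ Subgroup.zpowers v) : ℤ) : ℂ)) ∈ gc A

theorem Good.congr {s s' : Subgroup A → ℤ} {Q : Subgroup A}
    (h : ∀ R, Q ≤ R → s R = s' R) (hs : Good m s Q) : Good m s' Q := by
  refine ⟨fun e => by rw [← h Q le_rfl]; exact hs.1 e,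
    fun e => by rw [← h Q le_rfl, ← h ⊤ le_top]; exact hs.2.1 e, ?_⟩
  convert hs.2.2 using 1
  funext v
  rw [h _ le_sup_left]

variable (hA : Nat.card A = p ^ k)

theorem index_smul_indicator [Fintype A] (Q : Subgroup A) [DecidablePred (· ∈ Q)] :
    (fun a => if a ∈ Q then (Q.index : ℂ) else 0) ∈ gc A := by
  classical
  have := Fintype.ofFinite (A ⧸ Q →* ℂˣ)
  have e : (fun a => if a ∈ Q then (Q.index : ℂ) else 0) =
      ∑ l : A ⧸ Q →* ℂˣ, lin (l.comp (QuotientGroup.mk' Q)) := by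
    funext a
    rw [Finset.sum_apply]
    show _ = ∑ l : A ⧸ Q →* ℂˣ, (l (a : A ⧸ Q) : ℂ)
    rw [sum_dual, ← Subgroup.index_eq_card]
    simp only [QuotientGroup.eq_one_iff]
  rw [e]
  exact sum_mem fun l _ => lin_mem _

include hA in
theorem eq_two_or_three_le {Q : Subgroup A} (hQ : Q ≠ ⊤) : Q.index = 2 ∨ 3 ≤ Q.index := by
  have h1 : Q.index ≠ 1 := fun h => hQ (Subgroup.index_eq_one.1 h)
  have h0 : Q.index ≠ 0 := Q.index_ne_zero_of_finite
  omega

include hA in
theorem index_prime_pow (Q : Subgroup A) : ∃ j, Q.index = p ^ j := by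
  obtain ⟨j, -, hj⟩ := (Nat.dvd_prime_pow (Fact.out : p.Prime)).1 (hA ▸ Q.index_dvd_card)
  exact ⟨j, hj⟩

include hA in
theorem eq_top_of_lt {Q R : Subgroup A} (h2 : Q.index = 2) (h : Q < R) : R = ⊤ := by
  have h1 := Subgroup.index_strictAnti h
  have h0 : R.index ≠ 0 := R.index_ne_zero_of_finite
  exact Subgroup.index_eq_one.1 (by omega)

open scoped Classical in
include hA in
/-- The step of the construction. -/
theorem exists_good (hm : ∀ Y : Subgroup A, Y ≠ ⊥ → ¬ p ∣ m Y)
    (hω : ∀ Q : Subgroup A, Q ≠ ⊥ → ∃ ω : A → ℂ, ω ∈ gc A ∧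
      (∀ (a : A) (q : Q), ω ((q : A) * a) = ω a) ∧
      ∀ a, ∃ ε : ℤ, (ε = 1 ∨ ε = -1) ∧ ω a = ((ε * m (Q ⊔ Subgroup.zpowers a) : ℤ) : ℂ))
    (s : Subgroup A → ℤ) (hs : ∀ R, s R = 1 ∨ s R = -1) {Q : Subgroup A} (hQ : Q ≠ ⊥)
    (hup : ∀ R, Q < R → Good m s R) :
    ∃ ε : ℤ, (ε = 1 ∨ ε = -1) ∧ Good m (Function.update s Q ε) Q := by
  classical
  have := Fintype.ofFinite A
  by_cases htop : Q = ⊤
  · subst htop
    refine ⟨1, Or.inl rfl, fun _ => Function.update_self .., fun h => by simp at h, ?_⟩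
    convert gc_int (A := A) ((1 : ℤ) * (m ⊤ : ℤ)) using 1
    funext v
    rw [show (⊤ : Subgroup A) ⊔ Subgroup.zpowers v = ⊤ from top_sup_eq _, Function.update_self]
  have hout : ∀ ε v, v ∉ Q → Function.update s Q ε (Q ⊔ Subgroup.zpowers v) =
      s (Q ⊔ Subgroup.zpowers v) := fun ε v hv =>
    Function.update_of_ne (lt_sup_zpowers hv).ne' _ _
  rcases eq_two_or_three_le (p := p) (k := k) hA htop with h2 | h3
  · have hp2 : p = 2 := by
      obtain ⟨j, hj⟩ := index_prime_pow (p := p) (k := k) hA Q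
      exact ((Nat.prime_dvd_prime_iff_eq Nat.prime_two (Fact.out : p.Prime)).1
        (Nat.prime_two.dvd_of_dvd_pow (n := j) (by rw [← hj, h2]))).symm
    subst hp2
    have hT : (⊤ : Subgroup A) ≠ ⊥ := fun h => hQ (le_bot_iff.1 (h ▸ le_top))
    have hoQ : Odd (m Q : ℤ) := by
      rw [Int.odd_coe_nat, ← Nat.not_even_iff_odd, even_iff_two_dvd]; exact hm Q hQ
    have hoT : Odd (m ⊤ : ℤ) := by
      rw [Int.odd_coe_nat, ← Nat.not_even_iff_odd, even_iff_two_dvd]; exact hm ⊤ hT
    obtain ⟨ε, hε, hε4⟩ : ∃ ε : ℤ, (ε = 1 ∨ ε = -1) ∧ ε * m Q ≡ s ⊤ * m ⊤ [ZMOD 4] := by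
      obtain ⟨a, ha⟩ := hoQ
      obtain ⟨b, hb⟩ := hoT
      rcases hs ⊤ with e | e <;> rw [e] <;>
        by_cases hpar : (a - b) % 2 = 0 <;>
        first
          | exact ⟨1, Or.inl rfl, by rw [Int.ModEq]; omega⟩
          | exact ⟨-1, Or.inr rfl, by rw [Int.ModEq]; omega⟩
    refine ⟨ε, hε, fun h => absurd h htop, fun _ => ?_, ?_⟩
    · rw [Function.update_self, Function.update_of_ne (Ne.symm htop)]
      exact hε4
    · obtain ⟨w, hw⟩ : (2 : ℤ) ∣ ε * m Q - s ⊤ * m ⊤ :=
        (dvd_trans (by norm_num : (2 : ℤ) ∣ 4) (Int.modEq_iff_dvd.1 hε4.symm))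
      convert add_mem (gc_int (s ⊤ * (m ⊤ : ℤ))) (zsmul_mem (index_smul_indicator Q) w) using 1
      funext v
      rw [Pi.add_apply, Pi.smul_apply, zsmul_eq_mul]
      by_cases hv : v ∈ Q
      · rw [sup_zpowers_of_mem hv, Function.update_self, if_pos hv, h2,
          show ε * (m Q : ℤ) = s ⊤ * m ⊤ + w * 2 by linarith]
        push_cast
        ring
      · rw [hout ε v hv, eq_top_of_lt (p := 2) (k := k) hA h2 (lt_sup_zpowers hv), if_neg hv]
        simp
  -- index at least three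
  obtain ⟨ω, hωg, hωQ, hωv⟩ := hω Q hQ
  obtain ⟨F, hF, hFQ, hFv⟩ := exists_extend Q (fun R => s R * m R) fun R hR => (hup R hR).2.2
  have hne : ∀ v, v ∉ Q → Q ⊔ Subgroup.zpowers v ≠ ⊥ := fun v _ h => hQ (le_bot_iff.1 (h ▸ le_sup_left))
  have hω0 : ∀ v, ω v ≠ 0 := by
    intro v hv0
    obtain ⟨ε, hε, e⟩ := hωv v
    rw [hv0, eq_comm, Int.cast_eq_zero, mul_eq_zero] at e
    rcases e with e | e
    · omega
    · exact hm _ (fun h => hQ (le_bot_iff.1 (h ▸ le_sup_left))) (by
        rw [Int.natCast_eq_zero.1 e]; exact dvd_zero p)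
  set f : A → ℂ := fun v => F v / ω v with hf
  have hf1 : ∀ v, v ∉ Q → f v = 1 ∨ f v = -1 := by
    intro v hv
    obtain ⟨ε, hε, e⟩ := hωv v
    have hm0 : (m (Q ⊔ Subgroup.zpowers v) : ℂ) ≠ 0 := fun h => hm _ (hne v hv) (by
      rw [Nat.cast_eq_zero.1 h]; exact dvd_zero p)
    simp only [hf, hFv v hv, e]
    rcases hε with rfl | rfl <;> rcases hs (Q ⊔ Subgroup.zpowers v) with e' | e' <;>
      · rw [e']; push_cast; field_simp; simp
  have hfq : ∀ v w : A, (v : A ⧸ Q) = (w : A ⧸ Q) → f v = f w := by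
    intro v w h
    rw [QuotientGroup.eq] at h
    have : w = (v⁻¹ * w) * v := by rw [mul_comm, mul_inv_cancel_left]
    rw [this]
    simp only [hf]
    rw [hFQ v _ h, hωQ v ⟨_, h⟩]
  set c : A ⧸ Q → ℂ := fun x => f (Quotient.out x) with hc
  have hcf : ∀ v : A, c v = f v := fun v => hfq _ _ (QuotientGroup.out_eq' _)
  obtain ⟨μ, ε, hε, hμ⟩ := exists_lin_of_sign (A := A ⧸ Q) (by rwa [← Subgroup.index_eq_card])
    (c := c) (fun x hx => by
      obtain ⟨v, rfl⟩ := QuotientGroup.mk_surjective x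
      rw [hcf]
      exact hf1 v fun h => hx ((QuotientGroup.eq_one_iff v).2 h))
    (fun l ν => by
      obtain ⟨n, hn⟩ := exists_int_mean (p := p) (k := k) hA
        (S := Finset.univ.filter fun a => a ∉ Q)
        (fun i hi a ha => by
          rw [Finset.mem_filter] at ha ⊢
          exact ⟨Finset.mem_univ _, fun h => ha.2 ((pow_mem_iff_coprime hi).1 h)⟩)
        (g := (lin (l.comp (QuotientGroup.mk' Q)) - 1) *
          fun a : A => conj (lin (ν.comp (QuotientGroup.mk' Q)) a))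
        (gc_mul (sub_mem (lin_mem _) gc_one) (gc_conj (lin_mem (ν.comp (QuotientGroup.mk' Q)))))
        (fun a ha => by
          have haQ : a ∈ Q := by simpa using ha
          simp [lin, (QuotientGroup.eq_one_iff a).2 haQ])
        hF hωg (f := f) (fun a ha => by
          rcases hf1 a (Finset.mem_filter.1 ha).2 with e | e <;> rw [e]
          · exact isIntegral_one
          · exact isIntegral_one.neg)
        (fun a _ => div_mul_cancel₀ _ (hω0 a)) (fun a ha => by
          obtain ⟨δ, hδ, e⟩ := hωv a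
          refine ⟨_, e, fun hd => hm _ (hne a (Finset.mem_filter.1 ha).2) ?_⟩
          rcases hδ with rfl | rfl <;> simp at hd <;> exact_mod_cast hd)
      refine ⟨n, mul_left_cancel₀ (Nat.cast_ne_zero.2 (Nat.card_pos (α := Q)).ne' :
        (Nat.card Q : ℂ) ≠ 0) ?_⟩
      rw [← sum_compl_quotient Q fun x => ((l x : ℂ) - 1) * conj (ν x : ℂ) * c x]
      refine Eq.trans (Eq.trans ?_ hn) ?_
      · refine Finset.sum_congr rfl fun a _ => ?_
        simp [hcf, lin]
      · rw [Subgroup.card_eq_card_quotient_mul_card_subgroup Q]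
        push_cast
        ring)
  obtain ⟨δ, hδ, eδ⟩ := hωv 1
  rw [sup_zpowers_of_mem (one_mem Q)] at eδ
  refine ⟨ε * δ, ?_, fun h => absurd h htop, fun h => by omega, ?_⟩
  · rcases hε with rfl | rfl <;> rcases hδ with rfl | rfl <;> simp
  convert gc_mul (zsmul_mem hωg ε) (lin_mem (μ.comp (QuotientGroup.mk' Q))) using 1
  funext v
  rw [Pi.mul_apply, Pi.smul_apply, zsmul_eq_mul]
  simp only [lin, MonoidHom.comp_apply,
    QuotientGroup.mk'_apply]
  by_cases hv : v ∈ Q
  · rw [sup_zpowers_of_mem hv, Function.update_self, (QuotientGroup.eq_one_iff v).2 hv, map_one,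
      Units.val_one, mul_one]
    have := hωQ 1 ⟨v, hv⟩
    rw [mul_one] at this
    rw [this, eδ]
    push_cast
    ring
  · rw [hout _ v hv]
    have := hμ _ fun h => hv ((QuotientGroup.eq_one_iff v).1 h)
    rw [hcf, hf] at this
    simp only [hFv v hv] at this
    rw [div_eq_iff (hω0 v)] at this
    rw [this]
    ring

open scoped Classical in
include hA in
theorem exists_sign (hm : ∀ Y : Subgroup A, Y ≠ ⊥ → ¬ p ∣ m Y)
    (hω : ∀ Q : Subgroup A, Q ≠ ⊥ → ∃ ω : A → ℂ, ω ∈ gc A ∧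
      (∀ (a : A) (q : Q), ω ((q : A) * a) = ω a) ∧
      ∀ a, ∃ ε : ℤ, (ε = 1 ∨ ε = -1) ∧ ω a = ((ε * m (Q ⊔ Subgroup.zpowers a) : ℤ) : ℂ)) :
    ∃ s : Subgroup A → ℤ, (∀ Y, s Y = 1 ∨ s Y = -1) ∧
      (∀ τ : A ≃* A, (∀ Y : Subgroup A, Y ≠ ⊥ → m (Y.map (τ : A →* A)) = m Y) →
        ∀ Y : Subgroup A, Y ≠ ⊥ → s (Y.map (τ : A →* A)) = s Y) ∧
      ∃ ω₀ : A → ℂ, ω₀ ∈ gc A ∧ ∀ v, v ≠ 1 →
        ω₀ v = ((s (Subgroup.zpowers v) * m (Subgroup.zpowers v) : ℤ) : ℂ) := by
  classical
  have := Fintype.ofFinite A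
  have hex : ∀ n : ℕ, ∃ s : Subgroup A → ℤ, (∀ Y, s Y = 1 ∨ s Y = -1) ∧
      ∀ Q : Subgroup A, Q ≠ ⊥ → Q.index ≤ n → Good m s Q := by
    intro n
    induction n with
    | zero => exact ⟨fun _ => 1, fun _ => Or.inl rfl, fun Q _ h =>
        absurd (Nat.le_zero.1 h) Q.index_ne_zero_of_finite⟩
    | succ n ih =>
      obtain ⟨s, hs, hg⟩ := ih
      have hstep : ∀ Q : Subgroup A, Q.index = n + 1 → Q ≠ ⊥ →
          ∃ ε : ℤ, (ε = 1 ∨ ε = -1) ∧ Good m (Function.update s Q ε) Q := fun Q h hQ =>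
        exists_good m hA hm hω s hs hQ fun R hR => hg R (ne_bot_of_gt hR) (by
          have := Subgroup.index_strictAnti hR
          omega)
      choose ε hε hεg using hstep
      refine ⟨fun Q => if h : Q.index = n + 1 ∧ Q ≠ ⊥ then ε Q h.1 h.2 else s Q, fun Y => ?_,
        fun Q hQ hle => ?_⟩
      · dsimp only
        split
        · exact hε _ _ _
        · exact hs Y
      · rcases Nat.le_succ_iff.1 hle with hle | hle
        · refine (hg Q hQ hle).congr m fun R hR => ?_
          rw [dif_neg]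
          rintro h
          have := Nat.le_of_dvd (Nat.pos_of_ne_zero Q.index_ne_zero_of_finite)
            (Subgroup.index_dvd_of_le hR)
          omega
        · refine (hεg Q hle hQ).congr m fun R hR => ?_
          rcases eq_or_lt_of_le hR with rfl | hlt
          · rw [Function.update_self, dif_pos ⟨hle, hQ⟩]
          · rw [Function.update_of_ne hlt.ne', dif_neg fun h => ?_]
            have := Subgroup.index_strictAnti hlt
            omega
  obtain ⟨s, hs, hg⟩ := hex (Nat.card A)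
  have hgood : ∀ Q : Subgroup A, Q ≠ ⊥ → Good m s Q := fun Q hQ =>
    hg Q hQ (Nat.le_of_dvd Nat.card_pos Q.index_dvd_card)
  have huniq : ∀ s' : Subgroup A → ℤ, (∀ Y, s' Y = 1 ∨ s' Y = -1) →
      (∀ Q : Subgroup A, Q ≠ ⊥ → Good m s' Q) → ∀ Q : Subgroup A, Q ≠ ⊥ → s' Q = s Q := by
    intro s' hs' hg' Q
    induction hn : Q.index using Nat.strong_induction_on generalizing Q with
    | _ n ih =>
    subst hn
    intro hQ
    have hup : ∀ R, Q < R → s' R = s R := fun R hR =>
      ih _ (Subgroup.index_strictAnti hR) R rfl (ne_bot_of_gt hR)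
    by_cases htop : Q = ⊤
    · rw [(hg' Q hQ).1 htop, (hgood Q hQ).1 htop]
    rcases eq_two_or_three_le (p := p) (k := k) hA htop with h2 | h3
    · have h1 := (hg' Q hQ).2.1 h2
      have h1' := (hgood Q hQ).2.1 h2
      rw [hup ⊤ (lt_top_iff_ne_top.2 htop)] at h1
      have h4 : s' Q * m Q ≡ s Q * m Q [ZMOD 4] := h1.trans h1'.symm
      have hp2 : p = 2 := by
        obtain ⟨j, hj⟩ := index_prime_pow (p := p) (k := k) hA Q
        exact ((Nat.prime_dvd_prime_iff_eq Nat.prime_two (Fact.out : p.Prime)).1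
          (Nat.prime_two.dvd_of_dvd_pow (n := j) (by rw [← hj, h2]))).symm
      have hodd := hm Q hQ
      rw [hp2] at hodd
      rw [Int.ModEq] at h4
      rcases hs' Q with e | e <;> rcases hs Q with e' | e' <;> rw [e, e'] at h4 ⊢ <;> omega
    · by_contra hne
      obtain ⟨z, hz⟩ := gc_sum (sub_mem (hg' Q hQ).2.2 (hgood Q hQ).2.2)
      have e : ∀ v, ((fun v => ((s' (Q ⊔ Subgroup.zpowers v) * m (Q ⊔ Subgroup.zpowers v) : ℤ) : ℂ))
          - fun v => ((s (Q ⊔ Subgroup.zpowers v) * m (Q ⊔ Subgroup.zpowers v) : ℤ) : ℂ)) v =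
          if v ∈ Q then (((s' Q - s Q) * m Q : ℤ) : ℂ) else 0 := by
        intro v
        rw [Pi.sub_apply]
        split_ifs with hv
        · rw [sup_zpowers_of_mem hv]; push_cast; ring
        · rw [hup _ (lt_sup_zpowers hv), sub_self]
      rw [Finset.sum_congr rfl fun v _ => e v, ← Finset.sum_filter, Finset.sum_const,
        nsmul_eq_mul, ← Fintype.card_subtype, ← Nat.card_eq_fintype_card] at hz
      have hz' : (Nat.card Q : ℤ) * ((s' Q - s Q) * m Q) = z * Nat.card A := by exact_mod_cast hz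
      rw [← Q.card_mul_index, Nat.cast_mul] at hz'
      have hdvd : (Q.index : ℤ) ∣ (s' Q - s Q) * m Q := ⟨z, by
        refine mul_left_cancel₀ (Nat.cast_ne_zero.2 (Nat.card_pos (α := Q)).ne' :
          (Nat.card Q : ℤ) ≠ 0) ?_
        rw [hz']; ring⟩
      obtain ⟨j, hj⟩ := index_prime_pow (p := p) (k := k) hA Q
      have hcop : IsCoprime (Q.index : ℤ) (m Q : ℤ) := by
        rw [Nat.isCoprime_iff_coprime, hj]
        exact Nat.Coprime.pow_left _ ((Fact.out : p.Prime).coprime_iff_not_dvd.2 (hm Q hQ))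
      have h2 := hcop.dvd_of_dvd_mul_right hdvd
      have h22 : Q.index ∣ 2 := by
        rcases hs' Q with e | e <;> rcases hs Q with e' | e' <;> rw [e, e'] at h2 hne <;>
          first | exact absurd rfl hne | (norm_num at h2; exact_mod_cast h2)
      have := Nat.le_of_dvd two_pos h22
      omega
  refine ⟨s, hs, fun τ hτ Y hY => ?_, ?_⟩
  · refine huniq (fun Z => s (Z.map (τ : A →* A))) (fun Z => hs _) (fun Q hQ => ?_) Y hY
    have hne : ∀ Z : Subgroup A, Z ≠ ⊥ → Z.map (τ : A →* A) ≠ ⊥ := fun Z hZ h =>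
      hZ ((Subgroup.map_eq_bot_iff_of_injective _ τ.injective).1 h)
    have htop : (⊤ : Subgroup A).map (τ : A →* A) = ⊤ :=
      Subgroup.map_top_of_surjective _ τ.surjective
    obtain ⟨g1, g2, g3⟩ := hgood _ (hne Q hQ)
    refine ⟨fun e => ?_, fun e => ?_, ?_⟩
    · subst e
      show s _ = 1
      rw [htop] at g1 ⊢
      exact g1 rfl
    · rw [Subgroup.index_map_equiv, hτ Q hQ] at g2
      dsimp only
      rw [htop]
      exact g2 e
    · convert gc_comp g3 (τ : A →* A) using 1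
      funext v
      simp only [Function.comp_apply]
      rw [← MonoidHom.map_zpowers, ← Subgroup.map_sup,
        hτ _ fun h => hQ (le_bot_iff.1 (h ▸ le_sup_left))]
  · obtain ⟨F, hF, -, hFv⟩ := exists_extend (⊥ : Subgroup A) (fun R => s R * m R)
      fun R hR => (hgood R hR.ne').2.2
    exact ⟨F, hF, fun v hv => by rw [hFv v (by simpa using hv), bot_sup_eq]⟩

end Cfsg.Agent.H56.FD
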