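import Cfsg.Agent.H56.FreeDefectPoint
import Cfsg.Agent.H56.FreeDefectSign
import Cfsg.Agent.H56.SubsectionContrib
import Cfsg.Agent.H56.SubsectionMajor
import Cfsg.Agent.H40.CharCongr

/-!
# Generalized decomposition numbers for abelian defect groups with free inertial action

Every subgroup `Y ≠ ⊥` of the defect group carries the lifted source idempotent, of
multiplicity `mult Y`; the quotient of a character value at the idempotent by the multiplicity
is the generalized decomposition number, and the multiplicities admit signs making them a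
generalized character of the defect group.
-/

set_option autoImplicit false
set_option linter.unusedSectionVars false

open scoped ComplexConjugate

namespace Cfsg.Agent.H56.FD

open Cfsg MonoidAlgebra
open scoped IsMulCommutative
open Cfsg.Agent.H41 (ResField localRing res groupAlgCenter)
open Cfsg.Agent.H22 (Supp Inv cut cj red trc elTop el IsPairEl IsMaxEl IsBlockEl Below PLe NSub cS
  pairStab)

variable {M : Ideal AlgInt} [M.IsMaximal] {p : ℕ} [Fact p.Prime]
variable {G : Type*} [Group G] [Finite G]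

/-- Traces of supported elements are computed below. -/
theorem trc_pull {X : Type*} [Group X] [Finite X] {f : X →* G} (hf : Function.Injective f)
    {a : MonoidAlgebra (localRing M) G} (ha : Supp f.range a) (φ : G → ℂ) (x : X) :
    trc φ (f x) a = trc (fun y => φ (f y)) x (pull f a) := by
  classical
  have := Fintype.ofFinite G
  have := Fintype.ofFinite X
  rw [H22.trc_apply, H22.trc_apply]
  refine (Finset.sum_bij_ne_zero (fun c _ _ => f c) (fun _ _ _ => Finset.mem_univ _)
    (fun _ _ _ _ _ _ h => hf h) (fun y _ hy => ?_) fun c _ _ => by rw [coeff_pull, map_mul]).symm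
  obtain ⟨c, rfl⟩ : y ∈ f.range := ha y fun h => hy (by rw [h]; simp)
  exact ⟨c, Finset.mem_univ _, by rwa [coeff_pull, map_mul], rfl⟩

theorem mem_centralizer_sup_zpowers {Q : Subgroup G} {b x : G} :
    x ∈ Subgroup.centralizer ((Q ⊔ Subgroup.zpowers b : Subgroup G) : Set G) ↔
      x ∈ Subgroup.centralizer (Q : Set G) ∧
        x ∈ Subgroup.centralizer (Subgroup.zpowers b : Set G) := by
  refine ⟨fun h => ⟨Subgroup.centralizer_le (SetLike.coe_subset_coe.2 le_sup_left) h,
    Subgroup.centralizer_le (SetLike.coe_subset_coe.2 le_sup_right) h⟩, fun ⟨h1, h2⟩ => ?_⟩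
  have hle : Q ⊔ Subgroup.zpowers b ≤ Subgroup.centralizer ({x} : Set G) :=
    sup_le (fun q hq => Subgroup.mem_centralizer_singleton_iff.2 (Subgroup.mem_centralizer_iff.1 h1 q hq))
      fun q hq => Subgroup.mem_centralizer_singleton_iff.2 (Subgroup.mem_centralizer_iff.1 h2 q hq)
  exact Subgroup.mem_centralizer_iff.2 fun q hq => Subgroup.mem_centralizer_singleton_iff.1 (hle hq)

/-- The generalized decomposition data. -/
theorem wgt_isIntegral {K : Type*} [Group K] [Fintype K] (b : Set (IrrCharacter K)) {φ : K → ℂ}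
    (hφ : IsCharacter K φ) {u : K} (hu : ∀ g, Commute u g) : IsIntegral ℤ (wgt b φ u) := by
  classical
  refine IsIntegral.sum _ fun ψ _ => ?_
  obtain ⟨n, hn⟩ := H26.exists_nat_classInner_irr hφ ψ
  rw [hn]
  exact IsIntegral.mul (isIntegral_algebraMap (R := ℤ) (x := (n : ℤ))) (isIntegral_scal hu ψ)

namespace Ctx

variable {B : Set (IrrCharacter G)} {P : Subgroup G} {ε j : MonoidAlgebra (ResField M) G}
  (h : Ctx p M B P ε j)

include h

theorem pGroup : IsPGroup p P := h.max.pair.pGroup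

theorem le_centralizer {Y : Subgroup G} (hY : Y ≤ P) :
    P ≤ Subgroup.centralizer (Y : Set G) := fun x hx =>
  Subgroup.mem_centralizer_iff.2 fun y hy => h.comm y (hY hy) x hx

theorem exists_orderOf {u : G} (hu : u ∈ P) : ∃ k, orderOf u = p ^ k := by
  obtain ⟨k, hk⟩ := IsPGroup.iff_orderOf.1 h.pGroup ⟨u, hu⟩
  exact ⟨k, by rwa [Subgroup.orderOf_mk] at hk⟩

theorem exists_lift {Y : Subgroup G} (hY : Y ≤ P) :
    ∃ i : MonoidAlgebra (localRing M) G, i * i = i ∧
      Supp (Subgroup.centralizer (Y : Set G)) i ∧ Inv P i ∧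
      red M G i = cut (Subgroup.centralizer (Y : Set G)) j := by
  classical
  have := H41.IsPModular.charP h.modular
  choose g hg using H41.res_surjective (M := M)
  let g' : ResField M → localRing M := fun x => if x = 0 then 0 else g x
  have hg' : ∀ x, res M (g' x) = x := fun x => by
    simp only [g']
    split_ifs with hx
    · rw [map_zero, hx]
    · exact hg x
  set c := cut (Subgroup.centralizer (Y : Set G)) j with hc
  have hcc : c * c = c := by
    have hpY : IsPGroup p Y := h.pGroup.to_le hY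
    rw [hc, ← H22.cut_mul hpY (h.inv.mono hY) (h.inv.mono hY), h.idem]
  have hcP : Inv P c := h.inv.cut (fun x hx =>
    H22.normalizer_le_normalizer_centralizer Y
      ((Subgroup.centralizer_le_normalizer (Y : Set G)) (h.le_centralizer hY hx)))
  let a : MonoidAlgebra (localRing M) G := H40.ofFun fun x => g' (c.coeff x)
  have ha : a ∈ H22.suppSub (localRing M) (Subgroup.centralizer (Y : Set G)) ⊓
      H22.fixSub (localRing M) P := by
    refine ⟨fun x hx => ?_, fun u hu => H40.ext_coeff fun x => ?_⟩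
    · by_contra hn
      refine hx ?_
      simp [a, g', hc, H22.coeff_cut_of_notMem _ hn]
    · rw [H22.coeff_cj]
      simp only [a, H40.coeff_ofFun]
      congr 1
      have := congrArg (fun z : MonoidAlgebra (ResField M) G => z.coeff x) (hcP u hu)
      rwa [H22.coeff_cj] at this
  have hra : red M G a = c := H40.ext_coeff fun x => by
    rw [H22.coeff_red, H40.coeff_ofFun, hg']
  obtain ⟨e, ⟨he1, he2⟩, hee, hre⟩ := exists_idem_red ha (by rw [hra]; exact hcc)
  exact ⟨e, hee, he1, he2, hre.trans hra⟩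

/-- The lifted source idempotent at `Y`. -/
noncomputable def idemAt (Y : Subgroup G) : MonoidAlgebra (localRing M) G :=
  open scoped Classical in if hY : Y ≤ P then (h.exists_lift hY).choose else 0

theorem idemAt_spec {Y : Subgroup G} (hY : Y ≤ P) :
    h.idemAt Y * h.idemAt Y = h.idemAt Y ∧
      Supp (Subgroup.centralizer (Y : Set G)) (h.idemAt Y) ∧ Inv P (h.idemAt Y) ∧
      red M G (h.idemAt Y) = cut (Subgroup.centralizer (Y : Set G)) j := by
  rw [idemAt, dif_pos hY]
  exact (h.exists_lift hY).choose_spec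

theorem exists_loc {Y : Subgroup G} (hY : Y ≤ P ∧ Y ≠ ⊥) : ∃ b θ, IsLocal p M P ε Y b θ :=
  exists_isLocal h.modular h.block h.max h.comm h.free hY.1 hY.2

/-- The block below the maximal pair. -/
noncomputable def blk (Y : Subgroup G) :
    Set (IrrCharacter (Subgroup.centralizer (Y : Set G))) :=
  open scoped Classical in if hY : Y ≤ P ∧ Y ≠ ⊥ then (h.exists_loc hY).choose else ∅

/-- A member of the block below the maximal pair. -/
noncomputable def chr (Y : Subgroup G) :
    IrrCharacter (Subgroup.centralizer (Y : Set G)) :=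
  open scoped Classical in
  if hY : Y ≤ P ∧ Y ≠ ⊥ then (h.exists_loc hY).choose_spec.choose else H26.oneIrr _

theorem isLocal_blk {Y : Subgroup G} (hY : Y ≤ P) (hne : Y ≠ ⊥) :
    IsLocal p M P ε Y (h.blk Y) (h.chr Y) := by
  rw [blk, chr, dif_pos ⟨hY, hne⟩, dif_pos ⟨hY, hne⟩]
  exact (h.exists_loc ⟨hY, hne⟩).choose_spec.choose_spec

theorem absorbed {Y : Subgroup G} (hY : Y ≤ P) (hne : Y ≠ ⊥) :
    red M _ (pull (Subgroup.centralizer (Y : Set G)).subtype (h.idemAt Y)) *
        elTop M (h.blk Y) =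
      red M _ (pull (Subgroup.centralizer (Y : Set G)).subtype (h.idemAt Y)) := by
  rw [red_pull, (h.idemAt_spec hY).2.2.2, ← pull_el _ (h.blk Y),
    ← pull_mul_sub (H22.supp_cut _ _), h.absorb Y _ (h.isLocal_blk hY hne).2.1]

theorem pull_idemAt_idem {Y : Subgroup G} (hY : Y ≤ P) :
    pull (Subgroup.centralizer (Y : Set G)).subtype (h.idemAt Y) *
        pull (Subgroup.centralizer (Y : Set G)).subtype (h.idemAt Y) =
      pull (Subgroup.centralizer (Y : Set G)).subtype (h.idemAt Y) :=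
  pull_idem (Subgroup.subtype_injective _)
    (by rw [Subgroup.range_subtype]; exact (h.idemAt_spec hY).2.1) (h.idemAt_spec hY).1

theorem exists_mult {Y : Subgroup G} (hY : Y ≤ P ∧ Y ≠ ⊥) :
    ∃ n : ℕ, trc (h.chr Y : Subgroup.centralizer (Y : Set G) → ℂ) 1
      (pull (Subgroup.centralizer (Y : Set G)).subtype (h.idemAt Y)) = n :=
  exists_nat_trc h.modular (H26.irr_isCharacter _) (h.pull_idemAt_idem hY.1)

/-- The multiplicity at `Y`. -/
noncomputable def mult (Y : Subgroup G) : ℕ :=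
  open scoped Classical in if hY : Y ≤ P ∧ Y ≠ ⊥ then (h.exists_mult hY).choose else 1

theorem mult_spec {Y : Subgroup G} (hY : Y ≤ P) (hne : Y ≠ ⊥) :
    trc (h.chr Y : Subgroup.centralizer (Y : Set G) → ℂ) 1
      (pull (Subgroup.centralizer (Y : Set G)).subtype (h.idemAt Y)) = h.mult Y := by
  rw [mult, dif_pos ⟨hY, hne⟩]
  exact (h.exists_mult ⟨hY, hne⟩).choose_spec

theorem not_dvd_mult (Y : Subgroup G) : ¬ p ∣ h.mult Y := by
  classical
  by_cases hY : Y ≤ P ∧ Y ≠ ⊥
  · obtain ⟨hY, hne⟩ := hY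
    intro hd
    have := H41.IsPModular.charP h.modular
    have := Fintype.ofFinite (Subgroup.centralizer (Y : Set G))
    have e := (h.isLocal_blk hY hne).1.coeff_one h.modular (h.pull_idemAt_idem hY) (h.absorbed hY hne)
      (h.mult_spec hY hne)
    rw [red_pull, (h.idemAt_spec hY).2.2.2, coeff_pull, map_one,
      H22.coeff_cut_of_mem _ (one_mem _), (CharP.cast_eq_zero_iff (ResField M) p _).2 hd,
      mul_zero] at e
    exact h.coeff_one e
  · rw [mult, dif_neg hY]
    exact (Fact.out : p.Prime).not_dvd_one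

theorem mult_ne_zero (Y : Subgroup G) : (h.mult Y : ℂ) ≠ 0 := fun e => h.not_dvd_mult Y (by
  rw [Nat.cast_eq_zero.1 e]; exact dvd_zero p)

/-! ### Levels -/

section Level

variable {K : Type*} [Group K] [Finite K] {ι : K →* G} (hι : Function.Injective ι)
  {Q : Subgroup G} (hQ : Q ≤ P) (hrange : ι.range = Subgroup.centralizer (Q : Set G))

include hι hQ hrange

omit hι in
theorem sup_le_P {a : K} (ha : ι a ∈ P) : Q ⊔ Subgroup.zpowers (ι a) ≤ P :=
  sup_le hQ (Subgroup.zpowers_le.2 ha)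

theorem exists_kappa (a : K) :
    ∃ κ : Subgroup.centralizer ((Q ⊔ Subgroup.zpowers (ι a) : Subgroup G) : Set G) →* K,
      Function.Injective κ ∧ (∀ x, ι (κ x) = x) ∧
      κ.range = Subgroup.centralizer ({a} : Set K) := by
  let κ := (MonoidHom.ofInjective hι).symm.toMonoidHom.comp
    (Subgroup.inclusion (show Subgroup.centralizer
      ((Q ⊔ Subgroup.zpowers (ι a) : Subgroup G) : Set G) ≤ ι.range by
        rw [hrange]; exact Subgroup.centralizer_le (SetLike.coe_subset_coe.2 le_sup_left)))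
  have hk : ∀ x, ι (κ x) = x := fun x =>
    congrArg Subtype.val ((MonoidHom.ofInjective hι).apply_symm_apply _)
  refine ⟨κ, fun x y e => Subtype.ext (by rw [← hk, ← hk, e]), hk, ?_⟩
  ext x
  rw [Subgroup.mem_centralizer_singleton_iff]
  refine ⟨?_, fun hx => ?_⟩
  · rintro ⟨y, rfl⟩
    refine hι ?_
    rw [map_mul, map_mul, hk]
    have := (mem_centralizer_sup_zpowers.1 y.2).2
    rw [H40.centralizer_zpowers_eq, Subgroup.mem_centralizer_singleton_iff] at this
    exact this
  · refine ⟨⟨ι x, mem_centralizer_sup_zpowers.2 ⟨hrange ▸ ⟨x, rfl⟩, ?_⟩⟩, hι (hk _)⟩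
    rw [H40.centralizer_zpowers_eq, Subgroup.mem_centralizer_singleton_iff, ← map_mul, hx, map_mul]

theorem orderOf_level {a : K} (ha : ι a ∈ P) : ∃ k, orderOf a = p ^ k := by
  obtain ⟨k, hk⟩ := h.exists_orderOf ha
  exact ⟨k, by rwa [orderOf_injective ι hι] at hk⟩

theorem pull_props {Y : Subgroup G} (hY : Y ≤ P) (hQY : Q ≤ Y) :
    pull ι (h.idemAt Y) * pull ι (h.idemAt Y) = pull ι (h.idemAt Y) ∧
      Inv (P.comap ι) (pull ι (h.idemAt Y)) ∧
      red M K (pull ι (h.idemAt Y)) = pull ι (cut (Subgroup.centralizer (Y : Set G)) j) := by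
  obtain ⟨h1, h2, h3, h4⟩ := h.idemAt_spec hY
  refine ⟨pull_idem hι ?_ h1, inv_pull h3, by rw [red_pull, h4]⟩
  rw [hrange]
  exact h2.mono (Subgroup.centralizer_le (SetLike.coe_subset_coe.2 hQY))

/-- At `a` the idempotent of `Q` may be replaced by the one of `Q ⊔ ⟨a⟩`. -/
theorem trc_cut {a : K} (ha : ι a ∈ P) {φ : K → ℂ} (hφ : IsCharacter K φ) :
    trc φ a (pull ι (h.idemAt Q)) =
      trc φ a (pull ι (h.idemAt (Q ⊔ Subgroup.zpowers (ι a)))) := by
  obtain ⟨k, hk⟩ := h.orderOf_level hι hQ hrange ha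
  obtain ⟨a1, a2, a3⟩ := h.pull_props hι hQ hrange hQ le_rfl
  obtain ⟨b1, b2, b3⟩ := h.pull_props hι hQ hrange (h.sup_le_P hQ hrange ha) le_sup_left
  have hz : Subgroup.zpowers a ≤ P.comap ι := Subgroup.zpowers_le.2 ha
  refine trc_eq_of_cut h.modular hφ hk a1 b1 (a2.mono hz) (b2.mono hz) ?_
  rw [a3, b3]
  have hC : Subgroup.centralizer (Subgroup.zpowers a : Set K) =
      (Subgroup.centralizer (Subgroup.zpowers (ι a) : Set G)).comap ι := by
    ext x
    rw [Subgroup.mem_comap, H40.centralizer_zpowers_eq, H40.centralizer_zpowers_eq,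
      Subgroup.mem_centralizer_singleton_iff, Subgroup.mem_centralizer_singleton_iff,
      ← map_mul, ← map_mul, hι.eq_iff]
  rw [hC, pull_cut, pull_cut, H22.cut_cut, H22.cut_cut]
  refine congrArg (fun C => pull ι (cut C j)) ?_
  ext x
  simp only [Subgroup.mem_inf, mem_centralizer_sup_zpowers]
  tauto

/-- The value at `a` is the multiplicity times the weight. -/
theorem trc_eq_mult_mul_wgt {a : K} (ha : ι a ∈ P)
    (hR : Q ⊔ Subgroup.zpowers (ι a) ≠ ⊥)
    [Fintype (Subgroup.centralizer ((Q ⊔ Subgroup.zpowers (ι a) : Subgroup G) : Set G))]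
    {κ : Subgroup.centralizer ((Q ⊔ Subgroup.zpowers (ι a) : Subgroup G) : Set G) →* K}
    (hκ : ∀ x, ι (κ x) = x)
    (u : Subgroup.centralizer ((Q ⊔ Subgroup.zpowers (ι a) : Subgroup G) : Set G))
    (hu : (u : G) = ι a) {φ : K → ℂ} (hφ : IsCharacter K φ) :
    trc φ a (pull ι (h.idemAt Q)) = (h.mult (Q ⊔ Subgroup.zpowers (ι a)) : ℂ) *
      wgt (h.blk (Q ⊔ Subgroup.zpowers (ι a))) (fun x => φ (κ x)) u := by
  have hRP : Q ⊔ Subgroup.zpowers (ι a) ≤ P := h.sup_le_P hQ hrange ha
  rw [h.trc_cut hι hQ hrange ha hφ]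
  have hκi : Function.Injective κ := fun x y e => Subtype.ext (by rw [← hκ, ← hκ, e])
  have hau : κ u = a := hι (by rw [hκ, hu])
  have hcomp : ι.comp κ = (Subgroup.centralizer ((Q ⊔ Subgroup.zpowers (ι a) : Subgroup G) : Set G)).subtype := MonoidHom.ext hκ
  have hs : Supp κ.range (pull ι (h.idemAt (Q ⊔ Subgroup.zpowers (ι a)))) := fun x hx => by
    rw [coeff_pull] at hx
    exact ⟨⟨ι x, (h.idemAt_spec hRP).2.1 _ hx⟩, hι (hκ _)⟩
  have e := trc_pull hκi hs φ u
  rw [hau, pull_comp, hcomp] at e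
  rw [e]
  have hcl : IsClassFunction _ fun x => φ (κ x) :=
    H26.isClassFunction_of_isCharacter (H26.isCharacter_comp hφ κ)
  have huc : ∀ g, Commute u g := fun g => Subtype.ext (by
    have := Subgroup.mem_centralizer_iff.1 g.2 (u : G)
      (by rw [hu]; exact le_sup_right (a := Q) (Subgroup.mem_zpowers (ι a)))
    simpa using this)
  rw [(h.isLocal_blk hRP hR).1.eval h.modular huc hcl (h.pull_idemAt_idem hRP) (h.absorbed hRP hR),
    h.mult_spec hRP hR]

theorem exists_isIntegral_trc {a : K} (ha : ι a ∈ P)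
    (hR : Q ⊔ Subgroup.zpowers (ι a) ≠ ⊥) {φ : K → ℂ} (hφ : IsCharacter K φ) :
    IsIntegral ℤ (trc φ a (pull ι (h.idemAt Q)) / (h.mult (Q ⊔ Subgroup.zpowers (ι a)) : ℂ)) := by
  obtain ⟨κ, -, hκ, -⟩ := h.exists_kappa hι hQ hrange a
  have := Fintype.ofFinite
    (Subgroup.centralizer ((Q ⊔ Subgroup.zpowers (ι a) : Subgroup G) : Set G))
  let u : Subgroup.centralizer ((Q ⊔ Subgroup.zpowers (ι a) : Subgroup G) : Set G) :=
    ⟨ι a, h.le_centralizer (h.sup_le_P hQ hrange ha) ha⟩
  rw [h.trc_eq_mult_mul_wgt hι hQ hrange ha hR hκ u rfl hφ,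
    mul_div_cancel_left₀ _ (h.mult_ne_zero _)]
  refine wgt_isIntegral _ (H26.isCharacter_comp hφ κ) fun g => Subtype.ext ?_
  have := Subgroup.mem_centralizer_iff.1 g.2 (ι a)
    (le_sup_right (a := Q) (Subgroup.mem_zpowers (ι a)))
  simpa [u] using this

variable [Fintype K]

/-- Columns at elements not conjugate by the inertial group are orthogonal. -/
theorem orth_eq_zero {a a' : K} (ha : ι a ∈ P) (ha' : ι a' ∈ P)
    (hR : Q ⊔ Subgroup.zpowers (ι a) ≠ ⊥)
    (hno : ∀ y ∈ pairStab P ε, y ∈ Subgroup.centralizer (Q : Set G) →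
      y * ι a * y⁻¹ ≠ ι a') :
    ∑ ψ : IrrCharacter K, trc (ψ : K → ℂ) a (pull ι (h.idemAt Q)) *
      conj (trc (ψ : K → ℂ) a' (pull ι (h.idemAt Q))) = 0 := by
  classical
  have := H41.IsPModular.charP h.modular
  set R := Q ⊔ Subgroup.zpowers (ι a) with hRdef
  set R' := Q ⊔ Subgroup.zpowers (ι a') with hR'def
  have hRP : R ≤ P := h.sup_le_P hQ hrange ha
  have hR'P : R' ≤ P := h.sup_le_P hQ hrange ha'
  obtain ⟨κ, hκi, hκ, hκr⟩ := h.exists_kappa hι hQ hrange a
  have := Fintype.ofFinite (Subgroup.centralizer (R : Set G))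
  rw [Finset.sum_congr rfl fun ψ _ => by
    rw [h.trc_cut hι hQ hrange ha (H26.irr_isCharacter ψ),
      h.trc_cut hι hQ hrange ha' (H26.irr_isCharacter ψ)]]
  obtain ⟨b1, b2, -⟩ := h.pull_props hι hQ hrange hRP (le_sup_left : Q ≤ R)
  obtain ⟨c1, c2, -⟩ := h.pull_props hι hQ hrange hR'P (le_sup_left : Q ≤ R')
  have hs : Supp κ.range (pull ι (h.idemAt R)) := fun x hx => by
    rw [coeff_pull] at hx
    exact ⟨⟨ι x, (h.idemAt_spec hRP).2.1 _ hx⟩, hι (hκ _)⟩
  have hs' : Supp (Subgroup.centralizer ({a'} : Set K)) (pull ι (h.idemAt R')) := fun x hx => by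
    rw [coeff_pull] at hx
    have := (mem_centralizer_sup_zpowers.1 ((h.idemAt_spec hR'P).2.1 _ hx)).2
    rw [H40.centralizer_zpowers_eq, Subgroup.mem_centralizer_singleton_iff, ← map_mul, ← map_mul,
      hι.eq_iff] at this
    exact Subgroup.mem_centralizer_singleton_iff.2 this
  obtain ⟨key0, key⟩ := sum_trc_mul_conj_trc h.modular hκi (h.orderOf_level hι hQ hrange ha) hκr
    b1 hs (h.orderOf_level hι hQ hrange ha') c1 hs'
  by_cases hconj : IsConj a a'
  swap
  · exact key0 hconj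
  obtain ⟨g₀, hg₀⟩ := isConj_iff.1 hconj
  rw [key g₀ hg₀]
  set g := ι g₀ with hg
  have hgQ : g ∈ Subgroup.centralizer (Q : Set G) := hrange ▸ ⟨g₀, rfl⟩
  have hga : g * ι a * g⁻¹ = ι a' := by rw [hg, ← map_inv, ← map_mul, ← map_mul, hg₀]
  have hRR' : cS g R = R' := by
    rw [hRdef, hR'def, show cS g (Q ⊔ Subgroup.zpowers (ι a)) = cS g Q ⊔ cS g (Subgroup.zpowers (ι a))
      from Subgroup.map_sup _ _ _, H22.cS_eq_self (Subgroup.centralizer_le_normalizer _ hgQ),
      show cS g (Subgroup.zpowers (ι a)) = Subgroup.zpowers (g * ι a * g⁻¹) from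
        MonoidHom.map_zpowers _ _, hga]
  have hcomp : ι.comp κ = (Subgroup.centralizer (R : Set G)).subtype := MonoidHom.ext hκ
  have e1 : pull κ (pull ι (h.idemAt R)) =
      pull (Subgroup.centralizer (R : Set G)).subtype (h.idemAt R) := by rw [pull_comp, hcomp]
  have e2 : pull κ (cj g₀⁻¹ (pull ι (h.idemAt R'))) =
      pull (Subgroup.centralizer (R : Set G)).subtype (cj g⁻¹ (h.idemAt R')) := by
    rw [pull_cj, pull_comp, hcomp, map_inv]
  rw [e1, e2]
  obtain ⟨hb, hle, -⟩ := h.isLocal_blk hRP hR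
  have hR'ne : R' ≠ ⊥ := by
    rw [← hRR']
    intro e
    refine hR ?_
    rw [← H22.cS_inv_cS g R, e]
    exact Subgroup.map_bot _
  obtain ⟨hb', hle', -⟩ := h.isLocal_blk hR'P hR'ne
  -- the block of the transported idempotent
  have hf1 : IsBlockEl (Subgroup.centralizer (R : Set G))
      (cj g⁻¹ (el M (Subgroup.centralizer (R' : Set G)) (h.blk R'))) := by
    have := (H22.isBlockEl_el (M := M) hb'.block).cj g⁻¹
    rwa [H22.cS_centralizer, show cS g⁻¹ R' = R by rw [← hRR', H22.cS_inv_cS]] at this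
  obtain ⟨b₁, hb₁, hb₁e⟩ := H22.exists_el_eq hf1
  have hne : h.blk R ≠ b₁ := by
    intro e
    rw [← e] at hb₁e
    have hgo : PLe p ⊤ (cS g R, cj g (el M (Subgroup.centralizer (R : Set G)) (h.blk R))) (P, ε) := by
      rw [hRR', hb₁e, H22.cj_cj_inv]
      exact hle'
    obtain ⟨y, hy, c, hc, hyc⟩ :=
      H40.exists_ext_of_carry h.modular h.block h.max h.comm hle hgo
    obtain ⟨hcQ, hca⟩ := mem_centralizer_sup_zpowers.1 hc
    refine hno y hy ?_ ?_
    · rw [show y = g * c⁻¹ by rw [hyc, mul_inv_cancel_right]]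
      exact mul_mem hgQ (inv_mem hcQ)
    · rw [H40.centralizer_zpowers_eq, Subgroup.mem_centralizer_singleton_iff] at hca
      rw [← hga, hyc, show y * c * ι a * (y * c)⁻¹ = y * (c * ι a * c⁻¹) * y⁻¹ by group, hca,
        mul_inv_cancel_right]
  set iT := pull (Subgroup.centralizer (R : Set G)).subtype (cj g⁻¹ (h.idemAt R'))
  have hsT : Supp (Subgroup.centralizer (R : Set G)) (cj g⁻¹ (h.idemAt R')) := by
    intro x hx
    rw [H22.coeff_cj] at hx
    have := H22.conj_mem_cS (g := g⁻¹) ((h.idemAt_spec hR'P).2.1 _ hx)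
    rw [H22.cS_centralizer, show cS g⁻¹ R' = R by rw [← hRR', H22.cS_inv_cS]] at this
    simpa [mul_assoc] using this
  have hiT : iT * iT = iT := pull_idem (Subgroup.subtype_injective _)
    (by rw [Subgroup.range_subtype]; exact hsT) (by rw [← map_mul, (h.idemAt_spec hR'P).1])
  have hredT : red M _ iT * elTop M b₁ = red M _ iT := by
    have hsT' : Supp (Subgroup.centralizer (R : Set G))
        (red M G (cj g⁻¹ (h.idemAt R'))) := hsT.red
    rw [red_pull, ← pull_el _ b₁, ← pull_mul_sub hsT', hb₁e, H22.red_cj, ← map_mul,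
      (h.idemAt_spec hR'P).2.2.2, h.absorb R' _ hle']
  refine Finset.sum_eq_zero fun ψ _ => ?_
  rw [hb.trc_one_irr h.modular ψ (h.pull_idemAt_idem hRP) (h.absorbed hRP hR)]
  split_ifs with hψ
  · rw [trc_eq_zero_of_absorb (p := p) h.modular hb₁
      (fun hψ' => hne (H41.block_eq_of_mem_of_mem hb.block hb₁ hψ hψ')) (j := 0) (by simp) hiT
      (inv_zpowers_one _) hredT, map_zero, mul_zero]
  · rw [zero_mul]

/-- The norm of a column. -/
theorem orth_self {a : K} (ha : ι a ∈ P) (hR : Q ⊔ Subgroup.zpowers (ι a) ≠ ⊥) :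
    ∑ ψ : IrrCharacter K, trc (ψ : K → ℂ) a (pull ι (h.idemAt Q)) *
      conj (trc (ψ : K → ℂ) a (pull ι (h.idemAt Q))) =
      (Nat.card P : ℂ) * (h.mult (Q ⊔ Subgroup.zpowers (ι a)) : ℂ) ^ 2 := by
  classical
  set R := Q ⊔ Subgroup.zpowers (ι a) with hRdef
  have hRP : R ≤ P := h.sup_le_P hQ hrange ha
  obtain ⟨κ, hκi, hκ, hκr⟩ := h.exists_kappa hι hQ hrange a
  have := Fintype.ofFinite (Subgroup.centralizer (R : Set G))
  rw [Finset.sum_congr rfl fun ψ _ => by
    rw [h.trc_cut hι hQ hrange ha (H26.irr_isCharacter ψ)]]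
  obtain ⟨b1, -, -⟩ := h.pull_props hι hQ hrange hRP (le_sup_left : Q ≤ R)
  have hs : Supp κ.range (pull ι (h.idemAt R)) := fun x hx => by
    rw [coeff_pull] at hx
    exact ⟨⟨ι x, (h.idemAt_spec hRP).2.1 _ hx⟩, hι (hκ _)⟩
  have hs' : Supp (Subgroup.centralizer ({a} : Set K)) (pull ι (h.idemAt R)) := hκr ▸ hs
  obtain ⟨-, key⟩ := sum_trc_mul_conj_trc h.modular hκi (h.orderOf_level hι hQ hrange ha) hκr
    b1 hs (h.orderOf_level hι hQ hrange ha) b1 hs'
  rw [key 1 (by group), inv_one, H22.cj_one_apply, pull_comp,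
    show ι.comp κ = (Subgroup.centralizer (R : Set G)).subtype from MonoidHom.ext hκ]
  obtain ⟨hb, -, hcard⟩ := h.isLocal_blk hRP hR
  rw [Finset.sum_congr rfl fun ψ _ => by
    rw [hb.trc_one_irr h.modular ψ (h.pull_idemAt_idem hRP) (h.absorbed hRP hR),
      h.mult_spec hRP hR, show (if ψ ∈ h.blk R then (h.mult R : ℂ) else 0) *
        conj (if ψ ∈ h.blk R then (h.mult R : ℂ) else 0) =
          if ψ ∈ h.blk R then (h.mult R : ℂ) ^ 2 else 0 by
        split_ifs <;> simp [sq]],
    ← Finset.sum_filter, Finset.sum_const, nsmul_eq_mul, ← Fintype.card_subtype,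
    ← Nat.card_eq_fintype_card]
  rw [show Nat.card {x // x ∈ h.blk R} = Nat.card (h.blk R) from rfl, hcard]

end Level

/-! ### The twist at a proper level -/

theorem zpowers_pow_eq {a : G} {k : ℕ} (hk : k.Coprime (Nat.card P)) (ha : a ∈ P) :
    Subgroup.zpowers (a ^ k) = Subgroup.zpowers a := by
  refine le_antisymm (Subgroup.zpowers_le.2 (Subgroup.pow_mem _ (Subgroup.mem_zpowers a) k))
    (Subgroup.zpowers_le.2 ?_)
  obtain ⟨m, hm⟩ := exists_pow_eq_self_of_coprime
    (Nat.Coprime.coprime_dvd_right (Subgroup.orderOf_dvd_natCard P ha) hk)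
  exact ⟨m, by simpa [zpow_natCast] using hm⟩


theorem range_id_eq : (MonoidHom.id G).range = Subgroup.centralizer ((⊥ : Subgroup G) : Set G) := by
  rw [MonoidHom.range_eq_top.2 Function.surjective_id]
  ext x
  simp [Subgroup.mem_centralizer_iff]

/-- The characters of the group at the source idempotent. -/
noncomputable def V (χ : IrrCharacter G) (u : G) : ℂ :=
  trc (χ : G → ℂ) u (pull (MonoidHom.id G) (h.idemAt ⊥))

/-- The generalized decomposition number. -/
noncomputable def W (χ : IrrCharacter G) (u : G) : ℂ :=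
  h.V χ u / (h.mult (Subgroup.zpowers u) : ℂ)

theorem isCharacter_V (χ : IrrCharacter G) : IsCharacter P (fun u : P => h.V χ (u : G)) := by
  obtain ⟨a1, a2, -⟩ := h.pull_props (ι := MonoidHom.id G) Function.injective_id bot_le
    h.range_id_eq bot_le le_rfl
  exact H22.isCharacter_trc (H26.irr_isCharacter χ) a1 fun g hg => a2 g hg

theorem zpowers_ne_bot {u : G} (hu1 : u ≠ 1) : Subgroup.zpowers u ≠ ⊥ := fun e =>
  hu1 (Subgroup.zpowers_eq_bot.1 e)

theorem isIntegral_W (χ : IrrCharacter G) {u : G} (hu : u ∈ P) (hu1 : u ≠ 1) :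
    IsIntegral ℤ (h.W χ u) := by
  have := h.exists_isIntegral_trc (ι := MonoidHom.id G) Function.injective_id bot_le
    h.range_id_eq (a := u) hu (by rw [bot_sup_eq]; exact h.zpowers_ne_bot hu1)
    (H26.irr_isCharacter χ)
  simp only [bot_sup_eq] at this
  exact this

/-- `W` is the weight of the block at `u`. -/
theorem W_eq_wgt (χ : IrrCharacter G) {u : G} (hu : u ∈ P) (hu1 : u ≠ 1)
    [Fintype (Subgroup.centralizer (Subgroup.zpowers u : Set G))]
    (hu' : u ∈ Subgroup.centralizer (Subgroup.zpowers u : Set G)) :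
    h.W χ u = wgt (h.blk (Subgroup.zpowers u)) (fun x => (χ : G → ℂ) (x : G)) ⟨u, hu'⟩ := by
  have key : ∀ R : Subgroup G, R = ⊥ ⊔ Subgroup.zpowers u →
      ∀ [Fintype (Subgroup.centralizer (R : Set G))] (hu' : u ∈ Subgroup.centralizer (R : Set G)),
        h.V χ u = (h.mult R : ℂ) *
          wgt (h.blk R) (fun x => (χ : G → ℂ) (x : G)) ⟨u, hu'⟩ := by
    rintro R rfl _ hu'
    exact h.trc_eq_mult_mul_wgt (ι := MonoidHom.id G) Function.injective_id bot_le
      h.range_id_eq (a := u) hu (by rw [bot_sup_eq]; exact h.zpowers_ne_bot hu1)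
      (κ := Subgroup.subtype _) (fun _ => rfl) ⟨u, hu'⟩ rfl (H26.irr_isCharacter χ)
  rw [W, key _ (bot_sup_eq _).symm hu', mul_div_cancel_left₀ _ (h.mult_ne_zero _)]

theorem V_eq (χ : IrrCharacter G) (u : G) :
    h.V χ u = (h.mult (Subgroup.zpowers u) : ℂ) * h.W χ u := by
  rw [W, mul_div_cancel₀ _ (h.mult_ne_zero _)]

theorem W_eq_zero_of_not_mem {χ : IrrCharacter G} (hχ : χ ∉ B) {u : G} (hu : u ∈ P) :
    h.W χ u = 0 := by
  obtain ⟨a1, a2, a3⟩ := h.pull_props (ι := MonoidHom.id G) Function.injective_id bot_le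
    h.range_id_eq bot_le le_rfl
  obtain ⟨k, hk⟩ := h.exists_orderOf hu
  have hj : pull (MonoidHom.id G) (cut (Subgroup.centralizer ((⊥ : Subgroup G) : Set G)) j) = j := by
    rw [H22.cut_of_supp fun x _ => by simp [Subgroup.mem_centralizer_iff]]
    exact H40.ext_coeff fun x => by rw [coeff_pull]; rfl
  rw [W, V, trc_eq_zero_of_absorb h.modular h.block hχ hk a1
    (fun g hg => a2 g (Subgroup.zpowers_le.2 hu hg)) (by rw [a3, hj, h.belongs]), zero_div]

/-! ### Invariance under the inertial group -/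

theorem cS_le {t : G} (ht : t ∈ pairStab P ε) {Y : Subgroup G} (hY : Y ≤ P) : cS t Y ≤ P :=
  (Subgroup.map_mono hY).trans (H22.cS_eq_self ht.1).le

theorem mult_dvd_mult {t : G} (ht : t ∈ pairStab P ε) {Y : Subgroup G} (hY : Y ≤ P) (hne : Y ≠ ⊥) :
    h.mult Y ∣ h.mult (cS t Y) := by
  classical
  have := H41.IsPModular.charP h.modular
  set Y' := cS t Y with hY'
  have hY'P : Y' ≤ P := h.cS_le ht hY
  have hY'ne : Y' ≠ ⊥ := fun e => hne (by
    rw [← H22.cS_inv_cS t Y, ← hY', e]; exact Subgroup.map_bot _)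
  have hmem : ∀ x : Subgroup.centralizer (Y : Set G),
      t * (x : G) * t⁻¹ ∈ Subgroup.centralizer (Y' : Set G) := fun x => by
    rw [hY', ← H22.cS_centralizer]
    exact H22.conj_mem_cS x.2
  let σ : Subgroup.centralizer (Y : Set G) →* Subgroup.centralizer (Y' : Set G) :=
    ((MulAut.conj t).toMonoidHom.comp (Subgroup.centralizer (Y : Set G)).subtype).codRestrict _ hmem
  have hσ : ∀ x, ((σ x : Subgroup.centralizer (Y' : Set G)) : G) = t * (x : G) * t⁻¹ := fun _ => rfl
  have hσi : Function.Injective σ := fun x y e => Subtype.ext (by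
    simpa [hσ] using congrArg Subtype.val e)
  have hσr : σ.range = ⊤ := by
    refine MonoidHom.range_eq_top.2 fun y => ⟨⟨t⁻¹ * (y : G) * t, ?_⟩, Subtype.ext ?_⟩
    · have h1 : (y : G) ∈ cS t (Subgroup.centralizer (Y : Set G)) := by
        rw [H22.cS_centralizer]; exact y.2
      exact H22.mem_cS.1 h1
    · rw [hσ]; group
  obtain ⟨hi1, hi2, hi3, hi4⟩ := h.idemAt_spec hY'P
  obtain ⟨hj1, hj2, hj3, hj4⟩ := h.idemAt_spec hY
  set ιY := (Subgroup.centralizer (Y : Set G)).subtype with hιY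
  let φ : Subgroup.centralizer (Y : Set G) → ℂ := fun x =>
    (h.chr Y' : Subgroup.centralizer (Y' : Set G) → ℂ) (σ x)
  have hφ : IsCharacter _ φ := H26.isCharacter_comp (H26.irr_isCharacter _) σ
  have htr : pull σ (pull (Subgroup.centralizer (Y' : Set G)).subtype (h.idemAt Y')) =
      pull ιY (cj t⁻¹ (h.idemAt Y')) := H40.ext_coeff fun x => by
    rw [coeff_pull, coeff_pull, coeff_pull, H22.coeff_cj]
    simp [hσ, hιY]
  have hsT : Supp (Subgroup.centralizer (Y : Set G)) (cj t⁻¹ (h.idemAt Y')) := fun x hx => by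
    rw [H22.coeff_cj] at hx
    have h1 := H22.conj_mem_cS (g := t⁻¹) (hi2 _ hx)
    rw [H22.cS_centralizer, hY', H22.cS_inv_cS] at h1
    simpa [mul_assoc] using h1
  -- the two idempotents are equivalent
  obtain ⟨a, b, ha, hb, hab, hba⟩ := h.eqv t⁻¹ (inv_mem ht)
  have hYp : IsPGroup p Y := h.pGroup.to_le hY
  have hcs : cS t⁻¹ (Subgroup.centralizer (Y' : Set G)) = Subgroup.centralizer (Y : Set G) := by
    rw [H22.cS_centralizer, hY', H22.cS_inv_cS]
  have hi'idem : pull ιY (cj t⁻¹ (h.idemAt Y')) * pull ιY (cj t⁻¹ (h.idemAt Y')) =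
      pull ιY (cj t⁻¹ (h.idemAt Y')) :=
    pull_idem (Subgroup.subtype_injective _) (by rw [Subgroup.range_subtype]; exact hsT)
      (by rw [← map_mul, hi1])
  have key : trc φ 1 (pull ιY (h.idemAt Y)) = trc φ 1 (pull ιY (cj t⁻¹ (h.idemAt Y'))) := by
    refine H22.trc_congr h.modular (char_mem_localRing hφ)
      (isClassFunction_mul_comm (H26.isClassFunction_of_isCharacter hφ)) (j := 0) (by simp)
      (h.pull_idemAt_idem hY) hi'idem (inv_zpowers_one _) (inv_zpowers_one _)
      (a := pull ιY (cut (Subgroup.centralizer (Y : Set G)) a))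
      (b := pull ιY (cut (Subgroup.centralizer (Y : Set G)) b)) ?_ ?_ ?_ ?_
    · exact fun x _ => by simp [H40.centralizer_zpowers_eq, Subgroup.mem_centralizer_singleton_iff]
    · exact fun x _ => by simp [H40.centralizer_zpowers_eq, Subgroup.mem_centralizer_singleton_iff]
    · rw [cut_top, red_pull, hj4, ← pull_mul_sub (H22.supp_cut _ _),
        ← H22.cut_mul hYp (ha.mono hY) (hb.mono hY), hab]
    · rw [cut_top, red_pull, H22.red_cj, hi4, H22.cj_cut, hcs, ← hba,
        H22.cut_mul hYp (hb.mono hY) (ha.mono hY), pull_mul_sub (H22.supp_cut _ _)]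
  have h1 : trc φ 1 (pull ιY (cj t⁻¹ (h.idemAt Y'))) = (h.mult Y' : ℂ) := by
    rw [← htr, ← h.mult_spec hY'P hY'ne]
    have := trc_pull hσi (a := pull (Subgroup.centralizer (Y' : Set G)).subtype (h.idemAt Y'))
      (fun x _ => by rw [hσr]; exact Subgroup.mem_top x)
      (h.chr Y' : Subgroup.centralizer (Y' : Set G) → ℂ) 1
    rw [map_one] at this
    exact this.symm
  have := Fintype.ofFinite (Subgroup.centralizer (Y : Set G))
  have h2 := (h.isLocal_blk hY hne).1.eval h.modular (u := 1) Commute.one_left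
    (H26.isClassFunction_of_isCharacter hφ) (h.pull_idemAt_idem hY) (h.absorbed hY hne)
  rw [h.mult_spec hY hne, key, h1] at h2
  choose n hn using fun ψ : IrrCharacter (Subgroup.centralizer (Y : Set G)) =>
    H26.exists_nat_classInner_irr hφ ψ
  refine ⟨∑ ψ ∈ Finset.univ.filter (· ∈ h.blk Y), n ψ, ?_⟩
  rw [← Nat.cast_inj (R := ℂ), Nat.cast_mul, Nat.cast_sum, h2]
  congr 1
  exact Finset.sum_congr rfl fun ψ _ => by rw [hn, scal_one, mul_one]

theorem mult_cS {t : G} (ht : t ∈ pairStab P ε) {Y : Subgroup G} (hY : Y ≤ P) (hne : Y ≠ ⊥) :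
    h.mult (cS t Y) = h.mult Y := by
  refine Nat.dvd_antisymm ?_ (h.mult_dvd_mult ht hY hne)
  have := h.mult_dvd_mult (inv_mem ht) (h.cS_le ht hY) fun e => hne (by
    rw [← H22.cS_inv_cS t Y, e]; exact Subgroup.map_bot _)
  rwa [H22.cS_inv_cS] at this

theorem V_conj (χ : IrrCharacter G) {t : G} (ht : t ∈ pairStab P ε) {u : G} (hu : u ∈ P) :
    h.V χ (t * u * t⁻¹) = h.V χ u := by
  have := H41.IsPModular.charP h.modular
  have hcl := isClassFunction_mul_comm (H26.irr_isClassFunction χ)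
  obtain ⟨hi1, hi2, hi3⟩ := h.pull_props (ι := MonoidHom.id G) Function.injective_id bot_le
    h.range_id_eq bot_le le_rfl
  set I := pull (MonoidHom.id G) (h.idemAt ⊥) with hI
  have hred : red M G I = j := by
    rw [hi3, H22.cut_of_supp fun x _ => by simp [Subgroup.mem_centralizer_iff]]
    exact H40.ext_coeff fun x => by rw [coeff_pull]; rfl
  set v := t * u * t⁻¹ with hv
  have hvP : v ∈ P := (Subgroup.mem_normalizer_iff.1 ht.1 u).1 hu
  obtain ⟨k, hk⟩ := h.exists_orderOf hvP
  have hz : Subgroup.zpowers v ≤ P := Subgroup.zpowers_le.2 hvP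
  obtain ⟨a, b, ha, hb, hab, hba⟩ := h.eqv t ht
  have hIP : Inv P I := fun g hg => hi2 g hg
  have hIt : Inv P (cj t I) := by
    have := hIP.cj t
    rwa [H22.cS_eq_self ht.1] at this
  have hp : IsPGroup p (Subgroup.zpowers v) := h.pGroup.to_le hz
  have key : trc (χ : G → ℂ) v I = trc (χ : G → ℂ) v (cj t I) := by
    refine H22.trc_congr h.modular (char_mem_localRing (H26.irr_isCharacter χ)) hcl hk hi1
      (by rw [← map_mul, hi1]) (hIP.mono hz) (hIt.mono hz)
      (a := cut (Subgroup.centralizer (Subgroup.zpowers v : Set G)) a)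
      (b := cut (Subgroup.centralizer (Subgroup.zpowers v : Set G)) b)
      (H22.supp_cut _ _) (H22.supp_cut _ _) ?_ ?_
    · rw [hred, ← hab, H22.cut_mul hp (ha.mono hz) (hb.mono hz)]
    · rw [H22.red_cj, hred, ← hba, H22.cut_mul hp (hb.mono hz) (ha.mono hz)]
  rw [V, ← hI, key, hv, H22.trc_cj hcl]
  rfl

theorem W_conj (χ : IrrCharacter G) {t : G} (ht : t ∈ pairStab P ε) {u : G} (hu : u ∈ P)
    (hu1 : u ≠ 1) : h.W χ (t * u * t⁻¹) = h.W χ u := by
  have e : cS t (Subgroup.zpowers u) = Subgroup.zpowers (t * u * t⁻¹) := MonoidHom.map_zpowers _ _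
  rw [W, W, h.V_conj χ ht hu, ← e, h.mult_cS ht (Subgroup.zpowers_le.2 hu) (h.zpowers_ne_bot hu1)]

/-! ### Orthogonality -/

/-- The columns are orthogonal. -/
theorem sum_W_mul_conj [Fintype G] {u v : G} (hu : u ∈ P) (hv : v ∈ P) (hu1 : u ≠ 1) :
    (∀ S : Finset (IrrCharacter G), (∀ χ, χ ∈ S ↔ χ ∈ B) →
      ((∀ t ∈ pairStab P ε, t * u * t⁻¹ ≠ v) → ∑ χ ∈ S, h.W χ u * conj (h.W χ v) = 0) ∧
      ((∃ t ∈ pairStab P ε, t * u * t⁻¹ = v) →
        ∑ χ ∈ S, h.W χ u * conj (h.W χ v) = Nat.card P)) := by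
  classical
  intro S hS
  have hall : ∀ w ∈ P, ∑ χ ∈ S, h.W χ u * conj (h.W χ w) =
      (∑ χ : IrrCharacter G, h.V χ u * conj (h.V χ w)) /
        ((h.mult (Subgroup.zpowers u) : ℂ) * (h.mult (Subgroup.zpowers w) : ℂ)) := fun w hw => by
    rw [Finset.sum_subset (Finset.subset_univ S) fun χ _ hχ => by
      rw [h.W_eq_zero_of_not_mem (fun e => hχ ((hS χ).2 e)) hu, zero_mul], Finset.sum_div]
    refine Finset.sum_congr rfl fun χ _ => ?_
    rw [W, W, map_div₀, map_natCast, div_mul_div_comm]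
  have hR : (⊥ : Subgroup G) ⊔ Subgroup.zpowers ((MonoidHom.id G) u) ≠ ⊥ := by
    rw [bot_sup_eq]; exact h.zpowers_ne_bot hu1
  refine ⟨fun hno => ?_, ?_⟩
  · rw [hall v hv]
    have := h.orth_eq_zero (ι := MonoidHom.id G) Function.injective_id bot_le h.range_id_eq
      (a := u) (a' := v) hu hv hR fun y hy _ => hno y hy
    rw [show (∑ χ : IrrCharacter G, h.V χ u * conj (h.V χ v)) = 0 from this, zero_div]
  · rintro ⟨t, ht, rfl⟩
    rw [Finset.sum_congr rfl fun χ _ => by rw [h.W_conj χ ht hu hu1], hall u hu]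
    have := h.orth_self (ι := MonoidHom.id G) Function.injective_id bot_le h.range_id_eq
      (a := u) hu hR
    rw [show (∑ χ : IrrCharacter G, h.V χ u * conj (h.V χ u)) = _ from this]
    simp only [bot_sup_eq, MonoidHom.id_apply]
    field_simp [h.mult_ne_zero (Subgroup.zpowers u)]

/-- The columns are orthogonal to the regular elements. -/
theorem sum_W_mul_regular [Fintype G] {u : G} (hu : u ∈ P) (hu1 : u ≠ 1) {r : G}
    (hr : ¬ p ∣ orderOf r) {S : Finset (IrrCharacter G)} (hS : ∀ χ, χ ∈ S ↔ χ ∈ B) :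
    ∑ χ ∈ S, h.W χ u * conj ((χ : G → ℂ) r) = 0 := by
  classical
  rw [Finset.sum_subset (Finset.subset_univ S) fun χ _ hχ => by
    rw [h.W_eq_zero_of_not_mem (fun e => hχ ((hS χ).2 e)) hu, zero_mul]]
  set Z := Subgroup.zpowers u
  have hZ : Z ≤ P := Subgroup.zpowers_le.2 hu
  have := Fintype.ofFinite (Subgroup.centralizer (Z : Set G))
  obtain ⟨hi1, hi2, hi3, hi4⟩ := h.idemAt_spec hZ
  have e : ∀ χ : IrrCharacter G, h.V χ u = trc (χ : G → ℂ) u (h.idemAt Z) := fun χ => by
    have := h.trc_cut (ι := MonoidHom.id G) Function.injective_id bot_le h.range_id_eq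
      (a := u) hu (H26.irr_isCharacter χ)
    simp only [bot_sup_eq, MonoidHom.id_apply] at this
    rw [V, this]
    exact congrArg _ (H40.ext_coeff fun x => by rw [coeff_pull]; rfl)
  simp only [W, e, div_eq_mul_inv]
  rw [Finset.sum_congr rfl fun χ _ => mul_right_comm _ _ _, ← Finset.sum_mul,
    sum_trc_mul_regular h.modular (Subgroup.centralizer (Z : Set G)).subtype_injective
      (h.exists_orderOf hu) (by rw [Subgroup.range_subtype, H40.centralizer_zpowers_eq]) hi1
      (by rw [Subgroup.range_subtype]; exact hi2) hu1 hr, zero_mul]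

/-! ### The signs -/

theorem exists_omega [IsMulCommutative P] {Q' : Subgroup P} (hQ' : Q' ≠ ⊥) :
    ∃ ω : P → ℂ, ω ∈ gc P ∧ (∀ (a : P) (q : Q'), ω ((q : P) * a) = ω a) ∧
      ∀ a : P, ∃ η : ℤ, (η = 1 ∨ η = -1) ∧
        ω a = ((η * h.mult ((Q' ⊔ Subgroup.zpowers a).map P.subtype) : ℤ) : ℂ) := by
  classical
  have := H41.IsPModular.charP h.modular
  set Q := Q'.map P.subtype with hQdef
  have hQ : Q ≤ P := Subgroup.map_subtype_le Q'
  have hQne : Q ≠ ⊥ := fun e =>
    hQ' ((Subgroup.map_eq_bot_iff_of_injective _ P.subtype_injective).1 e)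
  set ι := (Subgroup.centralizer (Q : Set G)).subtype with hιdef
  have hι : Function.Injective ι := Subgroup.subtype_injective _
  have hrange : ι.range = Subgroup.centralizer (Q : Set G) := Subgroup.range_subtype _
  have := Fintype.ofFinite (Subgroup.centralizer (Q : Set G))
  have := Fintype.ofFinite P
  let e : P →* Subgroup.centralizer (Q : Set G) := Subgroup.inclusion (h.le_centralizer hQ)
  have hmem : ∀ a : P, ι (e a) ∈ P := fun a => a.2
  have hsup : ∀ a : P, Q ⊔ Subgroup.zpowers (ι (e a)) =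
      (Q' ⊔ Subgroup.zpowers a).map P.subtype := fun a => by
    rw [Subgroup.map_sup, MonoidHom.map_zpowers]; rfl
  have hR : ∀ a : P, Q ⊔ Subgroup.zpowers (ι (e a)) ≠ ⊥ := fun a hb =>
    hQne (le_bot_iff.1 (hb ▸ le_sup_left))
  obtain ⟨hb, hle, hcard⟩ := h.isLocal_blk hQ hQne
  obtain ⟨a1, a2, a3⟩ := h.pull_props hι hQ hrange hQ le_rfl
  set iQ := pull ι (h.idemAt Q) with hiQ
  let d : P → ℕ := fun a => h.mult (Q ⊔ Subgroup.zpowers (ι (e a)))
  have hchar : ∀ ψ : IrrCharacter (Subgroup.centralizer (Q : Set G)),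
      IsCharacter P fun a => trc (ψ : Subgroup.centralizer (Q : Set G) → ℂ) (e a) iQ := fun ψ =>
    H26.isCharacter_comp (H22.isCharacter_trc (H26.irr_isCharacter ψ) a1 a2)
      (e.codRestrict (P.comap ι) hmem)
  let b := h.blk Q
  let Mx : Matrix b P ℂ := Matrix.of fun ψ a =>
    trc ((ψ : IrrCharacter (Subgroup.centralizer (Q : Set G))) :
      Subgroup.centralizer (Q : Set G) → ℂ) (e a) iQ / (d a : ℂ)
  set q : ℂ := (Nat.card P : ℂ) with hq
  have hq0 : q ≠ 0 := Nat.cast_ne_zero.2 Nat.card_pos.ne'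
  have hd0 : ∀ a, (d a : ℂ) ≠ 0 := fun a => h.mult_ne_zero _
  have hzero : ∀ (a : P) (ψ : IrrCharacter (Subgroup.centralizer (Q : Set G))), ψ ∉ b →
      trc (ψ : Subgroup.centralizer (Q : Set G) → ℂ) (e a) iQ = 0 := fun a ψ hψ => by
    obtain ⟨k, hk⟩ := h.orderOf_level hι hQ hrange (hmem a)
    exact trc_eq_zero_of_absorb h.modular hb.block hψ hk a1
      (a2.mono (Subgroup.zpowers_le.2 (hmem a))) (h.absorbed hQ hQne)
  have horth : (q⁻¹ • Mx.conjTranspose) * Mx = 1 := by
    ext a a'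
    rw [Matrix.smul_mul, Matrix.smul_apply, Matrix.mul_apply, smul_eq_mul]
    have hfull : ∑ ψ : b, Mx.conjTranspose a ψ * Mx ψ a' =
        (∑ ψ : IrrCharacter (Subgroup.centralizer (Q : Set G)),
          trc (ψ : Subgroup.centralizer (Q : Set G) → ℂ) (e a') iQ *
            conj (trc (ψ : Subgroup.centralizer (Q : Set G) → ℂ) (e a) iQ)) /
          ((d a' : ℂ) * (d a : ℂ)) := by
      rw [← Finset.sum_subset (Finset.subset_univ (Finset.univ.filter (· ∈ b))) fun ψ _ hψ => by
        rw [hzero a' ψ (fun h' => hψ (Finset.mem_filter.2 ⟨Finset.mem_univ _, h'⟩)), zero_mul],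
        Finset.sum_div]
      rw [Finset.sum_subtype (Finset.univ.filter (· ∈ b)) (p := fun ψ => ψ ∈ b) (by simp)]
      refine Finset.sum_congr rfl fun ψ _ => ?_
      simp only [Mx, Matrix.conjTranspose_apply, Matrix.of_apply, ← starRingEnd_apply, map_div₀,
        map_natCast]
      rw [div_mul_div_comm, mul_comm (conj _), mul_comm (d a : ℂ)]
    rw [hfull]
    rcases eq_or_ne a a' with rfl | hne
    · rw [Matrix.one_apply_eq, h.orth_self hι hQ hrange (hmem a) (hR a)]
      show q⁻¹ * (q * (d a : ℂ) ^ 2 / ((d a : ℂ) * (d a : ℂ))) = 1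
      field_simp [hd0 a]
    · rw [Matrix.one_apply_ne hne, h.orth_eq_zero hι hQ hrange (hmem a') (hmem a) (hR a'), zero_div,
        mul_zero]
      intro y hy hyQ hya
      obtain ⟨⟨x, hx⟩, hx'⟩ := Q.ne_bot_iff_exists_ne_one.1 hQne
      have hx1 : x ≠ 1 := fun e' => hx' (Subtype.ext e')
      have hyP := h.free y hy x (hQ hx) hx1
        (by rw [← Subgroup.mem_centralizer_iff.1 hyQ x hx, mul_inv_cancel_right])
      refine hne (Subtype.ext ?_)
      rw [show (a : G) = ι (e a) from rfl, ← hya, ← Subgroup.mem_centralizer_iff.1 hyP _ (hmem a'),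
        mul_inv_cancel_right]
      rfl
  have hbq : Fintype.card b = Fintype.card P := by
    rw [← Nat.card_eq_fintype_card, ← Nat.card_eq_fintype_card]; exact hcard
  have hrow := (Matrix.mul_eq_one_comm_of_equiv (Fintype.equivOfCardEq hbq).symm).1 horth
  set θ : b := ⟨h.chr Q, hb.mem⟩
  have hsq : ∑ a, ‖Mx θ a‖ ^ 2 = (Nat.card P : ℝ) := by
    have h1 := congrFun (congrFun hrow θ) θ
    rw [Matrix.mul_smul, Matrix.smul_apply, Matrix.mul_apply, Matrix.one_apply_eq, smul_eq_mul,
      inv_mul_eq_iff_eq_mul₀ hq0, mul_one] at h1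
    have h2 : ∀ a, Mx θ a * Mx.conjTranspose a θ = ((‖Mx θ a‖ ^ 2 : ℝ) : ℂ) := fun a => by
      rw [Matrix.conjTranspose_apply, ← starRingEnd_apply, Complex.mul_conj, Complex.normSq_eq_norm_sq]
    rw [Finset.sum_congr rfl fun a _ => h2 a, ← Complex.ofReal_sum] at h1
    exact Complex.ofReal_injective (h1.trans (Complex.ofReal_natCast _).symm)
  set W' : P → ℂ := fun a => Mx θ a
  have hint : ∀ a, IsIntegral ℤ (W' a) := fun a =>
    h.exists_isIntegral_trc hι hQ hrange (hmem a) (hR a) (H26.irr_isCharacter _)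
  let Vf : P → ℂ := fun a => trc (h.chr Q : Subgroup.centralizer (Q : Set G) → ℂ) (e a) iQ
  have hV1 : Vf 1 = (h.mult Q : ℂ) := by
    simp only [Vf, map_one]
    exact h.mult_spec hQ hQne
  have hne0 : ∀ a, W' a ≠ 0 := fun a h0 => by
    have h1 : Vf a = 0 := (div_eq_zero_iff.1 h0).resolve_right (hd0 a)
    obtain ⟨k, hk⟩ := h.exists_orderOf a.2
    have hc := H40.memLocalIdeal_char_mul_sub h.modular (hchar θ.1) (Commute.one_right a)
      (by rw [← Subgroup.orderOf_coe]; exact hk)
    rw [mul_one, show trc _ (e a) iQ = Vf a from rfl, show trc _ (e 1) iQ = Vf 1 from rfl, h1,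
      hV1, H22.memLocalIdeal_sub_iff_resT (zero_mem _) (natCast_mem _ _), H22.resT_zero,
      H22.resT_of_mem (natCast_mem _ _)] at hc
    have h3 : ((h.mult Q : ℕ) : ResField M) = 0 := by
      rw [← map_natCast (res M), show ((h.mult Q : localRing M)) =
        ⟨(h.mult Q : ℂ), natCast_mem _ _⟩ from
          Subtype.ext (map_natCast (localRing M).subtype _), ← hc]
    exact h.not_dvd_mult Q ((CharP.cast_eq_zero_iff (ResField M) p _).1 h3)
  have hgal : ∀ σ : ℂ ≃+* ℂ, ∃ π : Equiv.Perm P, ∀ a, σ (W' a) = W' (π a) := by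
    intro σ
    obtain ⟨k, hk, hσ⟩ := H45.exists_pow_of_ringAut σ (Nat.card_pos (α := P)).ne'
    have hinj : Function.Bijective fun a : P => a ^ k :=
      (powCoprime hk.symm).bijective
    refine ⟨Equiv.ofBijective _ hinj, fun a => ?_⟩
    have hd : d (a ^ k) = d a := by
      simp only [d]
      rw [show ι (e (a ^ k)) = (a : G) ^ k from rfl, h.zpowers_pow_eq hk a.2]
      rfl
    simp only [W', Mx, Matrix.of_apply, Equiv.ofBijective_apply, map_div₀, map_natCast, hd]
    exact congrArg (· / _) (H45.ringAut_char (hchar θ.1) σ hσ a)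
  have hcs := H45.card_le_sum_norm_pow W' hint hne0 hgal 1
  simp only [pow_one, ← Nat.card_eq_fintype_card] at hcs
  have hone : ∀ a, ‖W' a‖ = 1 := by
    have h0 : ∑ a, (‖W' a‖ - 1) ^ 2 ≤ 0 := by
      simp only [sub_sq, mul_one, one_pow, Finset.sum_add_distrib, Finset.sum_sub_distrib,
        ← Finset.mul_sum, Finset.sum_const, Finset.card_univ, nsmul_eq_mul]
      rw [show ∑ a, ‖W' a‖ ^ 2 = (Nat.card P : ℝ) from hsq, ← Nat.card_eq_fintype_card]
      linarith
    intro a
    have := (Finset.sum_eq_zero_iff_of_nonneg fun x _ => sq_nonneg (‖W' x‖ - 1)).1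
      (le_antisymm h0 (Finset.sum_nonneg fun x _ => sq_nonneg _)) a (Finset.mem_univ _)
    exact sub_eq_zero.1 (eq_zero_of_pow_eq_zero this)
  have hVd : ∀ a, Vf a * conj (Vf a) = (d a : ℂ) ^ 2 := fun a => by
    rw [show Vf a = W' a * (d a : ℂ) from (div_mul_cancel₀ _ (hd0 a)).symm, map_mul, map_natCast,
      show W' a * (d a : ℂ) * (conj (W' a) * d a) = W' a * conj (W' a) * (d a : ℂ) ^ 2 by ring,
      Complex.mul_conj, Complex.normSq_eq_norm_sq, hone]
    norm_num
  -- the linear character of `Q'`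
  have hqc : ∀ q : Q', ∀ g, Commute (e (q : P)) g := fun q g => Subtype.ext
    (Subgroup.mem_centralizer_iff.1 g.2 (((q : P) : G)) ⟨(q : P), q.2, rfl⟩)
  have hs0 : ∀ q : Q', scal (h.chr Q) (e (q : P)) ≠ 0 := fun q h0 => by
    have := scal_pow (hqc q) (h.chr Q) (orderOf (e (q : P)))
    rw [pow_orderOf_eq_one, scal_one, h0, zero_pow (orderOf_pos _).ne'] at this
    exact one_ne_zero this
  let lam : Q' →* ℂˣ :=
    { toFun := fun q => Units.mk0 _ (hs0 q)
      map_one' := Units.ext (by simp [scal_one])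
      map_mul' := fun x y => Units.ext (by
        show scal (h.chr Q) (e ((x : P) * (y : P))) = _
        rw [map_mul, scal_mul (hqc y), mul_comm]
        rfl) }
  obtain ⟨kP, hkP⟩ := IsPGroup.iff_card.1 h.pGroup
  obtain ⟨ω, hω, hω1, hω2⟩ := exists_twist hkP (gc_of_isCharacter (hchar θ.1)) d
    (fun a => h.not_dvd_mult _) hVd hint (by
      rw [show trc _ (e 1) iQ = Vf 1 from rfl, hV1]
      simp only [d]
      rw [map_one, map_one, Subgroup.zpowers_one_eq_bot, sup_bot_eq]) Q' lam fun a q => by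
      show trc _ (e ((q : P) * a)) iQ = scal (h.chr Q) (e (q : P)) * trc _ (e a) iQ
      rw [map_mul, ((hqc q) (e a)).eq, H22.trc_apply, H22.trc_apply, Finset.mul_sum]
      refine Finset.sum_congr rfl fun x _ => ?_
      rw [← mul_assoc x (e a), irr_mul_central (hqc q)]
      ring
  refine ⟨ω, hω, hω1, fun a => ?_⟩
  obtain ⟨η, h1, h2⟩ := hω2 a
  exact ⟨η, h1, by rw [h2, ← hsup a]⟩

/-- Conjugation by an element of the inertial group, on the defect group. -/
noncomputable def act {t : G} (ht : t ∈ pairStab P ε) : P ≃* P :=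
  ((MulAut.conj t).subgroupMap P).trans (MulEquiv.subgroupCongr (H22.cS_eq_self ht.1))

theorem coe_act {t : G} (ht : t ∈ pairStab P ε) (u : P) :
    ((act ht u : P) : G) = t * (u : G) * t⁻¹ := rfl

/-- The signed decomposition numbers span integral vectors. -/
theorem exists_signs :
    ∃ s : G → ℤ, (∀ u, s u = 1 ∨ s u = -1) ∧
      (∀ t ∈ pairStab P ε, ∀ u ∈ P, u ≠ 1 → s (t * u * t⁻¹) = s u) ∧
      ∀ [Fintype P] (χ : IrrCharacter G) (l : P →* ℂˣ), ∃ n : ℤ,
        ∑ u : P, ((l u : ℂ) - 1) * ((s (u : G) : ℂ) * conj (h.W χ (u : G))) =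
          (n : ℂ) * Nat.card P := by
  classical
  haveI : IsMulCommutative P :=
    IsMulCommutative.of_comm fun a b => Subtype.ext (h.comm _ a.2 _ b.2)
  obtain ⟨k, hk⟩ := IsPGroup.iff_card.1 h.pGroup
  let mm : Subgroup P → ℕ := fun Y => h.mult (Y.map P.subtype)
  obtain ⟨s', hs', hinv, ω₀, hω₀, hω₀v⟩ := exists_sign (A := P) mm hk
    (fun Y _ => h.not_dvd_mult _) fun Q hQ => h.exists_omega hQ
  have hmapz : ∀ v : P, (Subgroup.zpowers v).map P.subtype = Subgroup.zpowers (v : G) := fun v =>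
    MonoidHom.map_zpowers _ _
  refine ⟨fun u => if hu : u ∈ P then s' (Subgroup.zpowers ⟨u, hu⟩) else 1, fun u => ?_,
    fun t ht u hu hu1 => ?_, fun {_} χ l => ?_⟩
  · dsimp only
    split_ifs
    · exact hs' _
    · exact Or.inl rfl
  · have hv : t * u * t⁻¹ ∈ P := (Subgroup.mem_normalizer_iff.1 ht.1 u).1 hu
    simp only [dif_pos hu, dif_pos hv]
    have := hinv (act ht) (fun Y hY => by
      have e : (Y.map (act ht : P →* P)).map P.subtype = cS t (Y.map P.subtype) := by
        rw [cS, Subgroup.map_map, Subgroup.map_map]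
        exact congrArg (fun f => Y.map f) (MonoidHom.ext fun x => h.coe_act ht x)
      simp only [mm]
      rw [e, h.mult_cS ht (Subgroup.map_subtype_le Y)]
      exact fun e' => hY ((Subgroup.map_eq_bot_iff_of_injective _ P.subtype_injective).1 e'))
      (Subgroup.zpowers ⟨u, hu⟩)
      (fun e => hu1 (congrArg Subtype.val (Subgroup.zpowers_eq_bot.1 e)))
    rw [MonoidHom.map_zpowers] at this
    exact (congrArg s' (congrArg Subgroup.zpowers (Subtype.ext (h.coe_act ht ⟨u, hu⟩).symm))).trans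
      this
  · obtain ⟨n, hn⟩ : ∃ n : ℤ, ∑ u ∈ Finset.univ.filter (· ≠ (1 : P)), ((l u : ℂ) - 1) *
        ((s' (Subgroup.zpowers u) : ℂ) * conj (h.W χ (u : G))) = (n : ℂ) * Nat.card P := by
      refine exists_int_mean (A := P) hk (S := Finset.univ.filter (· ≠ 1))
        (fun i hi a ha => ?_) (g := fun a => (l a : ℂ) - 1)
        (N := fun a : P => conj (h.V χ (a : G))) (D := ω₀)
        (f := fun a : P => (s' (Subgroup.zpowers a) : ℂ) * conj (h.W χ (a : G)))
        (AddSubgroup.sub_mem _ (lin_mem l) gc_one) (fun a ha => ?_)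
        (gc_conj (gc_of_isCharacter (h.isCharacter_V χ))) hω₀ (fun a ha => ?_) (fun a ha => ?_)
        (fun a ha => ?_)
      · rw [Finset.mem_filter] at ha ⊢
        refine ⟨Finset.mem_univ _, fun e => ha.2 ((powCoprime hi.symm).injective ?_)⟩
        show a ^ i = 1 ^ i
        rw [e, one_pow]
      · rw [Finset.mem_filter] at ha
        obtain rfl : a = 1 := by_contra fun e => ha ⟨Finset.mem_univ _, e⟩
        simp
      · rw [Finset.mem_filter] at ha
        refine IsIntegral.mul (isIntegral_algebraMap (R := ℤ)) ?_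
        exact (h.isIntegral_W χ a.2 fun e => ha.2 (Subtype.ext e)).map
          ((starRingEnd ℂ).toIntAlgHom)
      · rw [Finset.mem_filter] at ha
        rw [hω₀v a ha.2, h.V_eq, map_mul, map_natCast]
        simp only [mm, hmapz]
        rcases hs' (Subgroup.zpowers a) with e | e <;> rw [e] <;> push_cast <;> ring
      · rw [Finset.mem_filter] at ha
        refine ⟨_, hω₀v a ha.2, fun hd => h.not_dvd_mult ((Subgroup.zpowers a).map P.subtype) ?_⟩
        show p ∣ mm (Subgroup.zpowers a)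
        rcases hs' (Subgroup.zpowers a) with e | e <;> rw [e] at hd <;>
          simpa [Int.natCast_dvd_natCast] using hd
    refine ⟨n, ?_⟩
    rw [← hn, Finset.sum_filter]
    refine Finset.sum_congr rfl fun u _ => ?_
    split_ifs with hu
    · simp only [dif_pos u.2, Subtype.coe_eta]
    · obtain rfl : u = 1 := not_not.1 hu
      simp


/-- The `b`-part of a section is the decomposition number times the character of the block. -/
theorem bpart_eq [Fintype G] (χ : IrrCharacter G) {u : G} (hu : u ∈ P) (hu1 : u ≠ 1)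
    [Fintype (Subgroup.centralizer (Subgroup.zpowers u : Set G))]
    (s : H56.Subsec.CZ u) :
    H56.Subsec.bpart p u (h.blk (Subgroup.zpowers u)) χ s =
      h.W χ u * H42.regRes p (h.chr (Subgroup.zpowers u) :
        Subgroup.centralizer (Subgroup.zpowers u : Set G) → ℂ) s := by
  classical
  obtain ⟨hb, -, -⟩ := h.isLocal_blk (Subgroup.zpowers_le.2 hu) (h.zpowers_ne_bot hu1)
  have hu' : u ∈ Subgroup.centralizer (Subgroup.zpowers u : Set G) := by
    rw [H40.centralizer_zpowers_eq, Subgroup.mem_centralizer_singleton_iff]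
  rw [h.W_eq_wgt χ hu hu1 hu', H56.Subsec.bpart_apply, wgt, Finset.sum_mul]
  refine Finset.sum_congr (by ext; simp [H56.Subsec.mem']) fun ψ hψ => ?_
  rw [show classInner (fun x : Subgroup.centralizer (Subgroup.zpowers u : Set G) => (χ : G → ℂ) x)
      (ψ : Subgroup.centralizer (Subgroup.zpowers u : Set G) → ℂ) = (H56.Subsec.mult u χ ψ : ℂ) from by
    convert H56.Subsec.classInner_mult u χ ψ,
    show scal ψ ⟨u, hu'⟩ = H56.Subsec.scal u ψ from rfl]
  congr 1
  by_cases hs : p ∣ orderOf s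
  · rw [H42.regRes_of_singular hs, H42.regRes_of_singular hs]
  · rw [H42.regRes_of_regular hs, H42.regRes_of_regular hs]
    exact hb.regular ψ (by simpa [H56.Subsec.mem'] using hψ) s hs

/-- No decomposition number vanishes. -/
theorem W_ne_zero {χ : IrrCharacter G} (hχ : χ ∈ B) {u : G} (hu : u ∈ P) (hu1 : u ≠ 1) :
    h.W χ u ≠ 0 := by
  classical
  have := Fintype.ofFinite G
  have hM := h.modular
  have := H41.IsPModular.charP hM
  have hS := H22.split M G
  obtain ⟨hb, hle, hcard⟩ := h.isLocal_blk (Subgroup.zpowers_le.2 hu) (h.zpowers_ne_bot hu1)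
  have hbel : Below (elTop M B) (Subgroup.zpowers u,
      el M (Subgroup.centralizer (Subgroup.zpowers u : Set G)) (h.blk (Subgroup.zpowers u))) :=
    (hle.below_iff (H22.isBlockEl_elTop h.block)).2 h.max.below
  have hind : IsInducedBlock M (H56.Subsec.CZ u) (h.blk (Subgroup.zpowers u)) B :=
    (H40.isInducedBlock_iff_below hM h.block (h.pGroup.to_le (Subgroup.zpowers_le.2 hu))
      (by rw [H40.centralizer_zpowers_eq, Subgroup.zpowers_le, Subgroup.mem_centralizer_singleton_iff])
      _ rfl hb.block).2 hbel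
  have hbd : blockDefect p (h.blk (Subgroup.zpowers u)) = blockDefect p B := by
    refine Nat.pow_right_injective (Fact.out : p.Prime).two_le ?_
    show p ^ _ = p ^ _
    rw [← hb.card, hcard, H40.card_defectGroup hM h.block ((H22.isDefectGroup_top_iff hM h.block).2
      (h.max.isDefEl hS (H22.isBlockEl_elTop h.block)))]
  obtain ⟨χ₀, hχ₀, h00⟩ := H41.exists_height_zero (p := p) (H41.IsPBlock.nonempty h.block)
  have hne : H56.Subsec.bpart p u (h.blk (Subgroup.zpowers u)) χ ≠ 0 := by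
    intro h0
    have hc : H56.Subsec.cont p u (h.blk (Subgroup.zpowers u)) χ₀ χ 1 = 0 := by
      rw [H56.Subsec.cont_one_eq hind.1]
      simp [h0]
    refine (H56.Subsec.res_redCont_eq_zero_iff hM (h.exists_orderOf hu) hind hbd hχ₀ hχ).1 ?_ h00
    rw [show (⟨_, H41.isIntegral_mem_localRing
      (H56.Subsec.isIntegral_redCont hM (h.exists_orderOf hu) hind hbd χ₀ hχ)⟩ : localRing M) = 0 from
      Subtype.ext (by simp [H56.Subsec.redCont, hc]), map_zero]
  intro hW
  refine hne (funext fun s => ?_)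
  rw [h.bpart_eq χ hu hu1, hW, zero_mul]
  rfl

end Ctx

end Cfsg.Agent.H56.FD
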