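import Cfsg.Agent.H56.FreeDefectIdem
import Cfsg.Agent.H40.AbelianSubsections
import Cfsg.Agent.H40.NilpotentBlocks
import Cfsg.Agent.H40.StarIntComb
import Cfsg.Agent.H22.PairExtra
import Cfsg.Agent.H26.CharLinear
import Cfsg.Agent.H22.PairNilpotentDict
import Cfsg.Agent.H43.D1.ModP

/-!
# The source idempotent of a block with abelian defect group and free inertial action
-/

set_option autoImplicit false
set_option linter.unusedSectionVars false

open scoped ComplexConjugate

namespace Cfsg.Agent.H56.FD

open Cfsg MonoidAlgebra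
open Cfsg.Agent.H41 (ResField localRing res groupAlgCenter)
open Cfsg.Agent.H22 (Supp Inv cut cj red trc elTop el IsPairEl IsMaxEl IsBlockEl Below PLe NSub cS
  pairStab invAlg)
open Cfsg.Agent.H22.AlgPoints

variable {M : Ideal AlgInt} [M.IsMaximal] {p : ℕ} [Fact p.Prime]

section RankOne

variable {K : Type*} [Group K] [Finite K]

/-- A block all whose members agree with `θ` on the regular elements, as many as its defect
allows. -/
structure RankOne (p : ℕ) (M : Ideal AlgInt) (b : Set (IrrCharacter K)) (θ : IrrCharacter K) :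
    Prop where
  block : IsPBlock M b
  mem : θ ∈ b
  regular : ∀ ψ ∈ b, ∀ g : K, ¬ p ∣ orderOf g → (ψ : K → ℂ) g = (θ : K → ℂ) g
  card : Nat.card b = p ^ blockDefect p b

/-- The weight of a class function at the central element `u`. -/
noncomputable def wgt [Fintype K] (b : Set (IrrCharacter K)) (φ : K → ℂ) (u : K) : ℂ :=
  open scoped Classical in
  ∑ ψ ∈ Finset.univ.filter (· ∈ b), classInner φ (ψ : K → ℂ) * scal ψ u

variable {b : Set (IrrCharacter K)} {θ : IrrCharacter K} (hb : RankOne p M b θ)
  (hM : IsPModular p M)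

include hb

theorem RankOne.one_eq {ψ : IrrCharacter K} (hψ : ψ ∈ b) :
    (ψ : K → ℂ) 1 = (θ : K → ℂ) 1 :=
  hb.regular ψ hψ 1 (by rw [orderOf_one]; exact (Fact.out : p.Prime).not_dvd_one)

include hM

open scoped Classical in
/-- Values at idempotents of the block. -/
theorem RankOne.trc_one_irr [Fintype K] (ψ : IrrCharacter K)
    {i : MonoidAlgebra (localRing M) K} (hi : i * i = i) (ha : red M K i * elTop M b = red M K i) :
    trc (ψ : K → ℂ) 1 i = if ψ ∈ b then trc (θ : K → ℂ) 1 i else 0 := by
  split_ifs with h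
  · exact trc_one_congr (p := p) hM hi (H26.irr_isClassFunction ψ) (H26.irr_isClassFunction θ)
      (hb.regular ψ h)
  · exact trc_eq_zero_of_absorb (p := p) hM hb.block h (j := 0) (by simp) hi (inv_zpowers_one i) ha

open scoped Classical in
/-- The value of a character at a central element times an idempotent of the block. -/
theorem RankOne.eval [Fintype K] {u : K} (hu : ∀ g, Commute u g) {φ : K → ℂ}
    (hφ : IsClassFunction K φ) {i : MonoidAlgebra (localRing M) K} (hi : i * i = i)
    (ha : red M K i * elTop M b = red M K i) :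
    trc φ u i = trc (θ : K → ℂ) 1 i * wgt b φ u := by
  have e : trc φ u i = ∑ ψ : IrrCharacter K, classInner φ (ψ : K → ℂ) * trc (ψ : K → ℂ) u i := by
    simp only [H22.trc_apply, Finset.mul_sum]
    rw [Finset.sum_comm]
    refine Finset.sum_congr rfl fun x _ => ?_
    have := congrFun (H26.class_function_expansion φ hφ) (x * u)
    simp only [Finset.sum_apply, Pi.smul_apply, smul_eq_mul] at this
    conv_lhs => rw [this, Finset.mul_sum]
    exact Finset.sum_congr rfl fun ψ _ => by ring
  rw [e, wgt, Finset.mul_sum, Finset.sum_filter]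
  refine Finset.sum_congr rfl fun ψ _ => ?_
  rw [trc_central hu, hb.trc_one_irr hM ψ hi ha]
  split_ifs <;> ring

/-- The common factor of the coefficients. -/
theorem RankOne.const_mem :
    (Nat.card b : ℂ) * (θ : K → ℂ) 1 / (Nat.card K : ℂ) ∈ localRing M := by
  have := H41.IsPModular.charP hM
  have hp := (Fact.out : p.Prime)
  have h := H42.factorization_degree_add_defect (p := p) hb.block hb.mem
  set d := charDegree (θ : K → ℂ) with hd
  have hd0 : d ≠ 0 := (H42.charDegree_pos θ).ne'
  set v := (Nat.card K).factorization p with hv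
  set r := Nat.card K / p ^ v with hr
  have hK : p ^ v * r = Nat.card K :=
    Nat.ordProj_mul_ordCompl_eq_self _ p
  have hdiv : p ^ v ∣ Nat.card b * d := by
    refine Dvd.dvd.trans ?_ (mul_dvd_mul_left _ (Nat.ordProj_dvd d p))
    rw [hb.card, ← pow_add]
    exact pow_dvd_pow p (by omega)
  obtain ⟨t, ht⟩ := hdiv
  have e : (Nat.card b : ℂ) * (θ : K → ℂ) 1 / (Nat.card K : ℂ) = (t : ℂ) * (r : ℂ)⁻¹ := by
    rw [H42.irr_one_eq θ, ← hd, ← Nat.cast_mul, ht, ← hK, Nat.cast_mul, Nat.cast_mul,
      div_eq_mul_inv]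
    have h1 : ((p ^ v : ℕ) : ℂ) ≠ 0 :=
      Nat.cast_ne_zero.2 (pow_ne_zero _ hp.ne_zero)
    field_simp
  rw [e]
  exact mul_mem (natCast_mem _ _)
    (H22.inv_natCast_mem_localRing hM (Nat.not_dvd_ordCompl hp Nat.card_pos.ne'))

/-- The common factor, in the local ring. -/
noncomputable def RankOne.c₀ : localRing M :=
  ⟨_, hb.const_mem hM⟩

theorem RankOne.res_coeff_regular {g : K} (hg : ¬ p ∣ orderOf g) :
    (elTop M b).coeff g = res M (hb.c₀ hM) *
      res M ⟨_, char_mem_localRing (M := M) (H26.irr_isCharacter θ) g⁻¹⟩ := by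
  classical
  have := Fintype.ofFinite K
  rw [H22.coeff_elTop, H22.resT_of_mem (H41.blockCoeff_mem hb.block _), ← map_mul]
  refine congrArg (res M) (Subtype.ext ?_)
  show blockCoeff b g = (Nat.card b : ℂ) * (θ : K → ℂ) 1 / (Nat.card K : ℂ) * (θ : K → ℂ) g⁻¹
  rw [H40.blockCoeff_eq_sum, H26.irr_inv, Finset.sum_congr rfl fun ψ hψ => by
    rw [hb.one_eq (Finset.mem_filter.1 hψ).2, hb.regular ψ (Finset.mem_filter.1 hψ).2 g hg],
    Finset.sum_const, nsmul_eq_mul, ← Fintype.card_subtype, ← Nat.card_eq_fintype_card]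
  rw [show Nat.card {x // x ∈ b} = Nat.card b from rfl]
  ring

/-- Some regular value and the common factor are units. -/
theorem RankOne.exists_unit_value : res M (hb.c₀ hM) ≠ 0 ∧
    ∃ s : K, ¬ p ∣ orderOf s ∧
      res M ⟨_, char_mem_localRing (M := M) (H26.irr_isCharacter θ) s⟩ ≠ 0 := by
  obtain ⟨g, hg⟩ : ∃ g, (elTop M b).coeff g ≠ 0 := by
    by_contra! h
    exact (H22.isBlockEl_elTop hb.block).ne_zero (H40.ext_coeff fun g => by simp [h g])
  have hreg : ¬ p ∣ orderOf g := fun h => hg (by
    rw [H22.coeff_elTop, H40.blockCoeff_eq_zero_of_singular hM hb.block h, H22.resT_zero])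
  rw [hb.res_coeff_regular hM hreg] at hg
  exact ⟨left_ne_zero_of_mul hg, g⁻¹, by rwa [orderOf_inv], right_ne_zero_of_mul hg⟩

/-- The coefficient at the identity of an idempotent of the block. -/
theorem RankOne.coeff_one [Fintype K] {i : MonoidAlgebra (localRing M) K} (hi : i * i = i)
    (ha : red M K i * elTop M b = red M K i) {n : ℕ} (hn : trc (θ : K → ℂ) 1 i = n) :
    (red M K i).coeff 1 = res M (hb.c₀ hM) * (n : ResField M) := by
  classical
  rw [H22.coeff_red, ← map_natCast (res M), ← map_mul]
  refine congrArg (res M) (Subtype.ext ?_)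
  show ((i.coeff 1 : localRing M) : ℂ) = (Nat.card b : ℂ) * (θ : K → ℂ) 1 / (Nat.card K : ℂ) * _
  rw [show (((n : localRing M)) : ℂ) = (n : ℂ) from map_natCast (localRing M).subtype n]
  have h : ∑ ψ : IrrCharacter K, (ψ : K → ℂ) 1 * trc (ψ : K → ℂ) 1 i =
      (Nat.card K : ℂ) * (i.coeff 1 : ℂ) := by
    simp only [trc_one_apply, Finset.mul_sum]
    rw [Finset.sum_comm, Finset.sum_eq_single 1]
    · have := congrFun (H26.char_leftRegular_eq_sum (G := K)) 1
      rw [H26.char_leftRegular, if_pos rfl, Finset.sum_apply] at this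
      simp only [Pi.smul_apply, smul_eq_mul] at this
      rw [this, Finset.sum_mul]
      exact Finset.sum_congr rfl fun ψ _ => by ring
    · intro x _ hx
      have := congrFun (H26.char_leftRegular_eq_sum (G := K)) x
      rw [H26.char_leftRegular, if_neg hx, Finset.sum_apply] at this
      simp only [Pi.smul_apply, smul_eq_mul] at this
      calc ∑ ψ : IrrCharacter K, (ψ : K → ℂ) 1 * ((i.coeff x : ℂ) * (ψ : K → ℂ) x)
          = (i.coeff x : ℂ) * ∑ ψ : IrrCharacter K, (ψ : K → ℂ) 1 * (ψ : K → ℂ) x := by
            rw [Finset.mul_sum]; exact Finset.sum_congr rfl fun ψ _ => by ring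
        _ = 0 := by rw [← this, mul_zero]
    · simp
  rw [Finset.sum_congr rfl fun ψ _ => by rw [hb.trc_one_irr hM ψ hi ha, mul_ite, mul_zero],
    ← Finset.sum_filter, Finset.sum_congr rfl fun ψ hψ => by
      rw [hb.one_eq (Finset.mem_filter.1 hψ).2, hn],
    Finset.sum_const, nsmul_eq_mul, ← Fintype.card_subtype, ← Nat.card_eq_fintype_card] at h
  have hK : (Nat.card K : ℂ) ≠ 0 := Nat.cast_ne_zero.2 Nat.card_pos.ne'
  field_simp
  rw [show Nat.card {x // x ∈ b} = Nat.card b from rfl] at h
  linear_combination -h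

/-- A block of rank one has one point. -/
theorem RankOne.eqv [Fintype K] {E E' : MonoidAlgebra (ResField M) K} (hE : IsPrimIdem E)
    (hE' : IsPrimIdem E') (he : E * elTop M b = E) (he' : E' * elTop M b = E') :
    Eqv E E' ∧ ∀ i : MonoidAlgebra (localRing M) K, i * i = i → red M K i = E →
      ∀ n : ℕ, trc (θ : K → ℂ) 1 i = n → ¬ p ∣ n := by
  classical
  have := H41.IsPModular.charP hM
  have : IsAlgClosed (ResField M) := H43.D1.isAlgClosed_resField M
  set e := elTop M b with hedef
  have hblk := H22.isBlockEl_elTop (M := M) hb.block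
  have hec : ∀ x, e * x = x * e := fun x => hblk.cent.comm (fun y _ => Subgroup.mem_top y)
  let rp : K → K := fun g => (H22.pp p g)⁻¹ * g
  have hrp : ∀ g, g = H22.pp p g * rp g ∧ Commute (H22.pp p g) (rp g) ∧ ¬ p ∣ orderOf (rp g) := by
    intro g
    obtain ⟨y, h1, h2, -, h4⟩ := H22.isPPart_pp p g
    have : rp g = y := by simp only [rp]; nth_rewrite 2 [← h1]; rw [inv_mul_cancel_left]
    exact ⟨by simp [rp], this ▸ h2, this ▸ h4⟩
  have hrpc : ∀ x g, rp (x * g * x⁻¹) = x * rp g * x⁻¹ := fun x g => by
    simp only [rp, H22.pp_conj]; group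
  have hrpr : ∀ g, ¬ p ∣ orderOf g → rp g = g := fun g hg => by
    simp [rp, pp_regular hg]
  obtain ⟨hc0, s, hs, hsθ⟩ := hb.exists_unit_value hM
  -- the residual character
  let Θ : K → localRing M := fun g =>
    ⟨_, char_mem_localRing (M := M) (H26.irr_isCharacter θ) (rp g)⟩
  let F : MonoidAlgebra (ResField M) K → ResField M := fun x => ∑ g : K, x.coeff g * res M (Θ g)
  -- every trace functional supported on the block is a multiple of it
  have key : ∀ T : MonoidAlgebra (ResField M) K →ₗ[ResField M] ResField M,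
      IsTraceLike (ResField M) T → ∃ c, ∀ x, T (e * x) = c * F x := by
    intro T hT
    let τ : K → ResField M := fun g => T (e * MonoidAlgebra.of (ResField M) K g)
    have hstep : ∀ g, τ g = τ (rp g) := by
      intro g
      obtain ⟨h1, h2, -⟩ := hrp g
      have hz : IsNilpotent (e * MonoidAlgebra.of (ResField M) K g -
          e * MonoidAlgebra.of (ResField M) K (rp g)) := by
        have e1 : e * MonoidAlgebra.of (ResField M) K g - e * MonoidAlgebra.of (ResField M) K (rp g) =
            (e * MonoidAlgebra.of (ResField M) K (rp g)) *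
              (MonoidAlgebra.of (ResField M) K (H22.pp p g) - 1) := by
          rw [mul_sub, mul_one, mul_assoc, ← map_mul, ← h2.eq, ← h1]
        rw [e1]
        refine Commute.isNilpotent_mul_left ?_ ?_
        · refine Commute.mul_left (hec _) ?_
          exact Commute.sub_right ((h2.symm).map (MonoidAlgebra.of (ResField M) K)) (Commute.one_right _)
        · obtain ⟨-, -, -, ⟨j, hj⟩, -⟩ := H22.isPPart_pp p g
          refine ⟨p ^ j, ?_⟩
          have : CharP (MonoidAlgebra (ResField M) K) p :=
            charP_of_injective_algebraMap (algebraMap (ResField M) _).injective p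
          rw [sub_pow_char_pow_of_commute (p := p) _ (Commute.one_right _), one_pow, ← map_pow, ← hj,
            pow_orderOf_eq_one, map_one, sub_self]
      have := hT.nilp _ hz
      rwa [map_sub, sub_eq_zero] at this
    have hτc : ∀ x g, τ (x * g * x⁻¹) = τ g := by
      intro x g
      simp only [τ]
      rw [map_mul (MonoidAlgebra.of (ResField M) K), map_mul (MonoidAlgebra.of (ResField M) K),
        ← mul_assoc, hT.comm, ← mul_assoc, ← mul_assoc, ← hec,
        mul_assoc e, ← map_mul (MonoidAlgebra.of (ResField M) K), inv_mul_cancel,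
        map_one (MonoidAlgebra.of (ResField M) K), mul_one]
    have hlin : ∀ x, T (e * x) = ∑ g : K, x.coeff g * τ g := by
      intro x
      conv_lhs => rw [H40.eq_sum_single x, Finset.mul_sum, map_sum]
      refine Finset.sum_congr rfl fun g _ => ?_
      rw [show MonoidAlgebra.single g (x.coeff g) =
        x.coeff g • MonoidAlgebra.of (ResField M) K g by simp, mul_smul_comm, map_smul, smul_eq_mul]
    choose lf hlf using H41.res_surjective (M := M)
    let Φ : K → ℂ := fun g => ((lf (τ (rp g)) : localRing M) : ℂ)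
    have hΦ : IsClassFunction K Φ := fun g x => by simp only [Φ, hrpc, hτc]
    let A : ℂ := ∑ ψ ∈ Finset.univ.filter (· ∈ b), classInner Φ (ψ : K → ℂ)
    let S : K → localRing M := fun g =>
      ∑ z : K, ⟨_, H41.blockCoeff_mem hb.block z⟩ * lf (τ (rp (z * g)))
    have hS : ∀ g, ¬ p ∣ orderOf g → (S g : ℂ) = A * (θ : K → ℂ) g ∧ res M (S g) = τ g := by
      intro g hg
      refine ⟨?_, ?_⟩
      · simp only [S, AddSubmonoidClass.coe_finsetSum, MulMemClass.coe_mul, A, Finset.sum_mul]
        have hx : ∀ z, ((lf (τ (rp (z * g))) : localRing M) : ℂ) =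
            ∑ ψ : IrrCharacter K, classInner Φ (ψ : K → ℂ) * (ψ : K → ℂ) (z * g) := fun z => by
          have := congrFun (H26.class_function_expansion Φ hΦ) (z * g)
          simp only [Finset.sum_apply, Pi.smul_apply, smul_eq_mul] at this
          exact this
        simp only [hx, Finset.mul_sum]
        rw [Finset.sum_comm, Finset.sum_filter]
        refine Finset.sum_congr rfl fun ψ _ => ?_
        calc ∑ z : K, blockCoeff b z * (classInner Φ (ψ : K → ℂ) * (ψ : K → ℂ) (z * g))
            = classInner Φ (ψ : K → ℂ) * ∑ z : K, blockCoeff b z * (ψ : K → ℂ) (z * g) := by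
              rw [Finset.mul_sum]; exact Finset.sum_congr rfl fun z _ => by ring
          _ = _ := by
              rw [H40.sum_blockCoeff_mul_irr]
              split_ifs with h <;> [rw [hb.regular ψ h g hg]; simp]
      · simp only [S, map_sum, map_mul, hlf, ← hstep]
        have hex : T (e * (e * MonoidAlgebra.of (ResField M) K g)) = τ g := by
          rw [← mul_assoc, hblk.idem]
        rw [← hex, hlin]
        symm
        refine Fintype.sum_equiv (Equiv.mulRight g⁻¹) _ _ fun z => ?_
        simp [H22.coeff_elTop, hedef, H22.resT_of_mem (H41.blockCoeff_mem hb.block _)]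
    have hA : A ∈ localRing M := by
      obtain ⟨h1, -⟩ := hS s hs
      obtain ⟨w, hw⟩ := ((H22.isUnit_iff_res_ne_zero _).2 hsθ).exists_right_inv
      have hw' : (θ : K → ℂ) s * (w : ℂ) = 1 := by
        simpa using congrArg (fun z : localRing M => (z : ℂ)) hw
      rw [show A = (S s : ℂ) * (w : ℂ) by rw [h1, mul_assoc, hw', mul_one]]
      exact mul_mem (S s).2 w.2
    refine ⟨res M ⟨A, hA⟩, fun x => ?_⟩
    rw [hlin, Finset.mul_sum]
    refine Finset.sum_congr rfl fun g _ => ?_
    obtain ⟨h1, h2⟩ := hS (rp g) (hrp g).2.2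
    rw [hstep g, ← h2, show S (rp g) = ⟨A, hA⟩ * Θ g from Subtype.ext h1, map_mul]
    ring
  obtain ⟨c₁, h₁⟩ := key _ (tr_traceLike (k := ResField M) hE)
  obtain ⟨c₂, h₂⟩ := key _ (tr_traceLike (k := ResField M) hE')
  have heE : e * E = E := by rw [hec, he]
  have heE' : e * E' = E' := by rw [hec, he']
  have hE1 : c₁ * F E = 1 := by rw [← h₁, heE, tr_self]
  refine ⟨?_, fun i hi hie n hn hdvd => ?_⟩
  · by_contra hne
    have a1 : c₁ * F E' = 0 := by rw [← h₁, heE', tr_of_not_eqv _ hE' hne]
    have a2 : c₂ * F E' = 1 := by rw [← h₂, heE', tr_self]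
    rcases mul_eq_zero.1 a1 with h | h
    · rw [h, zero_mul] at hE1; exact zero_ne_one hE1
    · rw [h, mul_zero] at a2; exact zero_ne_one a2
  · have hF : F E = (n : ResField M) := by
      have e2 : (∑ g : K, i.coeff g * Θ g : localRing M) = (n : localRing M) := by
        refine Subtype.ext ?_
        rw [show (((n : localRing M)) : ℂ) = (n : ℂ) from map_natCast (localRing M).subtype n, ← hn,
          trc_one_apply]
        simp only [AddSubmonoidClass.coe_finsetSum, MulMemClass.coe_mul, Θ]
        refine sub_eq_zero.1 ?_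
        rw [← Finset.sum_sub_distrib]
        simp only [← mul_sub]
        refine sum_mul_eq_zero_of_singular (p := p) hM hi (fun g x => ?_) fun g hg => ?_
        · simp only [hrpc, H26.irr_conj]
        · rw [hrpr g hg, sub_self]
      simp only [F, ← hie, H22.coeff_red, ← map_mul, ← map_sum, e2, map_natCast]
    rw [hF, (CharP.cast_eq_zero_iff (ResField M) p n).2 hdvd, mul_zero] at hE1
    exact zero_ne_one hE1

end RankOne

variable {G : Type*} [Group G] [Finite G]

/-- A block of `C(Y)` below the maximal pair, of rank one. -/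
def IsLocal (p : ℕ) (M : Ideal AlgInt) [M.IsMaximal] (P : Subgroup G)
    (ε : MonoidAlgebra (ResField M) G) (Y : Subgroup G)
    (b : Set (IrrCharacter (Subgroup.centralizer (Y : Set G))))
    (θ : IrrCharacter (Subgroup.centralizer (Y : Set G))) : Prop :=
  RankOne p M b θ ∧ PLe p ⊤ (Y, el M (Subgroup.centralizer (Y : Set G)) b) (P, ε) ∧
    Nat.card b = Nat.card P

/-- A block with abelian defect group, free inertial action, and a source idempotent. -/
structure Ctx (p : ℕ) [Fact p.Prime] (M : Ideal AlgInt) [M.IsMaximal]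
    (B : Set (IrrCharacter G)) (P : Subgroup G) (ε j : MonoidAlgebra (ResField M) G) : Prop where
  modular : IsPModular p M
  block : IsPBlock M B
  max : IsMaxEl p ⊤ (elTop M B) (P, ε)
  comm : ∀ x ∈ P, ∀ y ∈ P, x * y = y * x
  free : ∀ g ∈ pairStab P ε, ∀ x ∈ P, x ≠ 1 → g * x * g⁻¹ = x →
    g ∈ Subgroup.centralizer (P : Set G)
  idem : j * j = j
  inv : Inv P j
  absorb : ∀ (Q : Subgroup G) (f : MonoidAlgebra (ResField M) G), PLe p ⊤ (Q, f) (P, ε) →
    cut (Subgroup.centralizer (Q : Set G)) j * f = cut (Subgroup.centralizer (Q : Set G)) j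
  belongs : j * elTop M B = j
  eqv : ∀ t ∈ pairStab P ε, ∃ a b, Inv P a ∧ Inv P b ∧ a * b = j ∧ b * a = cj t j
  coeff_one : j.coeff 1 ≠ 0

/-- Below the maximal pair the blocks are nilpotent of rank one. -/
theorem exists_isLocal (hM : IsPModular p M) {B : Set (IrrCharacter G)} (hB : IsPBlock M B)
    {P : Subgroup G} {ε : MonoidAlgebra (ResField M) G} (hm : IsMaxEl p ⊤ (elTop M B) (P, ε))
    (hab : ∀ x ∈ P, ∀ y ∈ P, x * y = y * x)
    (hfree : ∀ g ∈ pairStab P ε, ∀ x ∈ P, x ≠ 1 → g * x * g⁻¹ = x →
      g ∈ Subgroup.centralizer (P : Set G))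
    {Y : Subgroup G} (hY : Y ≤ P) (hY1 : Y ≠ ⊥) :
    ∃ b θ, IsLocal p M P ε Y b θ := by
  classical
  have := H41.IsPModular.charP hM
  have hS := H22.split M G
  have hPC : P ≤ Subgroup.centralizer (P : Set G) := fun y hy =>
    Subgroup.mem_centralizer_iff.2 fun q hq => hab q hq y hy
  obtain ⟨f, hf, -⟩ := H22.existsUnique_ple hS hm.pair Y hY
  obtain ⟨hns, hmH⟩ := H40.isMaxEl_local hM hB hm hab hf
  have hfC : IsBlockEl (Subgroup.centralizer (Y : Set G)) f := by simpa using hns.left.block
  obtain ⟨b, hb, rfl⟩ := H22.exists_el_eq hfC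
  have hnil : IsNilpotentBlock p M b := by
    refine H22.isNilpotentBlock_sub hb fun R g hR hRb x hxH hxN hxg _ => ?_
    obtain ⟨h, hh, hle⟩ := H22.exists_conj_ple hS hfC hR hRb hmH
    dsimp only at hle
    set R' := cS h R with hR'
    have hR'P : R' ≤ P := hle.le
    have hnsH : NSub p (Subgroup.centralizer (Y : Set G)) (R', cj h g) (P, ε) :=
      hle.nsub hS hmH.pair (hPC.trans ((Subgroup.centralizer_le (SetLike.coe_subset_coe.2 hR'P)).trans
        (Subgroup.centralizer_le_normalizer _)))
    have hR'b : Below (el M (Subgroup.centralizer (Y : Set G)) b) (R', cj h g) :=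
      (hle.below_iff hfC).2 hmH.below
    have hns1 := H22.nsub_join hns.left hnsH.left hR'b
    have hns2 : NSub p ⊤ (Y ⊔ R', cj h g) (P, ε) :=
      ⟨hns1.right, hm.pair, sup_le hY hR'P,
        (hPC.trans (Subgroup.centralizer_le (SetLike.coe_subset_coe.2 (sup_le hY hR'P)))).trans
          (Subgroup.centralizer_le_normalizer _), hnsH.inv, hnsH.occ⟩
    have hy : h * x * h⁻¹ ∈ pairStab (Y ⊔ R') (cj h g) := by
      have hxQ : x ∈ Subgroup.normalizer ((Y ⊔ R : Subgroup G) : Set G) := H22.mem_normalizer_of_cS (by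
        rw [show cS x (Y ⊔ R) = cS x Y ⊔ cS x R from Subgroup.map_sup _ _ _,
          H22.cS_eq_self (Subgroup.centralizer_le_normalizer _ hxH), H22.cS_eq_self hxN])
      have h1 : cS h (Y ⊔ R) = Y ⊔ R' := by
        rw [show cS h (Y ⊔ R) = cS h Y ⊔ cS h R from Subgroup.map_sup _ _ _,
          H22.cS_eq_self (Subgroup.centralizer_le_normalizer _ hh)]
      rw [← h1, ← H22.cS_pairStab]
      exact H22.conj_mem_cS ⟨hxQ, hxg⟩
    obtain ⟨y, hy', c', hc', hyc⟩ := H22.exists_factor_abelian hS (H22.isBlockEl_elTop hB) hm hab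
      (Relation.ReflTransGen.single hns2) hy
    obtain ⟨⟨a, ha⟩, ha0⟩ := (Subgroup.ne_bot_iff_exists_ne_one.1 hY1)
    have ha1 : a ≠ 1 := fun h => ha0 (Subtype.ext h)
    have hyQ : y ∈ Subgroup.centralizer (Y : Set G) := by
      rw [show y = h * x * h⁻¹ * c'⁻¹ by rw [hyc, mul_inv_cancel_right]]
      exact mul_mem (mul_mem (mul_mem hh hxH) (inv_mem hh))
        (inv_mem (Subgroup.centralizer_le (SetLike.coe_subset_coe.2 le_sup_left) hc'))
    have hyP : y ∈ Subgroup.centralizer (P : Set G) := by
      refine hfree y hy' a (hY ha) ha1 ?_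
      rw [← Subgroup.mem_centralizer_iff.1 hyQ a ha, mul_inv_cancel_right]
    have hgx : h * x * h⁻¹ ∈ Subgroup.centralizer (R' : Set G) := by
      rw [hyc]
      exact mul_mem (Subgroup.centralizer_le (SetLike.coe_subset_coe.2 hR'P) hyP)
        (Subgroup.centralizer_le (SetLike.coe_subset_coe.2 le_sup_right) hc')
    rw [hR', ← H22.cS_centralizer] at hgx
    simpa [mul_assoc] using H22.mem_cS.1 hgx
  set P' := P.subgroupOf (Subgroup.centralizer (Y : Set G))
  have hD : IsDefectGroup p M b P' := (H22.isDefectGroup_subgroupOf_iff hM hb hmH.pair.le).2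
    (hmH.isDefEl hS (H22.isBlockEl_el hb))
  have := Fintype.ofFinite (Subgroup.centralizer (Y : Set G))
  obtain ⟨e', hm'⟩ := H40.NilpotentBlocks.exists_isMaxEl_of_defect hM hb hD
  obtain ⟨θ, hθ, h0, -⟩ := H42.exists_height_zero (p := p) hb
  have := Fintype.ofFinite P'
  obtain ⟨Φ, hreg, -⟩ := H40.NilpotentBlocks.exists_equiv hnil hm'
    (H40.NilpotentBlocks.starInt hM hb hm') hM hD hθ h0
  have hP'c : ∀ x y : P', x * y = y * x := fun x y =>
    Subtype.ext (Subtype.ext (hab _ x.2 _ y.2))
  have hdeg : ∀ l : IrrCharacter P', charDegree (l : P' → ℂ) = 1 := by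
    intro l
    have h := H26.irr_one_eq_one_of_comm hP'c l
    rw [H42.irr_one_eq] at h
    exact_mod_cast h
  have hcard : Nat.card b = Nat.card P' := by
    rw [Nat.card_congr Φ]
    have h := H26.sum_sq_degrees (G := P')
    simp only [H26.irr_one_eq_one_of_comm hP'c, one_pow, Finset.sum_const, Finset.card_univ,
      nsmul_eq_mul, mul_one] at h
    rw [Nat.card_eq_fintype_card]
    exact_mod_cast h
  have hPP : Nat.card P' = Nat.card P :=
    Nat.card_congr (Subgroup.subgroupOfEquivOfLe hmH.pair.le).toEquiv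
  refine ⟨b, θ, ⟨hb, hθ, fun ψ hψ g hg => ?_, by rw [hcard, H40.card_defectGroup hM hb hD]⟩, hf,
    hcard.trans hPP⟩
  rw [hreg ⟨ψ, hψ⟩ g hg, hdeg, Nat.cast_one, one_mul]


section Source

variable {R : Type*} [CommRing R] (C : Subgroup G)

/-- An element of the algebra of a subgroup, in the algebra of the group. -/
noncomputable def push (x : MonoidAlgebra R C) : MonoidAlgebra R G :=
  open scoped Classical in
  H40.ofFun fun g => if h : g ∈ C then x.coeff ⟨g, h⟩ else 0

theorem pull_push (x : MonoidAlgebra R C) : pull C.subtype (push C x) = x :=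
  H40.ext_coeff fun g => by
    rw [coeff_pull, push, H40.coeff_ofFun, dif_pos (show C.subtype g ∈ C from g.2)]
    rfl

variable {k : Type*} [Field k] {C}

theorem supp_push (x : MonoidAlgebra k C) : Supp C (push C x) := fun g hg => by
  by_contra h
  exact hg (by rw [push, H40.coeff_ofFun, dif_neg h])

theorem pull_inj {a a' : MonoidAlgebra k G} (ha : Supp C a) (ha' : Supp C a')
    (h : pull C.subtype a = pull C.subtype a') : a = a' := H40.ext_coeff fun g => by
  by_cases hg : g ∈ C
  · have := congrArg (fun x : MonoidAlgebra k C => x.coeff ⟨g, hg⟩) h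
    simpa [coeff_pull] using this
  · rw [ha.coeff_eq_zero hg, ha'.coeff_eq_zero hg]

theorem pull_mul_sub {a : MonoidAlgebra k G} (ha : Supp C a) (b : MonoidAlgebra k G) :
    pull C.subtype (a * b) = pull C.subtype a * pull C.subtype b :=
  pull_mul C.subtype_injective (by rwa [C.range_subtype]) b

theorem push_mul (x y : MonoidAlgebra k C) : push C (x * y) = push C x * push C y :=
  pull_inj (supp_push _) ((supp_push x).mul (supp_push y)) (by
    rw [pull_mul_sub (supp_push x), pull_push, pull_push, pull_push])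

variable {p : ℕ} [Fact p.Prime] [CharP k p] [IsAlgClosed k]

/-- The Brauer image of a point is a point. -/
theorem isPrimIdem_pull_cut {U : Subgroup G} (hU : IsPGroup p U) {i : invAlg k U}
    (hi : IsPrimIdem i)
    (h0 : cut (Subgroup.centralizer (U : Set G)) (i : MonoidAlgebra k G) ≠ 0) :
    IsPrimIdem (pull (Subgroup.centralizer (U : Set G)).subtype
      (cut (Subgroup.centralizer (U : Set G)) (i : MonoidAlgebra k G))) := by
  set C := Subgroup.centralizer (U : Set G)
  set E := cut C (i : MonoidAlgebra k G)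
  have hE : Supp C E := H22.supp_cut _ _
  have hEE : E * E = E := by
    show H22.brHom hU i * H22.brHom hU i = H22.brHom hU i
    rw [← map_mul, hi.idem]
  refine ⟨by rw [← pull_mul_sub hE, hEE],
    fun h => h0 (pull_inj hE (fun x hx => absurd (by simp) hx) (by rw [h, map_zero])),
    fun f hf hfE => ?_⟩
  have hF : Supp C (push C f) := supp_push f
  have h1 : E * push C f = push C f :=
    pull_inj (hE.mul hF) hF (by rw [pull_mul_sub hE, pull_push, hfE.1])
  have h2 : push C f * E = push C f :=
    pull_inj (hF.mul hE) hF (by rw [pull_mul_sub hF, pull_push, hfE.2])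
  let F' : invAlg k U := ⟨push C f, H22.inv_of_supp_centralizer hF⟩
  have hc : H22.brHom hU (i * F' * i) = push C f := by
    rw [map_mul, map_mul, H22.brHom_apply, H22.brHom_apply, H22.cut_of_supp (show Supp C
      (F' : MonoidAlgebra k G) from hF)]
    show E * push C f * E = push C f
    rw [h1, h2]
  rcases isNilpotent_or_exists_inv k hi (inCorner_sandwich hi.idem F') with hn | ⟨y, -, hy, -⟩
  · left
    have := H22.isIdempotentElem_eq_zero_of_isNilpotent (by rw [← push_mul, hf])
      (hc ▸ hn.map (H22.brHom hU))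
    rw [← pull_push C f, this, map_zero]
  · right
    have h := congrArg (H22.brHom hU) hy
    rw [map_mul, hc, H22.brHom_apply, H22.brHom_apply] at h
    have : push C f = E := by
      calc push C f = push C f * E := h2.symm
        _ = push C f * (push C f * cut C (y : MonoidAlgebra k G)) := by rw [h]
        _ = E := by rw [← mul_assoc, ← push_mul, hf, h]
    rw [← this, pull_push]

end Source

/-- A source idempotent exists. -/
theorem exists_ctx (hM : IsPModular p M) {B : Set (IrrCharacter G)} (hB : IsPBlock M B)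
    {P : Subgroup G} {ε : MonoidAlgebra (ResField M) G} (hm : IsMaxEl p ⊤ (elTop M B) (P, ε))
    (hab : ∀ x ∈ P, ∀ y ∈ P, x * y = y * x)
    (hfree : ∀ g ∈ pairStab P ε, ∀ x ∈ P, x ≠ 1 → g * x * g⁻¹ = x →
      g ∈ Subgroup.centralizer (P : Set G))
    (hP1 : P ≠ ⊥) : ∃ j, Ctx p M B P ε j := by
  classical
  have := H41.IsPModular.charP hM
  have : IsAlgClosed (ResField M) := H43.D1.isAlgClosed_resField M
  have hS := H22.split M G
  have hU : IsPGroup p P := hm.pair.pGroup
  set C := Subgroup.centralizer (P : Set G)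
  have hεC : IsBlockEl C ε := by
    have := hm.pair.block
    rwa [H22.cen_top_ple] at this
  -- a point of the maximal pair
  obtain ⟨i, hi, hiε⟩ : ∃ i : invAlg (ResField M) P,
      IsPrimIdem i ∧ cut C (i : MonoidAlgebra (ResField M) G) * ε ≠ 0 := by
    by_contra! hno
    refine hεC.ne_zero ?_
    have := idem_induction (ResField M) (P := fun e : invAlg (ResField M) P =>
      cut C (e : MonoidAlgebra (ResField M) G) * ε = 0)
      (by simp) (fun f g _ _ _ _ hf hg => by rw [AddMemClass.coe_add, map_add, add_mul, hf, hg,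
        add_zero]) hno (e := 1) (one_mul 1)
    rwa [OneMemClass.coe_one, H22.cut_one, one_mul] at this
  have h0 : cut C (i : MonoidAlgebra (ResField M) G) ≠ 0 := fun h => hiε (by rw [h, zero_mul])
  obtain ⟨f, hf, hif⟩ := H22.exists_block_absorbing hS hU hi h0
  obtain rfl : f = ε := hf.eq_of_mul_ne_zero hεC fun h => hiε (by
    rw [← hif, mul_assoc, h, mul_zero])
  set j := (i : MonoidAlgebra (ResField M) G) with hj
  have hjj : j * j = j := congrArg Subtype.val hi.idem
  -- the block
  have hBel := H22.isBlockEl_elTop (M := M) hB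
  have hBc : ∀ x, elTop M B * x = x * elTop M B := fun x =>
    hBel.cent.comm (fun y _ => Subgroup.mem_top y)
  let Bi : invAlg (ResField M) P := ⟨elTop M B, fun g _ => hBel.cent.inv g (Subgroup.mem_top g)⟩
  have hjB : j * elTop M B = j := by
    have hcor : InCorner i (i * Bi) := ⟨by rw [← mul_assoc, hi.idem], by
      refine Subtype.ext ?_
      show j * elTop M B * j = j * elTop M B
      rw [mul_assoc, hBc, ← mul_assoc, hjj]⟩
    rcases hi.prim (i * Bi) (Subtype.ext (by
      show j * elTop M B * (j * elTop M B) = j * elTop M B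
      rw [mul_assoc, ← mul_assoc (elTop M B), hBc, mul_assoc j (elTop M B), hBel.idem,
        ← mul_assoc, hjj])) hcor with h | h
    · have e : cut C j * (cut C (elTop M B) * f) = cut C j * f := congrArg _ hm.below
      refine absurd ?_ hiε
      rw [← e, ← mul_assoc, ← H22.cut_mul hU i.2 Bi.2]
      have := congrArg Subtype.val h
      rw [MulMemClass.coe_mul, ZeroMemClass.coe_zero] at this
      rw [show j * elTop M B = 0 from this, map_zero, zero_mul]
    · exact congrArg Subtype.val h
  -- the block of rank one at the top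
  obtain ⟨b, θ, hb, hle, -⟩ := exists_isLocal hM hB hm hab hfree le_rfl hP1
  have hbε : el M C b = f := H22.ple_unique hS hm.pair hle Relation.ReflTransGen.refl
  have habs : ∀ E : MonoidAlgebra (ResField M) G, Supp C E → E * f = E →
      pull C.subtype E * elTop M b = pull C.subtype E := fun E hE h => by
    rw [← pull_el C b, hbε, ← pull_mul_sub hE, h]
  have := Fintype.ofFinite C
  have hEp := isPrimIdem_pull_cut hU hi h0
  refine ⟨j, ⟨hM, hB, hm, hab, hfree, hjj, i.2, H22.cut_mul_eq_of_ple hS hU hi h0 hεC hif, hjB,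
    fun t ht => ?_, ?_⟩⟩
  · -- conjugates of the point
    have htP : cS t P = P := H22.cS_eq_self ht.1
    have htC : cS t C = C := by rw [H22.cS_centralizer, htP]
    let σ : invAlg (ResField M) P → invAlg (ResField M) P := fun x =>
      ⟨cj t (x : MonoidAlgebra (ResField M) G), fun g hg => x.2.cj t g (htP.symm ▸ hg)⟩
    let σ' : invAlg (ResField M) P → invAlg (ResField M) P := fun x =>
      ⟨cj t⁻¹ (x : MonoidAlgebra (ResField M) G), fun g hg =>
        x.2.cj t⁻¹ g ((H22.cS_eq_self (inv_mem ht.1)).symm ▸ hg)⟩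
    let i' := σ i
    set j' := cj t j with hj'
    have hj'j' : j' * j' = j' := by rw [hj', ← map_mul, hjj]
    have hi' : IsPrimIdem i' := by
      refine ⟨Subtype.ext hj'j', fun h => hi.ne_zero (Subtype.ext ?_), fun x hx hxc => ?_⟩
      · have := congrArg Subtype.val h
        rw [show ((i' : invAlg (ResField M) P) : MonoidAlgebra (ResField M) G) = cj t j from rfl,
          ZeroMemClass.coe_zero] at this
        rw [ZeroMemClass.coe_zero]
        show j = 0
        rw [← H22.cj_inv_cj t j, this, map_zero]
      · have hx' : ∀ {a b c : invAlg (ResField M) P}, a * b = c → σ' a * σ' b = σ' c := fun h =>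
          Subtype.ext (by
            show cj t⁻¹ _ * cj t⁻¹ _ = cj t⁻¹ _
            rw [← map_mul, ← MulMemClass.coe_mul, h])
        have hσ : σ' i' = i := Subtype.ext (H22.cj_inv_cj t j)
        rcases hi.prim (σ' x) (hx' hx) ⟨hσ ▸ hx' hxc.1, hσ ▸ hx' hxc.2⟩ with h | h
        · left
          refine Subtype.ext ?_
          have := congrArg Subtype.val h
          rw [show ((σ' x : invAlg (ResField M) P) : MonoidAlgebra (ResField M) G) =
            cj t⁻¹ (x : MonoidAlgebra (ResField M) G) from rfl, ZeroMemClass.coe_zero] at this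
          rw [← H22.cj_cj_inv t (x : MonoidAlgebra (ResField M) G), this, map_zero,
            ZeroMemClass.coe_zero]
        · right
          refine Subtype.ext ?_
          have := congrArg Subtype.val h
          rw [show ((σ' x : invAlg (ResField M) P) : MonoidAlgebra (ResField M) G) =
            cj t⁻¹ (x : MonoidAlgebra (ResField M) G) from rfl] at this
          rw [← H22.cj_cj_inv t (x : MonoidAlgebra (ResField M) G), this]
    have hcut' : cut C j' = cj t (cut C j) := by rw [H22.cj_cut, htC]
    have h0' : cut C j' ≠ 0 := fun h => h0 (by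
      rw [← H22.cj_inv_cj t (cut C (i : MonoidAlgebra (ResField M) G)), ← hj, ← hcut', h, map_zero])
    have hE'p := isPrimIdem_pull_cut hU hi' h0'
    have hif' : cut C j' * f = cut C j' := by
      nth_rewrite 1 [← ht.2]
      rw [hcut', ← map_mul, hif]
    obtain ⟨⟨a, b', hab', hba'⟩, -⟩ := hb.eqv hM hEp hE'p (habs _ (H22.supp_cut _ _) hif)
      (habs _ (H22.supp_cut _ _) hif')
    set E := cut C j with hE
    set E' := cut C j' with hE'
    have e1 : push C a * push C b' = E := pull_inj ((supp_push a).mul (supp_push b'))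
      (H22.supp_cut _ _) (by rw [pull_mul_sub (supp_push a), pull_push, pull_push, hab'])
    have e2 : push C b' * push C a = E' := pull_inj ((supp_push b').mul (supp_push a))
      (H22.supp_cut _ _) (by rw [pull_mul_sub (supp_push b'), pull_push, pull_push, hba'])
    let A : invAlg (ResField M) P := ⟨push C a, H22.inv_of_supp_centralizer (supp_push a)⟩
    let A' : invAlg (ResField M) P := ⟨push C b', H22.inv_of_supp_centralizer (supp_push b')⟩
    set x := i * A * i' with hx
    set y := i' * A' * i with hy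
    have hbx : H22.brHom hU (x * y) = E := by
      simp only [hx, hy, map_mul, H22.brHom_apply]
      rw [H22.cut_of_supp (show Supp C (A : MonoidAlgebra (ResField M) G) from supp_push a),
        H22.cut_of_supp (show Supp C (A' : MonoidAlgebra (ResField M) G) from supp_push b')]
      show E * push C a * E' * (E' * push C b' * E) = E
      have hEE : E * E = E := by
        show H22.brHom hU i * H22.brHom hU i = H22.brHom hU i
        rw [← map_mul, hi.idem]
      have hEE' : E' * E' = E' := by
        show H22.brHom hU i' * H22.brHom hU i' = H22.brHom hU i'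
        rw [← map_mul, hi'.idem]
      have e3 : push C a * E' * push C b' = E := by
        rw [← e2, mul_assoc, mul_assoc, e1, ← mul_assoc, e1, hEE]
      rw [mul_assoc (E * push C a), ← mul_assoc E', ← mul_assoc E', hEE', ← mul_assoc, ← mul_assoc,
        mul_assoc (E * push C a), mul_assoc E, ← mul_assoc (push C a), e3, hEE, hEE]
    have hxi : i * x = x ∧ x * i' = x :=
      ⟨by rw [hx, ← mul_assoc, ← mul_assoc, hi.idem], by rw [hx, mul_assoc, hi'.idem]⟩
    have hyi : i' * y = y ∧ y * i = y :=
      ⟨by rw [hy, ← mul_assoc, ← mul_assoc, hi'.idem], by rw [hy, mul_assoc, hi.idem]⟩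
    have hxy : InCorner i (x * y) := ⟨by rw [← mul_assoc, hxi.1], by rw [mul_assoc, hyi.2]⟩
    rcases isNilpotent_or_exists_inv (ResField M) hi hxy with hn | ⟨z, hz, hz1, -⟩
    · refine absurd ?_ h0
      exact H22.isIdempotentElem_eq_zero_of_isNilpotent (by
        show H22.brHom hU i * H22.brHom hU i = H22.brHom hU i
        rw [← map_mul, hi.idem]) (hbx ▸ hn.map (H22.brHom hU))
    rw [mul_assoc] at hz1
    have hw : y * z * x * (y * z * x) = y * z * x := by
      calc y * z * x * (y * z * x) = y * z * (x * (y * z)) * x := by simp only [mul_assoc]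
        _ = y * z * x := by rw [hz1, mul_assoc y z i, hz.2]
    have hwc : InCorner i' (y * z * x) :=
      ⟨by rw [show i' * (y * z * x) = i' * y * z * x from by simp only [mul_assoc], hyi.1],
        by rw [mul_assoc (y * z) x i', hxi.2]⟩
    rcases hi'.prim _ hw hwc with h | h
    · refine absurd ?_ hi.ne_zero
      calc i = x * (y * z) * (x * (y * z)) := by rw [hz1, hi.idem]
        _ = x * (y * z * x) * (y * z) := by simp only [mul_assoc]
        _ = 0 := by rw [h, mul_zero, zero_mul]
    · exact ⟨_, _, x.2, (y * z).2, congrArg Subtype.val hz1, congrArg Subtype.val h⟩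
  · -- the coefficient at the identity
    obtain ⟨-, hn⟩ := hb.eqv hM hEp hEp (habs _ (H22.supp_cut _ _) hif) (habs _ (H22.supp_cut _ _) hif)
    set E := pull C.subtype (cut C j) with hE
    obtain ⟨cl, hcl, hcl2⟩ : ∃ c : MonoidAlgebra (localRing M) C,
        c ∈ (⊤ : Subalgebra (localRing M) (MonoidAlgebra (localRing M) C)) ∧ red M C c = E := by
      choose g hg using H41.res_surjective (M := M)
      exact ⟨H40.ofFun fun x => g (E.coeff x), trivial, H40.ext_coeff fun x => by
        rw [H22.coeff_red, H40.coeff_ofFun, hg]⟩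
    obtain ⟨e, -, hee, hre⟩ := exists_idem_red hcl (by rw [hcl2]; exact hEp.idem)
    rw [hcl2] at hre
    obtain ⟨n, hn'⟩ := exists_nat_trc hM (H26.irr_isCharacter θ) hee
    have h1 := hb.coeff_one hM hee (by rw [hre]; exact habs _ (H22.supp_cut _ _) hif) hn'
    rw [hre, hE, coeff_pull, map_one, H22.coeff_cut_of_mem _ (one_mem C)] at h1
    rw [h1]
    refine mul_ne_zero (hb.exists_unit_value hM).1 fun h => hn e hee hre n hn' ?_
    exact (CharP.cast_eq_zero_iff (ResField M) p n).1 h

end Cfsg.Agent.H56.FD
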