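import Mathlib.Data.ZMod.Basic
import Mathlib.GroupTheory.Sylow
import Mathlib.Data.Fintype.Perm
import Mathlib.Logic.Equiv.Fin.Basic
import Mathlib.Tactic.LinearCombination
import Mathlib.Tactic.Group

/-!
The subgroup of `Sym 9` of order 108 generated by three disjoint 3-cycles and two double transpositions,
seen as a group of affine maps of three blocks.
-/

namespace Cfsg.Agent.H56

/-- Vectors in `(ℤ/3)³`. -/
abbrev V3 : Type := Fin 3 → ZMod 3

/-- Sign vectors with product one. -/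
def SignOK (s : V3) : Prop := (∀ k, s k * s k = 1) ∧ s 0 * s 1 * s 2 = 1

instance signOKDecidable : DecidablePred SignOK := fun s => by unfold SignOK; infer_instance

/-- The generating set. -/
def nineGens : Set (Equiv.Perm (Fin 9)) :=
  {Equiv.swap (0 : Fin 9) 1 * Equiv.swap 1 2, Equiv.swap (3 : Fin 9) 4 * Equiv.swap 4 5,
    Equiv.swap (6 : Fin 9) 7 * Equiv.swap 7 8, Equiv.swap (0 : Fin 9) 1 * Equiv.swap 3 4,
    Equiv.swap (0 : Fin 9) 1 * Equiv.swap 6 7}

/-- `Fin 3` as `ℤ/3`. -/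
def toZ (r : Fin 3) : ZMod 3 := r

/-- `ℤ/3` as `Fin 3`. -/
def ofZ (x : ZMod 3) : Fin 3 := x

theorem toZ_ofZ (x : ZMod 3) : toZ (ofZ x) = x := rfl

theorem toZ_zero : toZ 0 = 0 := rfl

theorem toZ_one : toZ 1 = 1 := rfl

/-- The affine map `r ↦ s r + u` on each block. -/
def affFun (u s : V3) (i : Fin 9) : Fin 9 :=
  finProdFinEquiv ((finProdFinEquiv.symm i : Fin 3 × Fin 3).1,
    ofZ (s (finProdFinEquiv.symm i : Fin 3 × Fin 3).1 * toZ (finProdFinEquiv.symm i : Fin 3 × Fin 3).2
      + u (finProdFinEquiv.symm i : Fin 3 × Fin 3).1))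

theorem affFun_comp (u s u' s' : V3) (i : Fin 9) :
    affFun u s (affFun u' s' i) = affFun (u + s * u') (s * s') i := by
  unfold affFun
  rw [Equiv.symm_apply_apply]
  refine congrArg (fun z => finProdFinEquiv (_, ofZ z)) ?_
  simp only [toZ_ofZ]
  simp only [Pi.add_apply, Pi.mul_apply]
  ring

theorem affFun_one (i : Fin 9) : affFun 0 1 i = i := by revert i; decide +kernel

theorem affFun_inj {u u' s s' : V3} (e : ∀ i, affFun u s i = affFun u' s' i) : u = u' ∧ s = s' := by
  have h1 : ∀ (k : Fin 3) (r : Fin 3), s k * toZ r + u k = s' k * toZ r + u' k := by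
    intro k r
    have h0 := e (finProdFinEquiv (k, r))
    simp only [affFun, Equiv.symm_apply_apply] at h0
    exact congrArg (fun p => toZ p.2) (finProdFinEquiv.injective h0)
  have hu : u = u' := funext fun k => by simpa [toZ_zero] using h1 k 0
  refine ⟨hu, funext fun k => ?_⟩
  have h2 := h1 k 1
  rw [hu] at h2
  exact by simpa [toZ_one] using h2

/-- A permutation of the group is affine. -/
theorem exists_aff {σ : Equiv.Perm (Fin 9)} (hσ : σ ∈ Subgroup.closure nineGens) :
    ∃ u s : V3, SignOK s ∧ ∀ i, σ i = affFun u s i := by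
  induction hσ using Subgroup.closure_induction with
  | mem x hx =>
    simp only [nineGens, Set.mem_insert_iff, Set.mem_singleton_iff] at hx
    rcases hx with rfl | rfl | rfl | rfl | rfl
    · exact ⟨![1, 0, 0], 1, by decide, by decide +kernel⟩
    · exact ⟨![0, 1, 0], 1, by decide, by decide +kernel⟩
    · exact ⟨![0, 0, 1], 1, by decide, by decide +kernel⟩
    · exact ⟨![1, 1, 0], ![2, 2, 1], by decide, by decide +kernel⟩
    · exact ⟨![1, 0, 1], ![2, 1, 2], by decide, by decide +kernel⟩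
  | one => exact ⟨0, 1, by decide, fun i => (affFun_one i).symm⟩
  | mul x y _ _ hx hy =>
    obtain ⟨u, s, hs, e⟩ := hx
    obtain ⟨u', s', hs', e'⟩ := hy
    refine ⟨u + s * u', s * s', ⟨fun k => ?_, ?_⟩, fun i => by rw [Equiv.Perm.mul_apply, e', e, affFun_comp]⟩
    · simp only [Pi.mul_apply]
      calc s k * s' k * (s k * s' k) = s k * s k * (s' k * s' k) := by ring
        _ = 1 := by rw [hs.1, hs'.1, one_mul]
    · simp only [Pi.mul_apply]
      calc s 0 * s' 0 * (s 1 * s' 1) * (s 2 * s' 2) = s 0 * s 1 * s 2 * (s' 0 * s' 1 * s' 2) := by ring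
        _ = 1 := by rw [hs.2, hs'.2, one_mul]
  | inv x _ hx =>
    obtain ⟨u, s, hs, e⟩ := hx
    refine ⟨-(s * u), s, hs, fun i => ?_⟩
    apply x.injective
    rw [← Equiv.Perm.mul_apply, mul_inv_cancel, Equiv.Perm.one_apply, e, affFun_comp]
    have h1 : s * s = 1 := funext hs.1
    rw [mul_neg, ← mul_assoc, h1, one_mul, add_neg_cancel, affFun_one]

/-- The translation by `u`. -/
def trPerm (u : V3) : Equiv.Perm (Fin 9) :=
  (Equiv.swap (0 : Fin 9) 1 * Equiv.swap 1 2) ^ (u 0).val *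
    (Equiv.swap (3 : Fin 9) 4 * Equiv.swap 4 5) ^ (u 1).val *
    (Equiv.swap (6 : Fin 9) 7 * Equiv.swap 7 8) ^ (u 2).val

theorem trPerm_mem (u : V3) : trPerm u ∈ Subgroup.closure nineGens :=
  mul_mem (mul_mem (pow_mem (Subgroup.subset_closure (by simp [nineGens])) _)
    (pow_mem (Subgroup.subset_closure (by simp [nineGens])) _))
    (pow_mem (Subgroup.subset_closure (by simp [nineGens])) _)

theorem trPerm_apply (u : V3) (i : Fin 9) : trPerm u i = affFun u 1 i := by revert u i; decide +kernel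

theorem exists_sign_perm {s : V3} (hs : SignOK s) :
    ∃ σ ∈ Subgroup.closure nineGens, ∃ u, ∀ i, σ i = affFun u s i := by
  have h : s = 1 ∨ s = ![2, 2, 1] ∨ s = ![2, 1, 2] ∨ s = ![1, 2, 2] := by revert hs; revert s; decide
  rcases h with rfl | rfl | rfl | rfl
  · exact ⟨1, one_mem _, 0, fun i => (affFun_one i).symm⟩
  · exact ⟨_, Subgroup.subset_closure (show Equiv.swap (0 : Fin 9) 1 * Equiv.swap 3 4 ∈ nineGens by simp [nineGens]),
      ![1, 1, 0], by decide +kernel⟩
  · exact ⟨_, Subgroup.subset_closure (show Equiv.swap (0 : Fin 9) 1 * Equiv.swap 6 7 ∈ nineGens by simp [nineGens]),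
      ![1, 0, 1], by decide +kernel⟩
  · exact ⟨_, mul_mem (Subgroup.subset_closure (show Equiv.swap (0 : Fin 9) 1 * Equiv.swap 3 4 ∈ nineGens by simp [nineGens]))
      (Subgroup.subset_closure (show Equiv.swap (0 : Fin 9) 1 * Equiv.swap 6 7 ∈ nineGens by simp [nineGens])),
      ![0, 1, 1], by decide +kernel⟩

/-- The structure of a group isomorphic to the model, with a normal Sylow 3-subgroup `T`. -/
theorem exists_coords {G : Type*} [Group G] (H : Subgroup G)
    (e : ↥H ≃* ↥(Subgroup.closure nineGens)) (T : Subgroup G)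
    (hT : Nat.card T = 27) (hTH : T ≤ H) :
    ∃ v : V3 → G, Function.Injective v ∧ (∀ u u', v (u + u') = v u * v u') ∧ (∀ x, x ∈ T ↔ ∃ u, v u = x) ∧
      (∀ h ∈ H, ∃ s, SignOK s ∧ (∀ u, h * v u * h⁻¹ = v (s * u)) ∧ (s = 1 → h ∈ T)) ∧
      (∀ s, SignOK s → ∃ h ∈ H, ∀ u, h * v u * h⁻¹ = v (s * u)) := by
  let v : V3 → G := fun u => (e.symm ⟨trPerm u, trPerm_mem u⟩ : G)
  have hadd : ∀ u u', v (u + u') = v u * v u' := by
    intro u u'
    show (e.symm _ : G) = (e.symm _ : G) * (e.symm _ : G)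
    rw [← Subgroup.coe_mul, ← map_mul]
    refine congrArg (fun z => ((e.symm z : H) : G)) (Subtype.ext (Equiv.ext fun i => ?_))
    simp only [Subgroup.coe_mul, Equiv.Perm.mul_apply, trPerm_apply, affFun_comp, one_mul]
  have hinj : Function.Injective v := by
    intro u u' hu
    have := congrArg Subtype.val (e.symm.injective (Subtype.ext hu))
    simp only at this
    exact (affFun_inj (s := 1) (s' := 1) fun i => by rw [← trPerm_apply, ← trPerm_apply, this]).1
  have hv0 : v 0 = 1 := by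
    have := hadd 0 0
    rw [add_zero] at this
    exact mul_left_cancel (a := v 0) (by rw [← this, mul_one])
  have hconj : ∀ h (hh : h ∈ H) (w s : V3),
      (∀ i, ((e ⟨h, hh⟩ : ↥(Subgroup.closure nineGens)) : Equiv.Perm (Fin 9)) i = affFun w s i) →
      ∀ u, h * v u * h⁻¹ = v (s * u) := by
    intro h hh w s hσ u
    set σ := e ⟨h, hh⟩
    have hx : (⟨h, hh⟩ : H) = e.symm σ := (e.symm_apply_apply _).symm
    have hkey : σ * ⟨trPerm u, trPerm_mem u⟩ = ⟨trPerm (s * u), trPerm_mem _⟩ * σ := by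
      refine Subtype.ext (Equiv.ext fun i => ?_)
      simp only [Subgroup.coe_mul, Equiv.Perm.mul_apply, trPerm_apply, hσ, affFun_comp]
      congr 1
      · rw [one_mul]; exact add_comm _ _
      · rw [mul_one, one_mul]
    rw [mul_inv_eq_iff_eq_mul]
    have := congrArg (fun z => ((e.symm z : H) : G)) hkey
    simpa [← hx, v] using this
  have hrange : ∀ h ∈ H, ∀ n : ℕ, h ^ (2 * n + 1) = 1 → ∃ u, v u = h := by
    intro h hh n hn
    obtain ⟨w, s, hs, hσ⟩ := exists_aff (e ⟨h, hh⟩).2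
    have hiter : ∀ k : ℕ, ∀ u, h ^ k * v u * (h ^ k)⁻¹ = v (s ^ k * u) := by
      intro k
      induction k with
      | zero => simp
      | succ k ih =>
        intro u
        rw [pow_succ', pow_succ' s, mul_inv_rev, mul_assoc s, ← hconj h hh w s hσ, ← ih u]
        group
    have hs1 : s = 1 := by
      have h2 : s * s = 1 := funext hs.1
      have hp : s ^ (2 * n + 1) = s := by rw [pow_succ, pow_mul, pow_two, h2, one_pow, one_mul]
      funext k
      have h4 := hinj (show v (s ^ (2 * n + 1) * 1) = v 1 by rw [← hiter, hn]; simp)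
      rw [hp, mul_one] at h4
      exact congrFun h4 k
    subst hs1
    refine ⟨w, ?_⟩
    have he : (e ⟨h, hh⟩) = ⟨trPerm w, trPerm_mem w⟩ := Subtype.ext (Equiv.ext fun i => by rw [hσ, trPerm_apply])
    show (e.symm _ : G) = h
    rw [← he, e.symm_apply_apply]
  haveI : Finite T := Nat.finite_of_card_ne_zero (by omega)
  have hT27 : ∀ t ∈ T, t ^ (2 * 13 + 1) = 1 := by
    intro t ht
    have h1 : (⟨t, ht⟩ : T) ^ Nat.card T = 1 := pow_card_eq_one'
    rw [hT] at h1
    simpa using congrArg Subtype.val h1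
  choose c hc using fun t : T => hrange t (hTH t.2) 13 (hT27 t t.2)
  have hcbij : Function.Bijective c := by
    rw [Nat.bijective_iff_injective_and_card]
    refine ⟨fun t t' e => Subtype.ext (by rw [← hc t, ← hc t', e]), ?_⟩
    simp [hT]
  have hvT : ∀ u, v u ∈ T := by
    intro u
    obtain ⟨t, ht⟩ := hcbij.2 u
    rw [← ht, hc t]
    exact t.2
  refine ⟨v, hinj, hadd, fun x => ⟨fun hx => ?_, ?_⟩, fun h hh => ?_, fun s hs => ?_⟩
  · exact ⟨_, hc ⟨x, hx⟩⟩
  · rintro ⟨u, rfl⟩; exact hvT u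
  · obtain ⟨w, s, hs, hσ⟩ := exists_aff (e ⟨h, hh⟩).2
    refine ⟨s, hs, hconj h hh w s hσ, fun hs1 => ?_⟩
    subst hs1
    have : (e ⟨h, hh⟩) = ⟨trPerm w, trPerm_mem w⟩ := Subtype.ext (Equiv.ext fun i => by rw [hσ, trPerm_apply])
    have h2 : h = v w := by
      show h = (e.symm _ : G)
      rw [← this, e.symm_apply_apply]
    rw [h2]; exact hvT w
  · obtain ⟨σ, hσ, w, hw⟩ := exists_sign_perm hs
    exact ⟨_, (e.symm ⟨σ, hσ⟩).2, hconj _ _ w s (by
      intro i
      rw [show (⟨((e.symm ⟨σ, hσ⟩ : H) : G), (e.symm ⟨σ, hσ⟩).2⟩ : H) = e.symm ⟨σ, hσ⟩ from rfl,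
        e.apply_symm_apply]
      exact hw i)⟩

end Cfsg.Agent.H56
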