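import Cfsg.Agent.H56.NineModel
import Cfsg.Agent.H56.TIThree
import Cfsg.Agent.H56.VirtualNorm
import Cfsg.Agent.H42.ClassMult
import Cfsg.Agent.H25.IndRep
import Cfsg.Agent.H26.CharLinear
import Cfsg.Agent.H27.Dual
import Cfsg.Agent.H27.Clifford
import Cfsg.Agent.H43.IntCong
import Mathlib.Algebra.Group.AddChar

/-!
A subgroup isomorphic to `3³ : 4` that is strongly 3-embedded through its normal Sylow 3-subgroup is the whole group.
-/

open scoped ComplexConjugate

namespace Cfsg.Agent.H56

/-- The first basis vector. -/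
def vecE : V3 := ![1, 0, 0]

/-- Product of the coordinates. -/
def vprod (u : V3) : ZMod 3 := u 0 * u 1 * u 2

/-- Sum of the coordinates. -/
def vsum (u : V3) : ZMod 3 := u 0 + u 1 + u 2

theorem v3_triple : ∀ u : V3, u + u + u = 0 := by decide +kernel

theorem vprod_neg (u : V3) : vprod (-u) = -vprod u := by simp only [vprod, Pi.neg_apply]; ring

theorem signOK_eq_one_of_mul {s : V3} (hs : SignOK s) {u : V3} (hu : vprod u ≠ 0) (h : s * u = u) : s = 1 := by
  revert hs hu h; revert s u; decide +kernel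

theorem prod_one_iff (u : V3) : (∃ s, SignOK s ∧ s * u = 1) ↔ vprod u = 1 := by revert u; decide +kernel

theorem prod_neg_one_iff (u : V3) : (∃ s, SignOK s ∧ s * u = -1) ↔ vprod u = -1 := by revert u; decide +kernel

theorem orbit_vecE (u : V3) : (∃ s, SignOK s ∧ s * vecE = u) ↔ u = vecE ∨ u = -vecE := by
  revert u; decide +kernel

theorem card_pairs_one :
    Fintype.card {u : V3 // vprod u = 1 ∧ vprod (vecE - u) = 1} = 2 := by decide +kernel

theorem card_pairs_neg :
    Fintype.card {u : V3 // vprod u = -1 ∧ vprod (vecE - u) = 1} = 0 := by decide +kernel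

theorem prod_one_set : Finset.univ.filter (fun u : V3 => vprod u = 1) =
    {1, ![1, 2, 2], ![2, 1, 2], ![2, 2, 1]} := by decide +kernel

/-- A class function weight is antisymmetric. -/
theorem sum_vsum_zero (Gf : ZMod 3 → ℂ) (hG : ∀ x, Gf (-x) = -Gf x) (c : V3 → ℂ)
    (hc : ∀ u, vprod u = 0 → c (-u) = c u) :
    ∑ u ∈ Finset.univ.filter (fun u : V3 => vprod u = 0), Gf (vsum u) * c u = 0 := by
  have h : ∑ u ∈ Finset.univ.filter (fun u : V3 => vprod u = 0), Gf (vsum u) * c u =
      -∑ u ∈ Finset.univ.filter (fun u : V3 => vprod u = 0), Gf (vsum u) * c u := by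
    rw [← Finset.sum_neg_distrib]
    refine Finset.sum_nbij' (fun u => -u) (fun u => -u) ?_ ?_ (fun u _ => neg_neg u) (fun u _ => neg_neg u) ?_
    · intro u hu; simp [vprod] at hu ⊢; exact hu
    · intro u hu; simp [vprod] at hu ⊢; exact hu
    · intro u hu
      rw [hc u (by simpa using hu), show vsum (-u) = -vsum u by simp only [vsum, Pi.neg_apply]; ring, hG]
      ring
  linear_combination h / 2

variable {G : Type*} [Group G]

/-- A self-centralising abelian 3-group of exponent 3 inside the model is a TI Sylow subgroup. -/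
theorem nine_tiThree [Finite G] {H T : Subgroup G} {v : V3 → G} (hinj : Function.Injective v)
    (hadd : ∀ u u', v (u + u') = v u * v u') (hrange : ∀ x, x ∈ T ↔ ∃ u, v u = x)
    (hact : ∀ h ∈ H, ∃ s, SignOK s ∧ (∀ u, h * v u * h⁻¹ = v (s * u)) ∧ (s = 1 → h ∈ T))
    (hN : Subgroup.normalizer (T : Set G) = H) (hT : Nat.card T = 27)
    (hC : ∀ t ∈ T, t ≠ 1 → Subgroup.centralizer ({t} : Set G) ≤ H) : IsTIThree T := by
  haveI : Fact (Nat.Prime 3) := ⟨Nat.prime_three⟩
  have hv0 : v 0 = 1 := by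
    have := hadd 0 0
    rw [add_zero] at this
    exact mul_left_cancel (a := v 0) (by rw [← this, mul_one])
  refine ⟨?_, ?_, ?_, fun t ht ht1 => hN ▸ hC t ht ht1⟩
  · intro a ha b hb
    obtain ⟨u, rfl⟩ := (hrange a).1 ha
    obtain ⟨w, rfl⟩ := (hrange b).1 hb
    rw [← hadd, ← hadd, add_comm]
  · intro a ha
    obtain ⟨u, rfl⟩ := (hrange a).1 ha
    rw [pow_succ, pow_two, ← hadd, ← hadd, v3_triple u, hv0]
  · have hTp : IsPGroup 3 T := IsPGroup.of_card (n := 3) (by rw [hT]; norm_num)
    obtain ⟨P, hP⟩ := hTp.exists_le_sylow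
    refine ⟨P, le_antisymm ?_ hP⟩
    by_contra hlt
    haveI : Group.IsNilpotent (P : Subgroup G) := P.2.isNilpotent
    have hproper : T.subgroupOf (P : Subgroup G) < ⊤ := lt_top_iff_ne_top.2 fun e => hlt fun x hx => by
      have : (⟨x, hx⟩ : (P : Subgroup G)) ∈ T.subgroupOf (P : Subgroup G) := e ▸ Subgroup.mem_top _
      exact Subgroup.mem_subgroupOf.1 this
    obtain ⟨x, hx1, hx2⟩ := SetLike.exists_of_lt (normalizerCondition_of_isNilpotent _ hproper)
    apply hx2
    rw [Subgroup.mem_subgroupOf]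
    have hxH : (x : G) ∈ H := by
      rw [← hN]
      refine Subgroup.mem_normalizer_fintype fun u hu => ?_
      have := (Subgroup.mem_normalizer_iff.1 hx1 ⟨u, hP hu⟩).1 (Subgroup.mem_subgroupOf.2 hu)
      exact Subgroup.mem_subgroupOf.1 this
    obtain ⟨s, hs, hconj, hs1⟩ := hact x hxH
    refine hs1 ?_
    obtain ⟨k, hk⟩ := P.2 x
    have hiter : ∀ m : ℕ, ∀ u, (x : G) ^ m * v u * ((x : G) ^ m)⁻¹ = v (s ^ m * u) := by
      intro m
      induction m with
      | zero => simp
      | succ m ih =>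
        intro u
        rw [pow_succ', pow_succ' s, mul_inv_rev, mul_assoc s, ← hconj, ← ih u]
        group
    have hk' : (x : G) ^ 3 ^ k = 1 := by simpa using congrArg Subtype.val hk
    have h4 := hiter (3 ^ k) 1
    rw [hk', one_mul, inv_one, mul_one] at h4
    obtain ⟨j, hj⟩ : Odd (3 ^ k) := Odd.pow (by decide)
    have h2 : s * s = 1 := funext hs.1
    rw [hj, pow_succ, pow_mul, pow_two, h2, one_pow, one_mul] at h4
    have := hinj h4
    rw [mul_one] at this
    exact this.symm

theorem nine_strongly_embedded [Finite G] (H : Subgroup G) (e : ↥H ≃* ↥(Subgroup.closure nineGens))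
    (T : Subgroup G) (hTH : T ≤ H) (hT : Nat.card T = 27) (hN : Subgroup.normalizer (T : Set G) = H)
    (hC : ∀ t ∈ T, t ≠ 1 → Subgroup.centralizer ({t} : Set G) ≤ H) : H = ⊤ := by
  classical
  haveI := Fintype.ofFinite G
  haveI := Fintype.ofFinite T
  obtain ⟨v, hinj, hadd, hrange, hact, hreal⟩ := exists_coords H e T hT hTH
  have hTI := nine_tiThree hinj hadd hrange hact hN hT hC
  have hvT : ∀ u, v u ∈ T := fun u => (hrange _).2 ⟨u, rfl⟩
  have hv0 : v 0 = 1 := by
    have := hadd 0 0
    rw [add_zero] at this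
    exact mul_left_cancel (a := v 0) (by rw [← this, mul_one])
  have hconj : ∀ u u', u ≠ 0 → (IsConj (v u) (v u') ↔ ∃ s, SignOK s ∧ s * u = u') := by
    intro u u' hu
    constructor
    · intro hc
      obtain ⟨y, hy⟩ := isConj_iff.1 hc
      have hyH : y ∈ H := hN ▸ hTI.ti (hvT u) (fun e0 => hu (hinj (e0.trans hv0.symm))) (hy ▸ hvT u')
      obtain ⟨s, hs, hcs, -⟩ := hact y hyH
      exact ⟨s, hs, hinj (by rw [← hcs, hy])⟩
    · rintro ⟨s, hs, rfl⟩
      obtain ⟨y, -, hy⟩ := hreal s hs
      exact isConj_iff.2 ⟨y, hy u⟩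
  set g := v 1 with hg
  set g' := v (-1) with hg'
  set z := v vecE with hz
  have hP : ∀ u, IsConj (v u) g ↔ vprod u = 1 := by
    intro u
    by_cases hu : u = 0
    · subst hu
      refine iff_of_false (fun hc => ?_) (by decide)
      rw [hv0] at hc
      exact absurd (hinj ((isConj_one_right.1 hc).trans hv0.symm)) (by decide)
    · rw [hconj u 1 hu, prod_one_iff]
  have hM : ∀ u, IsConj (v u) g' ↔ vprod u = -1 := by
    intro u
    by_cases hu : u = 0
    · subst hu
      refine iff_of_false (fun hc => ?_) (by decide)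
      rw [hv0] at hc
      exact absurd (hinj ((isConj_one_right.1 hc).trans hv0.symm)) (by decide)
    · rw [hconj u (-1) hu, prod_neg_one_iff]
  have hcent : ∀ u, vprod u ≠ 0 → Subgroup.centralizer ({v u} : Set G) = T := by
    intro u hu
    have hu0 : v u ≠ 1 := fun e0 => hu (by rw [hinj (e0.trans hv0.symm)]; decide)
    refine le_antisymm (fun x hx => ?_) (fun x hx => Subgroup.mem_centralizer_singleton_iff.2 (hTI.comm x hx _ (hvT u)))
    obtain ⟨s, hs, hcs, hs1⟩ := hact x (hC _ (hvT u) hu0 hx)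
    refine hs1 (signOK_eq_one_of_mul hs hu (hinj ?_))
    rw [← hcs, Subgroup.mem_centralizer_singleton_iff.1 hx, mul_inv_cancel_right]
  have hindex : ∀ u, vprod u ≠ 0 → ((Subgroup.centralizer ({v u} : Set G)).index : ℂ) * 27 = (Nat.card G : ℂ) := by
    intro u hu
    rw [hcent u hu, ← Subgroup.card_mul_index T, hT]
    push_cast; ring
  -- the pair counts
  have hcount : ∀ a : V3, (vprod a = 1 ∨ vprod a = -1) → (IsConj (v a) g → ¬ IsConj z (v a * v a)) →
      H42.pairCount (v a) g z = Nat.card {u : V3 // vprod u = vprod a ∧ vprod (vecE - u) = 1} := by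
    intro a ha hne
    have hQ : ∀ u, IsConj (v u) (v a) ↔ vprod u = vprod a := by
      intro u
      rcases ha with h1 | h1
      · rw [h1, ← hP u]
        have e1 : IsConj (v a) g := (hP a).2 h1
        exact ⟨fun hh => hh.trans e1, fun hh => hh.trans e1.symm⟩
      · rw [h1, ← hM u]
        have e1 : IsConj (v a) g' := (hM a).2 h1
        exact ⟨fun hh => hh.trans e1, fun hh => hh.trans e1.symm⟩
    have hsub : ∀ u, (v u)⁻¹ * z = v (vecE - u) := by
      intro u
      rw [inv_mul_eq_iff_eq_mul, ← hadd, add_sub_cancel]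
    rw [H42.pairCount]
    refine (Nat.card_congr (Equiv.ofBijective (fun u => ⟨v u.1, (hQ u.1).2 u.2.1,
      by rw [hsub]; exact (hP _).2 u.2.2⟩) ⟨fun u u' hu => Subtype.ext (hinj (congrArg (fun x => (x.1 : G)) hu)),
      ?_⟩)).symm
    rintro ⟨x, hx1, hx2⟩
    have hm := hTI.pair_mem (hvT a) (hvT 1) (hvT vecE) (fun e0 => absurd (hinj (e0.trans hv0.symm)) (by decide))
      (fun hh => hne hh.1 hh.2) hx1 hx2 (mul_inv_cancel_left x z)
    obtain ⟨u, rfl⟩ := (hrange x).1 hm.1
    exact ⟨⟨u, (hQ u).1 hx1, (hP _).1 (by rw [← hsub]; exact hx2)⟩, rfl⟩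
  have hc1 : H42.pairCount g g z = 2 := by
    rw [hg, hcount 1 (Or.inl (by decide)), Nat.card_eq_fintype_card]
    · exact card_pairs_one
    · intro _ hh
      rw [← hadd, isConj_comm, hconj _ _ (by decide)] at hh
      revert hh; decide +kernel
  have hc2 : H42.pairCount g' g z = 0 := by
    rw [hg', hcount (-1) (Or.inr (by decide)), Nat.card_eq_fintype_card]
    · exact card_pairs_neg
    · intro hh
      rw [hP] at hh
      exact absurd hh (by decide)
  -- the generalized character
  obtain ⟨ω, hω⟩ : ∃ ω : ℂ, IsPrimitiveRoot ω 3 := ⟨_, Complex.isPrimitiveRoot_exp 3 (by norm_num)⟩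
  let ψ : AddChar (ZMod 3) ℂ := AddChar.zmodChar 3 hω.pow_eq_one
  choose c hc using fun t : T => (hrange t).1 t.2
  have hcmul : ∀ a b : T, c (a * b) = c a + c b := fun a b => hinj (by rw [hc, hadd, hc, hc]; rfl)
  let L₁ : T →* ℂ :=
    { toFun := fun t => ψ (vsum (c t))
      map_one' := by
        have : c 1 = 0 := hinj (by rw [hc, hv0]; rfl)
        rw [this]; exact ψ.map_zero_eq_one
      map_mul' := fun a b => by
        rw [hcmul, show vsum (c a + c b) = vsum (c a) + vsum (c b) by simp only [vsum, Pi.add_apply]; ring,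
          AddChar.map_add_eq_mul] }
  let L₂ : T →* ℂ :=
    { toFun := fun t => ψ (-vsum (c t))
      map_one' := by
        have : c 1 = 0 := hinj (by rw [hc, hv0]; rfl)
        rw [this, show -vsum 0 = 0 by decide]; exact ψ.map_zero_eq_one
      map_mul' := fun a b => by
        rw [hcmul, show -vsum (c a + c b) = -vsum (c a) + -vsum (c b) by simp only [vsum, Pi.add_apply]; ring,
          AddChar.map_add_eq_mul] }
  let Gf : ZMod 3 → ℂ := fun x => ψ x - ψ (-x)
  have hGodd : ∀ x, Gf (-x) = -Gf x := fun x => by simp only [Gf, neg_neg]; ring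
  let f : T → ℂ := fun t => Gf (vsum (c t))
  have hfgen : Cfsg.IsGeneralizedCharacter G (Cfsg.indFun T f) := by
    have hL : ∀ L : T →* ℂ, Cfsg.IsGeneralizedCharacter G (Cfsg.indFun T fun t => L t) := fun L => by
      have h1 := H26.isIrrCharacter_hom L.toHomUnits
      simp only [MonoidHom.coe_toHomUnits] at h1
      exact H57.gen_of_char (H25.isCharacter_indFun T (H26.isCharacter_of_irr h1))
    rw [show f = (fun t => L₁ t) - (fun t => L₂ t) from rfl, H25.indFun_sub]
    exact H57.gen_sub (hL L₁) (hL L₂)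
  let eT : V3 ≃ T := Equiv.ofBijective (fun u => ⟨v u, hvT u⟩)
    ⟨fun u u' hu => hinj (congrArg (fun t : T => (t : G)) hu), fun t => ⟨c t, Subtype.ext (hc t)⟩⟩
  have hfe : ∀ u, f (eT u) = Gf (vsum u) := fun u => by
    show Gf (vsum (c (eT u))) = _
    rw [show c (eT u) = u from hinj (by rw [hc]; rfl)]
  set F : ℂ := 3 * (ω ^ 2 - ω) with hF
  have hG2 : Gf 2 = ω ^ 2 - ω := by
    show ψ 2 - ψ (-2) = _
    simp only [ψ, AddChar.zmodChar_apply]
    rw [show ((2 : ZMod 3)).val = 2 from rfl, show ((-2 : ZMod 3)).val = 1 from rfl, pow_one]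
  have hG0 : Gf 0 = 0 := by simp [Gf]
  have hsumP : ∑ u ∈ Finset.univ.filter (fun u : V3 => vprod u = 1), Gf (vsum u) = F := by
    rw [prod_one_set, Finset.sum_insert (by decide), Finset.sum_insert (by decide), Finset.sum_insert (by decide),
      Finset.sum_singleton, show vsum 1 = 0 by decide, show vsum ![1, 2, 2] = 2 by decide,
      show vsum ![2, 1, 2] = 2 by decide, show vsum ![2, 2, 1] = 2 by decide, hG0, hG2, hF]
    ring
  have hsumM : ∑ u ∈ Finset.univ.filter (fun u : V3 => vprod u = -1), Gf (vsum u) = -F := by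
    rw [← hsumP, ← Finset.sum_neg_distrib]
    refine Finset.sum_nbij' (fun u => -u) (fun u => -u) ?_ ?_ (fun u _ => neg_neg u) (fun u _ => neg_neg u) ?_
    · intro u hu
      simp only [Finset.coe_filter, Finset.mem_filter, Finset.mem_univ, true_and, Set.mem_setOf_eq] at hu ⊢
      rw [vprod_neg, hu, neg_neg]
    · intro u hu
      simp only [Finset.coe_filter, Finset.mem_filter, Finset.mem_univ, true_and, Set.mem_setOf_eq] at hu ⊢
      rw [vprod_neg, hu]
    · intro u _
      show _ = -Gf (vsum (-u))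
      rw [show vsum (-u) = -vsum u by simp only [vsum, Pi.neg_apply]; ring, hGodd, neg_neg]
  set Φ := Cfsg.indFun T f with hΦ
  have hval : ∀ u, Φ (v u) = (Nat.card T : ℂ)⁻¹ * (Nat.card (Subgroup.centralizer ({v u} : Set G)) : ℂ) *
      ∑ u' ∈ Finset.univ.filter (fun u' : V3 => IsConj (v u) (v u')), Gf (vsum u') := by
    intro u
    rw [hΦ, indFun_eq_sum_conj]
    congr 1
    rw [Finset.sum_filter, Finset.sum_filter, ← Equiv.sum_comp eT]
    refine Finset.sum_congr rfl fun u' _ => ?_
    rw [hfe]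
    rfl
  have hΦg : Φ g = F := by
    rw [hg, hval, hcent 1 (by decide), inv_mul_cancel₀ (Nat.cast_ne_zero.2 Nat.card_pos.ne'), one_mul, ← hsumP]
    exact Finset.sum_congr (Finset.filter_congr fun u _ => by rw [isConj_comm]; exact hP u) fun _ _ => rfl
  have hΦg' : Φ g' = -F := by
    rw [hg', hval, hcent (-1) (by decide), inv_mul_cancel₀ (Nat.cast_ne_zero.2 Nat.card_pos.ne'), one_mul, ← hsumM]
    exact Finset.sum_congr (Finset.filter_congr fun u _ => by rw [isConj_comm]; exact hM u) fun _ _ => rfl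
  have hΦz : Φ z = 0 := by
    rw [hz, hval, show Finset.univ.filter (fun u' : V3 => IsConj (v vecE) (v u')) = {vecE, -vecE} by
      ext u
      rw [Finset.mem_filter, hconj _ _ (by decide), orbit_vecE]
      simp, Finset.sum_pair (by decide), show vsum (-vecE) = -vsum vecE by decide, hGodd, add_neg_cancel, mul_zero]
  have hΦ1 : Φ 1 = 0 := by
    rw [hΦ, H25.indFun_one]
    refine mul_eq_zero_of_right _ ?_
    show Gf (vsum (c 1)) = 0
    rw [show c 1 = 0 from hinj (by rw [hc, hv0]; rfl), show vsum 0 = 0 by decide, hG0]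
  -- inner products with class functions
  have hinner : ∀ χ : G → ℂ, Cfsg.IsClassFunction G χ →
      (27 : ℂ) * Cfsg.classInner Φ χ = F * (conj (χ g) - conj (χ g')) := by
    intro χ hχ
    rw [hΦ, H25.classInner_indFun_left T f χ hχ, Cfsg.classInner, hT, ← Equiv.sum_comp eT,
      show ((27 : ℕ) : ℂ) = 27 by norm_num, ← mul_assoc, mul_inv_cancel₀ (by norm_num : (27 : ℂ) ≠ 0), one_mul]
    have hcl : ∀ u u', IsConj (v u) (v u') → χ (v u) = χ (v u') := by
      intro u u' hh
      obtain ⟨y, hy⟩ := isConj_iff.1 hh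
      rw [← hy, hχ]
    have hpart : ∀ u : V3, vprod u = 0 ∨ vprod u = 1 ∨ vprod u = -1 := by decide +kernel
    have hz0 : ∑ u ∈ Finset.univ.filter (fun u : V3 => vprod u = 0), Gf (vsum u) * conj (χ (v u)) = 0 := by
      refine sum_vsum_zero Gf hGodd _ fun u hu => ?_
      congr 1
      by_cases h0 : u = 0
      · subst h0; rw [neg_zero]
      · refine (hcl _ _ ((hconj u (-u) h0).2 ?_)).symm
        revert hu; revert u; decide +kernel
    have hsplit : ∀ u : V3, Gf (vsum u) * conj (χ (v u)) =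
        (if vprod u = 0 then Gf (vsum u) * conj (χ (v u)) else 0) +
        ((if vprod u = 1 then Gf (vsum u) else 0) * conj (χ g) +
        (if vprod u = -1 then Gf (vsum u) else 0) * conj (χ g')) := by
      intro u
      rcases hpart u with h1 | h1 | h1
      · rw [h1, if_pos rfl, if_neg (by decide), if_neg (by decide)]; ring
      · rw [hcl u 1 ((hP u).2 h1), h1, if_pos rfl, if_neg (by decide), if_neg (by decide)]; ring
      · rw [hcl u (-1) ((hM u).2 h1), h1, if_pos rfl, if_neg (by decide), if_neg (by decide)]; ring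
    simp only [hfe]
    refine (Finset.sum_congr rfl fun u _ => hsplit u).trans ?_
    rw [Finset.sum_add_distrib, Finset.sum_add_distrib, ← Finset.sum_mul, ← Finset.sum_mul,
      ← Finset.sum_filter, ← Finset.sum_filter, ← Finset.sum_filter, hz0, hsumP, hsumM]
    ring
  have hω3 : ω ^ 3 = 1 := hω.pow_eq_one
  have hωs : ω ^ 2 + ω + 1 = 0 := by
    have h1 : (ω - 1) * (ω ^ 2 + ω + 1) = 0 := by linear_combination hω3
    exact (mul_eq_zero.1 h1).resolve_left (sub_ne_zero.2 (hω.ne_one (by norm_num)))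
  have hconjω : conj ω = ω ^ 2 := by
    rw [← Complex.inv_eq_conj (Complex.norm_eq_one_of_pow_eq_one hω3 (by norm_num))]
    exact inv_eq_of_mul_eq_one_right (by linear_combination hω3)
  have hconjF : conj F = -F := by
    rw [hF, map_mul, map_sub, map_pow, hconjω, map_ofNat]
    linear_combination (3 * ω) * hω3
  have hFF : F * conj F = 27 := by
    rw [hconjF, hF]
    linear_combination (18 - 9 * ω) * hω3 + (-9) * hωs
  have hF0 : F ≠ 0 := fun h0 => by rw [h0, zero_mul] at hFF; norm_num at hFF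
  have hnorm : Cfsg.classInner Φ Φ = 2 := by
    have h1 := hinner Φ (H25.isClassFunction_indFun T f)
    rw [hΦg, hΦg', map_neg] at h1
    linear_combination h1 / 27 + (2 / 27 : ℂ) * hFF
  obtain ⟨α, β, hαg, hβg, hαi, hβi, hαα, hββ, hαβ, hαβsum⟩ := gen_norm_two hfgen hnorm
  have hpick : ∀ A : G → ℂ, (Cfsg.IsIrrCharacter G A ∨ Cfsg.IsIrrCharacter G (-A)) →
      ∃ (X : Cfsg.IrrCharacter G) (s : ℂ), (s = 1 ∨ s = -1) ∧ A = s • X.1 := by
    rintro A (hA | hA)
    · exact ⟨⟨A, hA⟩, 1, Or.inl rfl, by simp⟩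
    · exact ⟨⟨-A, hA⟩, -1, Or.inr rfl, by simp⟩
  obtain ⟨X, sx, hsx, hX⟩ := hpick α hαi
  obtain ⟨Y, sy, hsy, hY⟩ := hpick β hβi
  have hXY : X ≠ Y := by
    intro hh
    rw [hX, hY, ← hh, H26.classInner_smul_left, H26.classInner_smul_right, H57.irr_inner_self X.2] at hαβ
    rcases hsx with rfl | rfl <;> rcases hsy with rfl | rfl <;> simp at hαβ
  have hinnerX : ∀ χ : Cfsg.IrrCharacter G, Cfsg.classInner Φ χ.1 =
      (if χ = X then sx else 0) + (if χ = Y then sy else 0) := by
    intro χ
    rw [hΦ] at hαβsum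
    rw [hΦ, hαβsum, H26.classInner_add_left, hX, hY, H26.classInner_smul_left, H26.classInner_smul_left,
      H27.classInner_irr_eq_ite X.2 χ.2, H27.classInner_irr_eq_ite Y.2 χ.2]
    have e1 : ((X : G → ℂ) = (χ : G → ℂ)) ↔ χ = X := ⟨fun hh => Subtype.ext hh.symm, fun hh => by rw [hh]⟩
    have e2 : ((Y : G → ℂ) = (χ : G → ℂ)) ↔ χ = Y := ⟨fun hh => Subtype.ext hh.symm, fun hh => by rw [hh]⟩
    simp only [e1, e2, mul_ite, mul_one, mul_zero]
  -- the class multiplication formula
  have hdiff : (2 : ℂ) * 27 * 27 = (Nat.card G : ℂ) *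
      ∑ χ : Cfsg.IrrCharacter G, (conj (χ.1 g) - conj (χ.1 g')) * conj (χ.1 g) * χ.1 z / χ.1 1 := by
    have h1 := H42.pairCount_formula g g z
    have h2 := H42.pairCount_formula g' g z
    rw [hc1] at h1
    rw [hc2] at h2
    have i1 := hindex 1 (by decide)
    have i2 := hindex (-1) (by decide)
    rw [← hg] at i1
    rw [← hg'] at i2
    have hne : (Nat.card G : ℂ) ≠ 0 := Nat.cast_ne_zero.2 Nat.card_pos.ne'
    simp only [sub_mul, sub_div, Finset.sum_sub_distrib]
    push_cast at h1 h2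
    generalize (∑ χ : Cfsg.IrrCharacter G, conj (χ.1 g) * conj (χ.1 g) * χ.1 z / χ.1 1) = S at *
    generalize (∑ χ : Cfsg.IrrCharacter G, conj (χ.1 g') * conj (χ.1 g) * χ.1 z / χ.1 1) = S' at *
    generalize ((Subgroup.centralizer ({g} : Set G)).index : ℂ) = I at *
    generalize ((Subgroup.centralizer ({g'} : Set G)).index : ℂ) = I' at *
    have eI : I = (Nat.card G : ℂ) / 27 := by rw [← i1]; ring
    have eI' : I' = (Nat.card G : ℂ) / 27 := by rw [← i2]; ring
    subst eI eI'
    field_simp at h1 h2 ⊢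
    linear_combination h1 - h2
  have hsum : (∑ χ : Cfsg.IrrCharacter G, (conj (χ.1 g) - conj (χ.1 g')) * conj (χ.1 g) * χ.1 z / χ.1 1) =
      (27 / F) * (sx * conj (X.1 g) * X.1 z / X.1 1 + sy * conj (Y.1 g) * Y.1 z / Y.1 1) := by
    have hterm : ∀ χ : Cfsg.IrrCharacter G, (conj (χ.1 g) - conj (χ.1 g')) * conj (χ.1 g) * χ.1 z / χ.1 1 =
        (27 / F) * ((if χ = X then sx else 0) + (if χ = Y then sy else 0)) * conj (χ.1 g) * χ.1 z / χ.1 1 := by
      intro χ
      congr 3
      rw [← hinnerX χ, div_mul_eq_mul_div, eq_div_iff hF0]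
      linear_combination -(hinner χ.1 (H26.irr_isClassFunction χ))
    rw [Finset.sum_congr rfl (fun χ _ => hterm χ)]
    simp only [mul_add, add_mul, add_div, Finset.sum_add_distrib, mul_ite, mul_zero, ite_mul, zero_mul, ite_div,
      zero_div, Finset.sum_ite_eq', Finset.mem_univ, if_true]
    ring
  have hsq : ∀ {s : ℂ}, (s = 1 ∨ s = -1) → s * s = 1 := by rintro s (rfl | rfl) <;> ring
  have hd1 : sx * X.1 1 + sy * Y.1 1 = 0 := by
    have := congrFun hαβsum 1
    rw [hΦ1, hX, hY] at this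
    simpa using this.symm
  have hdz : sx * X.1 z + sy * Y.1 z = 0 := by
    have := congrFun hαβsum z
    rw [hΦz, hX, hY] at this
    simpa using this.symm
  have hdg : sx * X.1 g + sy * Y.1 g = F := by
    have := congrFun hαβsum g
    rw [hΦg, hX, hY] at this
    simpa using this.symm
  obtain ⟨dX, hdX0, hdX⟩ := H57.irr_degree X.2
  obtain ⟨dY, hdY0, hdY⟩ := H57.irr_degree Y.2
  have hX0 : X.1 1 ≠ 0 := by rw [hdX]; exact Nat.cast_ne_zero.2 hdX0.ne'
  have hY0 : Y.1 1 ≠ 0 := by rw [hdY]; exact Nat.cast_ne_zero.2 hdY0.ne'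
  have hmain : (Nat.card G : ℂ) * X.1 z = -54 * X.1 1 := by
    rw [hsum] at hdiff
    have hsc : conj sx = sx ∧ conj sy = sy := by
      rcases hsx with rfl | rfl <;> rcases hsy with rfl | rfl <;> simp
    have hcg : sx * conj (X.1 g) + sy * conj (Y.1 g) = -F := by
      rw [← hconjF, ← hdg, map_add, map_mul, map_mul, hsc.1, hsc.2]
    have hY1 : Y.1 1 = -(sy * sx * X.1 1) := by linear_combination sy * hd1 - Y.1 1 * hsq hsy
    have hYz : Y.1 z = -(sy * sx * X.1 z) := by linear_combination sy * hdz - Y.1 z * hsq hsy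
    have hterm : sx * conj (X.1 g) * X.1 z / X.1 1 + sy * conj (Y.1 g) * Y.1 z / Y.1 1 =
        -F * X.1 z / X.1 1 := by
      have hs0 : sy * sx ≠ 0 := by rcases hsx with rfl | rfl <;> rcases hsy with rfl | rfl <;> norm_num
      rw [hY1, hYz, ← hcg, mul_neg, neg_div_neg_eq, mul_left_comm, mul_div_mul_left _ _ hs0, ← add_div,
        ← add_mul]
    have h27 : (27 / F) * (-F * X.1 z / X.1 1) = -27 * X.1 z / X.1 1 := by
      field_simp
    rw [hterm, h27, mul_div_assoc', eq_div_iff hX0] at hdiff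
    linear_combination hdiff / 27
  -- integrality
  have hXz : ∃ n : ℤ, X.1 z = n ∧ n ≠ 0 := by
    have hint : IsIntegral ℤ (X.1 z) := by
      obtain ⟨_, ρ, -, e⟩ := X.2
      rw [← e]
      exact H25.isIntegral_char ρ z
    have hne : (Nat.card G : ℂ) ≠ 0 := Nat.cast_ne_zero.2 Nat.card_pos.ne'
    have hrat : X.1 z = ((-54 * (dX : ℚ) / (Nat.card G : ℚ) : ℚ) : ℂ) := by
      push_cast
      rw [eq_div_iff hne, ← hdX]
      linear_combination hmain
    rw [hrat] at hint
    obtain ⟨n, hn'⟩ := H43.exists_int_of_isIntegral hint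
    have hn : X.1 z = (n : ℂ) := by rw [hrat, ← hn']; simp
    refine ⟨n, hn, fun h0 => ?_⟩
    rw [hn, h0, Int.cast_zero, mul_zero, hdX] at hmain
    have : (dX : ℂ) = 0 := by linear_combination hmain / 54
    exact hdX0.ne' (by exact_mod_cast this)
  obtain ⟨n, hn, hn0⟩ := hXz
  have hcardle : Nat.card G ≤ 54 * dX := by
    rw [hn, hdX] at hmain
    have h1 : (Nat.card G : ℤ) * n = -54 * dX := by exact_mod_cast hmain
    have h2 := congrArg Int.natAbs h1
    rw [Int.natAbs_mul, Int.natAbs_mul] at h2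
    simp only [Int.natAbs_natCast, Int.natAbs_neg] at h2
    calc Nat.card G = Nat.card G * 1 := (mul_one _).symm
      _ ≤ Nat.card G * n.natAbs := Nat.mul_le_mul_left _ (Int.natAbs_pos.2 hn0)
      _ = _ := h2
  have hdXY : dY = dX := by
    rw [hdX, hdY] at hd1
    rcases hsx with rfl | rfl <;> rcases hsy with rfl | rfl
    · have : ((dX + dY : ℕ) : ℂ) = 0 := by push_cast; linear_combination hd1
      rw [Nat.cast_eq_zero] at this; omega
    · have : (dY : ℂ) = dX := by linear_combination -hd1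
      exact_mod_cast this
    · have : (dY : ℂ) = dX := by linear_combination hd1
      exact_mod_cast this
    · have : ((dX + dY : ℕ) : ℂ) = 0 := by push_cast; linear_combination -hd1
      rw [Nat.cast_eq_zero] at this; omega
  have hsqle : dX ^ 2 + dX ^ 2 ≤ Nat.card G := by
    choose d _ hd using fun χ : Cfsg.IrrCharacter G => H57.irr_degree χ.2
    have h1 := H26.sum_sq_degrees (G := G)
    simp only [hd] at h1
    have h2 : ∑ χ, d χ ^ 2 = Nat.card G := by exact_mod_cast h1
    have eX : d X = dX := Nat.cast_injective (R := ℂ) ((hd X).symm.trans hdX)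
    have eY : d Y = dX := Nat.cast_injective (R := ℂ) ((hd Y).symm.trans (hdY.trans (by rw [hdXY])))
    rw [← h2]
    refine le_trans ?_ (Finset.sum_le_sum_of_subset (Finset.subset_univ {X, Y}))
    rw [Finset.sum_pair hXY, eX, eY]
  by_contra hne
  have hk := hTI.index_modEq
  rw [hN, hT] at hk
  have hk1 : H.index ≠ 1 := fun h1 => hne (Subgroup.index_eq_one.1 h1)
  have hH : 54 ≤ Nat.card H := by
    obtain ⟨m, hm⟩ := Subgroup.card_dvd_of_le hTH
    rw [hT] at hm
    have hHpos : 0 < Nat.card H := Nat.card_pos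
    rcases Nat.lt_or_ge m 2 with hm2 | hm2
    · exfalso
      interval_cases m
      · omega
      · have hTHeq : T = H := Subgroup.eq_of_le_of_card_ge hTH (by omega)
        obtain ⟨y, hy, hy'⟩ := hreal ![2, 2, 1] (by decide)
        rw [← hTHeq] at hy
        have h5 := hy' vecE
        rw [hTI.comm y hy _ (hvT vecE), mul_inv_cancel_right] at h5
        exact absurd (hinj h5) (by decide)
    · omega
  have hcard := Subgroup.card_mul_index H
  have hmod : H.index % 27 = 1 := hk
  have hk28 : 28 ≤ H.index := by omega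
  nlinarith [Nat.mul_le_mul hH hk28]

end Cfsg.Agent.H56
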