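import Cfsg.Agent.S4303
import Cfsg.Agent.S4700
import Cfsg.Agent.H19.Cores
import Cfsg.Agent.H25.SolvablePSolvable
import Cfsg.Agent.H31.FewSylow.SmallOrder
import Cfsg.Agent.H35.Constrained
import Cfsg.Agent.H38.CyclicPairs.Reduce
import Cfsg.Agent.H84.PSolvable
import Cfsg.Agent.H90.SylowSmall
import Cfsg.Agent.H6.Basic

/-!
Fewer than `p²` Sylow `p`-subgroups: prime power number and `p`-solubility.
-/

set_option autoImplicit false
set_option maxHeartbeats 200000

namespace Cfsg.Agent.H56.SylowPP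

universe u

/-- The prime parts of `n` are congruent to one modulo `p`. -/
def PartsOne (p n : ℕ) : Prop := ∀ l : ℕ, l.Prime → l ^ n.factorization l ≡ 1 [MOD p]

theorem PartsOne.one (p : ℕ) : PartsOne p 1 := fun l _ => by simp [Nat.ModEq.refl]

theorem PartsOne.mul {p a b : ℕ} (ha0 : a ≠ 0) (hb0 : b ≠ 0) (ha : PartsOne p a)
    (hb : PartsOne p b) : PartsOne p (a * b) := fun l hl => by
  rw [Nat.factorization_mul ha0 hb0, Finsupp.add_apply, pow_add]
  simpa using (ha l hl).mul (hb l hl)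

theorem exists_min_normal {G : Type u} [Group G] [Finite G] [Nontrivial G] :
    ∃ N : Subgroup G, N.Normal ∧ N ≠ ⊥ ∧ ∀ M : Subgroup G, M.Normal → M ≤ N → M ≠ ⊥ → M = N := by
  obtain ⟨N, ⟨hN, hNne⟩, hmin⟩ :=
    (Set.toFinite {X : Subgroup G | X.Normal ∧ X ≠ ⊥}).exists_minimal
      ⟨⊤, inferInstance, top_ne_bot⟩
  exact ⟨N, hN, hNne, fun M hM hle hne => le_antisymm hle (hmin ⟨hM, hne⟩ hle)⟩

theorem card_sylow_eq_one_of_card {G : Type u} [Group G] [Finite G] {p : ℕ} [Fact p.Prime]
    (h : (∃ k, Nat.card G = p ^ k) ∨ ¬ p ∣ Nat.card G) : Nat.card (Sylow p G) = 1 := by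
  obtain ⟨P⟩ := Sylow.nonempty (p := p) (G := G)
  have hn : (P : Subgroup G).Normal := by
    rcases h with ⟨k, hk⟩ | h
    · have : (P : Subgroup G) = ⊤ := by
        refine Subgroup.eq_top_of_card_eq _ ?_
        rw [P.card_eq_multiplicity, hk, Nat.Prime.factorization_pow (Fact.out : p.Prime),
          Finsupp.single_eq_same]
      rw [this]; infer_instance
    · have : (P : Subgroup G) = ⊥ := by
        refine Subgroup.eq_bot_of_card_eq _ ?_
        rw [P.card_eq_multiplicity, Nat.factorization_eq_zero_of_not_dvd h, pow_zero]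
      rw [this]; infer_instance
  have := hn
  exact Nat.card_eq_one_iff_unique.2 ⟨by
    exact Sylow.unique_of_normal P hn |>.instSubsingleton, ⟨P⟩⟩

/-- A minimal normal `p`-soluble subgroup is a `p`-group or a `p'`-group. -/
theorem min_normal_cases {G : Type u} [Group G] [Finite G] {p : ℕ} [Fact p.Prime]
    {N : Subgroup G} [N.Normal] (hne : N ≠ ⊥)
    (hmin : ∀ M : Subgroup G, M.Normal → M ≤ N → M ≠ ⊥ → M = N) (hsol : Cfsg.IsPSolvable p N) :
    (∃ k, Nat.card N = p ^ k) ∨ ¬ p ∣ Nat.card N := by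
  obtain ⟨n, H, h0, hn, hmono, hnor, hstep⟩ := hsol
  have hNnt : Nontrivial N := (Subgroup.nontrivial_iff_ne_bot N).2 hne
  obtain ⟨i, hi0, hi1⟩ : ∃ i : Fin n, H i.castSucc = ⊥ ∧ H i.succ ≠ ⊥ := by
    by_contra hcon
    push Not at hcon
    have hall : ∀ i : Fin (n + 1), H i = ⊥ := fun i => by
      induction i using Fin.induction with
      | zero => exact h0
      | succ i ih => exact hcon i ih
    exact top_ne_bot ((hn.symm.trans (hall _)) : (⊤ : Subgroup N) = ⊥)
  have hcase := hstep i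
  rw [hi0, Subgroup.relIndex_bot_left] at hcase
  have key : ∀ C : Subgroup N, C.Characteristic → H i.succ ≤ C → C.map N.subtype = N := by
    intro C hC hle
    have := hC
    refine hmin _ ConjAct.normal_of_characteristic_of_normal (Subgroup.map_subtype_le C) fun h => ?_
    rw [Subgroup.map_eq_bot_iff_of_injective _ N.subtype_injective] at h
    exact hi1 (le_bot_iff.1 (h ▸ hle))
  rcases hcase with ⟨m, hm⟩ | hc
  · left
    have hN := key _ (H19.pCore_characteristic p N)
      (H19.le_pCore (hnor _) (IsPGroup.of_card hm))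
    have hp : IsPGroup p ((Cfsg.pCore p N).map N.subtype : Subgroup G) :=
      (H19.pCore_isPGroup p).map _
    rw [hN] at hp
    exact IsPGroup.iff_card.1 hp
  · right
    have hN := key _ (H19.pPrimeCore_characteristic p N) (H19.le_pPrimeCore (hnor _) hc)
    have hcop : (Nat.card ((Cfsg.pPrimeCore p N).map N.subtype : Subgroup G)).Coprime p :=
      (H19.pPrimeCore_coprime p).coprime_dvd_left (Subgroup.card_map_dvd _ _)
    rw [hN] at hcop
    exact (Fact.out : p.Prime).coprime_iff_not_dvd.1 hcop.symm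

theorem partsOne_of_isPSolvable : ∀ (n : ℕ) (G : Type u) [Group G] [Finite G] (p : ℕ)
    [Fact p.Prime], Nat.card G = n → Cfsg.IsPSolvable p G → PartsOne p (Nat.card (Sylow p G)) := by
  intro n
  induction n using Nat.strong_induction_on with
  | _ n ih =>
    intro G _ _ p _ hn hsol
    rcases subsingleton_or_nontrivial G with hs | hs
    · rw [card_sylow_eq_one_of_card (Or.inl ⟨0, by simp⟩)]
      exact PartsOne.one p
    obtain ⟨N, hN, hne, hmin⟩ := exists_min_normal (G := G)
    have := hN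
    have hNsol := H35.isPSolvable_subgroup hsol N
    by_cases ht : N = ⊤
    · have h := min_normal_cases hne hmin hNsol
      rw [ht, Subgroup.card_top] at h
      rw [card_sylow_eq_one_of_card h]
      exact PartsOne.one p
    obtain ⟨h1, h2, c, hc, hcl⟩ := S4303.split p N hne ht
    have hc0 : c ≠ 0 := by
      rintro rfl
      rw [mul_zero] at hc
      exact Nat.card_pos.ne' hc
    rw [hc]
    exact ((ih _ (hn ▸ h1) (G ⧸ N) p rfl
      (H84.isPSolvable_of_surjective _ (QuotientGroup.mk'_surjective N) hsol)).mul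
        Nat.card_pos.ne' Nat.card_pos.ne' (ih _ (hn ▸ h2) N p rfl hNsol)).mul
          (Nat.mul_ne_zero Nat.card_pos.ne' Nat.card_pos.ne') hc0 hcl

theorem exists_simple_factor : ∀ (n : ℕ) (G : Type u) [Group G] [Finite G] (p : ℕ)
    [Fact p.Prime], Nat.card G = n → ¬ Cfsg.IsPSolvable p G →
      ∃ (S : Type u) (_ : Group S) (_ : Finite S), IsSimpleGroup S ∧ ¬ IsCyclic S ∧
        p ∣ Nat.card S ∧ Nat.card (Sylow p S) ∣ Nat.card (Sylow p G) := by
  intro n
  induction n using Nat.strong_induction_on with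
  | _ n ih =>
    intro G _ _ p hp hn hsol
    rcases subsingleton_or_nontrivial G with hs | hs
    · exact absurd (H38.CP.isPSolvable_of_card (Or.inl ⟨0, by simp⟩)) hsol
    obtain ⟨N, hN, hne, hmin⟩ := exists_min_normal (G := G)
    have := hN
    by_cases ht : N = ⊤
    · subst ht
      have hsimp : IsSimpleGroup G :=
        ⟨fun H hH => (em (H = ⊥)).imp_right fun hb => hmin H hH le_top hb⟩
      refine ⟨G, inferInstance, inferInstance, hsimp, fun hc => hsol ?_, ?_, dvd_rfl⟩
      · let := hc.commGroup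
        exact H25.isPSolvable_of_isSolvable hp.out _ G rfl inferInstance
      · by_contra hd
        exact hsol (H38.CP.isPSolvable_of_card (Or.inr hd))
    obtain ⟨h1, h2, c, hc, -⟩ := S4303.split p N hne ht
    by_cases hNs : Cfsg.IsPSolvable p N
    · have hq : ¬ Cfsg.IsPSolvable p (G ⧸ N) := fun h =>
        hsol (H38.CP.isPSolvable_extend N (min_normal_cases hne hmin hNs) h)
      obtain ⟨S, i1, i2, hS, hnc, hpS, hd⟩ := ih _ (hn ▸ h1) (G ⧸ N) p rfl hq
      exact ⟨S, i1, i2, hS, hnc, hpS, hc ▸ (hd.mul_right _).mul_right c⟩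
    · obtain ⟨S, i1, i2, hS, hnc, hpS, hd⟩ := ih _ (hn ▸ h2) N p rfl hNs
      exact ⟨S, i1, i2, hS, hnc, hpS, hc ▸ (hd.mul_left _).mul_right c⟩

/-- The exceptional form is incompatible with a prime power number of Sylow subgroups. -/
theorem rep_false {p n q j h u : ℕ} (hp : p.Prime) (hq : q.Prime) (hn : n < p) (hh : 0 < h)
    (hu : 0 < u) (hrep : n * (u + 1) = h * u * p + u ^ 2 + u + h) (hqj : n * p + 1 = q ^ j) :
    False := by
  have hlt : n * (u + 1) < p * (u + 1) := (Nat.mul_lt_mul_right (by omega)).2 hn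
  have h1 : h = 1 := by
    by_contra hne
    have h2 : 2 * u * p ≤ h * u * p :=
      Nat.mul_le_mul_right _ (Nat.mul_le_mul_right _ (by omega))
    have h3 : p ≤ u * p := Nat.le_mul_of_pos_left p hu
    linarith [Nat.zero_le (u ^ 2)]
  subst h1
  rw [one_mul] at hrep
  have hsmall : u ^ 2 + u + 1 < p := by nlinarith
  have hid : (n * p + 1) * (u + 1) = (u * p + 1) * (p + u + 1) := by
    linear_combination p * hrep
  have hcop : Nat.Coprime (u + 1) (p + u + 1) := by
    rw [show p + u + 1 = p + (u + 1) by ring, Nat.coprime_add_self_right]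
    exact (hp.coprime_iff_not_dvd.2 fun h => by
      have := Nat.le_of_dvd (by omega) h
      nlinarith).symm
  obtain ⟨a, ha⟩ : u + 1 ∣ u * p + 1 := hcop.dvd_of_dvd_mul_right (hid ▸ dvd_mul_left _ _)
  have hab : a * (p + u + 1) = q ^ j := by
    rw [← hqj]
    refine Nat.eq_of_mul_eq_mul_right (show 0 < u + 1 by omega) ?_
    rw [hid, ha]; ring
  obtain ⟨x, -, rfl⟩ := (Nat.dvd_prime_pow hq).1 (hab ▸ dvd_mul_right a (p + u + 1))
  obtain ⟨y, -, hy⟩ := (Nat.dvd_prime_pow hq).1 (hab ▸ dvd_mul_left (p + u + 1) (q ^ x))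
  have hlt' : q ^ x < q ^ y := by
    rw [← hy]
    by_contra hle
    have : (u + 1) * (p + u + 1) ≤ (u + 1) * q ^ x := Nat.mul_le_mul_left _ (not_lt.1 hle)
    nlinarith
  have hxy : x + 1 ≤ y := (Nat.pow_lt_pow_iff_right hq.one_lt).1 hlt'
  have hge : q * q ^ x ≤ p + u + 1 := by
    rw [hy, ← pow_succ']
    exact Nat.pow_le_pow_right hq.pos hxy
  rcases Nat.lt_or_ge u 2 with hu1 | hu2
  · obtain rfl : u = 1 := by omega
    have hq2 : q ≠ 2 := by
      rintro rfl
      have h2 : 2 ∣ p + 1 + 1 := hy ▸ dvd_pow_self 2 (by omega)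
      rcases hp.eq_two_or_odd with h | h <;> omega
    have h3 : 3 * q ^ x ≤ p + 1 + 1 :=
      le_trans (Nat.mul_le_mul_right _ (by have := hq.two_le; omega)) hge
    omega
  · have h2 : 2 * q ^ x ≤ p + u + 1 := le_trans (Nat.mul_le_mul_right _ hq.two_le) hge
    have h3 : (u + 1) * (2 * q ^ x) ≤ (u + 1) * (p + u + 1) := Nat.mul_le_mul_left _ h2
    have h5 : (u - 1) * (u ^ 2 + u + 2) ≤ (u - 1) * p := Nat.mul_le_mul_left _ (by omega)
    zify [show 1 ≤ u by omega] at h3 h5 ha hu2
    nlinarith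

theorem prime_pow_dvd_cases {q j a b : ℕ} (hq : q.Prime) (hab : q ^ j ∣ a * b)
    (h : ¬ q ∣ a ∨ ¬ q ∣ b) : q ^ j ∣ a ∨ q ^ j ∣ b := by
  rcases h with h | h
  · exact Or.inr ((Nat.Coprime.pow_left j (hq.coprime_iff_not_dvd.2 h)).dvd_of_dvd_mul_left hab)
  · exact Or.inl ((Nat.Coprime.pow_left j (hq.coprime_iff_not_dvd.2 h)).dvd_of_dvd_mul_right hab)

/-- A simple group with prime power many, fewer than `p²`, Sylow subgroups forces a Mersenne prime. -/
theorem mersenne_of_simple {S : Type u} [Group S] [Finite S] [IsSimpleGroup S]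
    (hS : ¬ IsCyclic S) (p : ℕ) [hp : Fact p.Prime] (hpS : p ∣ Nat.card S)
    (hlt : Nat.card (Sylow p S) < p ^ 2) (q j : ℕ) (hq : q.Prime)
    (hqj : Nat.card (Sylow p S) = q ^ j) : 3 < p ∧ ∃ k, p + 1 = 2 ^ k := by
  have hperf := H31.FewSylow.perfect_of_simple hS
  obtain ⟨P⟩ := Sylow.nonempty (p := p) (G := S)
  have hnp : ¬ IsPGroup p S := fun h => by
    have hnt : Nontrivial S := IsSimpleGroup.toNontrivial
    have := h.isNilpotent
    exact (Group.IsSolvable.commutator_lt_top_of_nontrivial S).ne hperf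
  have hP : Nat.card P = p :=
    (H90.card_sylow_le_of_card_lt_sq hlt (H90.pCore_eq_bot_of_simple hnp) P).resolve_left
      fun h => P.ne_bot_of_dvd_card hpS (Subgroup.card_eq_one.1 h)
  have hmod : Nat.card (Sylow p S) % p = 1 := by
    have := card_sylow_modEq_one p S
    rwa [Nat.ModEq, Nat.one_mod_eq_one.2 hp.out.ne_one] at this
  obtain ⟨n, hn⟩ : ∃ n, Nat.card (Sylow p S) = n * p + 1 :=
    ⟨Nat.card (Sylow p S) / p, by
      conv_lhs => rw [← Nat.div_add_mod (Nat.card (Sylow p S)) p, hmod, mul_comm]⟩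
  have hn0 : n ≠ 0 := by
    rintro rfl
    have : Subsingleton (Sylow p S) := by
      rw [zero_mul, zero_add] at hn
      exact (Nat.card_eq_one_iff_unique.1 hn).1
    let := Fintype.ofFinite S
    have hPn : (P : Subgroup S).Normal := H31.FewSylow.normal_of_subsingleton P
    rcases IsSimpleGroup.eq_bot_or_eq_top_of_normal _ hPn with h | h
    · exact P.ne_bot_of_dvd_card hpS h
    · exact hnp ((P.isPGroup').of_equiv ((MulEquiv.subgroupCongr h).trans Subgroup.topEquiv))
  have hnlt : n < p := by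
    by_contra hle
    have : p * p ≤ n * p := Nat.mul_le_mul_right _ (not_lt.1 hle)
    rw [hn, sq] at hlt
    omega
  have hqj' : n * p + 1 = q ^ j := hn.symm.trans hqj
  have hbig : p < q ^ j := by
    have := Nat.le_mul_of_pos_left p (Nat.pos_of_ne_zero hn0)
    omega
  have hj : j ≠ 0 := by
    rintro rfl
    have := hp.out.two_le
    rw [pow_zero] at hbig
    omega
  have hqp : ¬ q ∣ p := fun h => by
    obtain rfl := (Nat.prime_dvd_prime_iff_eq hq hp.out).1 h
    have h1 : q ∣ q ^ j := dvd_pow_self q hj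
    rw [← hqj', Nat.dvd_add_right (dvd_mul_left q n)] at h1
    exact hq.ne_one (Nat.dvd_one.1 h1)
  have hcop : (q ^ j).Coprime p := Nat.Coprime.pow_left j (hq.coprime_iff_not_dvd.2 hqp)
  have hdvd : q ^ j ∣ Nat.card S :=
    hqj ▸ (P.card_dvd_index.trans (Subgroup.index_dvd_card _))
  have hQ : Cfsg.pPrimeCore p S = ⊥ := by
    have := H19.pPrimeCore_normal p S
    refine (IsSimpleGroup.eq_bot_or_eq_top_of_normal _ this).resolve_right fun h => ?_
    have h1 := H19.pPrimeCore_coprime (G := S) p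
    rw [h, Subgroup.card_top] at h1
    exact hp.out.coprime_iff_not_dvd.1 h1.symm hpS
  have hcardQ : Nat.card (S ⧸ Cfsg.pPrimeCore p S) = Nat.card S := by
    rw [← Subgroup.index_eq_card, hQ, Subgroup.index_bot]
  rcases S4700.result hperf p P hP n (by rw [hn, add_comm]) with
    ⟨F, _, _, hF, h3, ⟨e⟩⟩ | ⟨m, F, _, _, hF, hpm, h3, ⟨e⟩⟩ | ⟨h, u, hh, hu, hrep⟩
  · refine ⟨h3, ?_⟩
    have hc := H6.card_psl2_mul (F := F) hF
    rw [← Nat.card_congr e.toEquiv, hcardQ] at hc
    have hodd : p % 2 = 1 := (hp.out.eq_two_or_odd).resolve_left (by omega)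
    have hg : Nat.gcd 2 (p - 1) = 2 := Nat.gcd_eq_left (Nat.dvd_of_mod_eq_zero (by omega))
    rw [hg] at hc
    have hsq : p ^ 2 - 1 = (p - 1) * (p + 1) := by
      rw [mul_comm, ← Nat.sq_sub_sq, one_pow]
    have h2 : q ^ j * 2 ∣ (p - 1) * (p + 1) := by
      obtain ⟨c, hc'⟩ := hdvd
      obtain ⟨c', hc''⟩ : p ∣ c := hcop.symm.dvd_of_dvd_mul_left (hc' ▸ hpS)
      refine ⟨c', Nat.eq_of_mul_eq_mul_left hp.out.pos ?_⟩
      rw [← hsq, ← hc, hc', hc'']
      ring
    have hsmall : q ^ j ∣ p - 1 ∨ q ^ j ∣ p + 1 := by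
      by_cases hq2 : q = 2
      · subst hq2
        rw [← pow_succ] at h2
        rcases Nat.lt_or_ge (p % 4) 2 with h4 | h4
        · obtain ⟨w, hw⟩ : ∃ w, p + 1 = 2 * w := ⟨(p + 1) / 2, by omega⟩
          have hw2 : ¬ 2 ∣ w := by omega
          rw [hw, pow_succ', mul_left_comm] at h2
          have h5 := Nat.dvd_of_mul_dvd_mul_left two_pos h2
          exact Or.inl ((Nat.Coprime.pow_left j (Nat.prime_two.coprime_iff_not_dvd.2 hw2)).dvd_of_dvd_mul_right h5)
        · obtain ⟨w, hw⟩ : ∃ w, p - 1 = 2 * w := ⟨(p - 1) / 2, by omega⟩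
          have hw2 : ¬ 2 ∣ w := by omega
          rw [hw, pow_succ', mul_assoc] at h2
          have h5 := Nat.dvd_of_mul_dvd_mul_left two_pos h2
          exact Or.inr ((Nat.Coprime.pow_left j (Nat.prime_two.coprime_iff_not_dvd.2 hw2)).dvd_of_dvd_mul_left h5)
      · refine prime_pow_dvd_cases hq ((dvd_mul_right _ _).trans h2) ?_
        by_contra hcon
        push Not at hcon
        have h5 := Nat.dvd_sub hcon.2 hcon.1
        rw [show p + 1 - (p - 1) = 2 by omega] at h5
        exact hq2 ((Nat.prime_dvd_prime_iff_eq hq Nat.prime_two).1 h5)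
    rcases hsmall with h | h
    · have := Nat.le_of_dvd (by omega) h
      omega
    · have hle := Nat.le_of_dvd (by omega) h
      have heq : q ^ j = p + 1 := by omega
      have hq2 : q = 2 := by
        refine ((Nat.prime_dvd_prime_iff_eq Nat.prime_two hq).1 ?_).symm
        refine Nat.prime_two.dvd_of_dvd_pow (n := j) ?_
        omega
      exact ⟨j, by rw [← heq, hq2]⟩
  · exfalso
    have hc := H6.card_sl2 (F := F) hF
    rw [← Nat.card_congr e.toEquiv, hcardQ] at hc
    have hsq : (2 ^ m) ^ 2 - 1 = p * (p - 2) := by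
      rw [← one_pow 2, Nat.sq_sub_sq, hpm]
      congr 1
    rw [hsq, show (2 : ℕ) ^ m = p - 1 by omega, mul_left_comm] at hc
    rw [hc] at hdvd
    have h2 := hcop.dvd_of_dvd_mul_left hdvd
    rcases prime_pow_dvd_cases hq h2 (by
      by_contra hcon
      push Not at hcon
      have h5 := Nat.dvd_sub hcon.1 hcon.2
      rw [show p - 1 - (p - 2) = 1 by omega] at h5
      exact hq.ne_one (Nat.dvd_one.1 h5)) with h | h
    · have := Nat.le_of_dvd (by omega) h
      omega
    · have := Nat.le_of_dvd (by omega) h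
      omega
  · exact (rep_false hp.out hq hnlt hh hu hrep hqj').elim

/-- The main theorem. -/
theorem main {G : Type u} [Group G] [Finite G] (p : ℕ) [hp : Fact p.Prime]
    (hM : ¬ (3 < p ∧ ∃ k : ℕ, p + 1 = 2 ^ k)) (hn : Nat.card (Sylow p G) < p ^ 2) :
    Cfsg.IsPSolvable p G ↔ ∃ q k : ℕ, q.Prime ∧ Nat.card (Sylow p G) = q ^ k := by
  constructor
  · intro hsol
    have hP := partsOne_of_isPSolvable _ G p rfl hsol
    set n := Nat.card (Sylow p G) with hn'
    have hn0 : n ≠ 0 := Nat.card_pos.ne'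
    by_cases h1 : n = 1
    · exact ⟨2, 0, Nat.prime_two, by rw [h1, pow_zero]⟩
    obtain ⟨l, hl, hld⟩ := Nat.exists_prime_and_dvd h1
    refine ⟨l, n.factorization l, hl, ?_⟩
    by_contra hne
    have hd : l ^ n.factorization l ∣ n := Nat.ordProj_dvd n l
    obtain ⟨r, hr, hrd⟩ := Nat.exists_prime_and_dvd (n := n / l ^ n.factorization l) (fun h => hne (by
      have := Nat.div_mul_cancel hd
      rw [h, one_mul] at this
      exact this.symm))
    have hrl : r ≠ l := by
      rintro rfl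
      exact Nat.not_dvd_ordCompl hr hn0 hrd
    have hrn : r ∣ n := hrd.trans (Nat.div_dvd_of_dvd hd)
    have key : ∀ s : ℕ, s.Prime → s ∣ n → p + 1 ≤ s ^ n.factorization s := fun s hs hsd => by
      have h2 := hP s hs
      have h3 : 1 < s ^ n.factorization s :=
        Nat.one_lt_pow (hs.factorization_pos_of_dvd hn0 hsd).ne' hs.one_lt
      have h4 := (Nat.modEq_iff_dvd' h3.le).1 h2.symm
      have h5 := Nat.le_of_dvd (by omega) h4
      omega
    have hprod : l ^ n.factorization l * r ^ n.factorization r ≤ n := by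
      refine Nat.le_of_dvd (by omega) (Nat.Coprime.mul_dvd_of_dvd_of_dvd ?_ hd (Nat.ordProj_dvd n r))
      exact Nat.Coprime.pow _ _ ((Nat.coprime_primes hl hr).2 (Ne.symm hrl))
    have hmul := Nat.mul_le_mul (key l hl hld) (key r hr hrn)
    nlinarith
  · rintro ⟨q, k, hq, hk⟩
    by_contra hsol
    obtain ⟨S, _, _, hS, hnc, hpS, hd⟩ := exists_simple_factor _ G p rfl hsol
    obtain ⟨j, -, hj⟩ := (Nat.dvd_prime_pow hq).1 (hk ▸ hd)
    exact hM (mersenne_of_simple hnc p hpS
      (lt_of_le_of_lt (Nat.le_of_dvd Nat.card_pos hd) hn) q j hq hj)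

end Cfsg.Agent.H56.SylowPP
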